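import Cfsg.Agent.H24.BCRcv
import Cfsg.Agent.H88.NormModel
import Cfsg.Agent.H86.FusSylow

set_option autoImplicit false
set_option maxHeartbeats 800000

/-!
Piece NSAT of the saturation criterion (team project S5110): overgroups of `V` coming from a marked
pair are saturated in the normalizer system of `V`.
-/

namespace Cfsg.Agent.H24.BC

open Cfsg Cfsg.FusionSystem Cfsg.Agent.H86 Cfsg.Agent.H87

variable {Ω : Type*} [Group Ω] {S : Subgroup Ω}

theorem normalizer_satClass [Finite S] {p : ℕ} [Fact p.Prime] (hS : IsPGroup p S) {F : FusionSystem S} {V : Subgroup Ω} (hVS : V ≤ S) {E : FusionSystem (normalizerIn S V)} (hE : F.IsNormalizerSystem V E) {X T' P' : Subgroup Ω} {f₀ ψ : Ω → Ω} (hVX : V ≤ X) (hXN : X ≤ normalizerIn S V) (hf₀ : Mor F X f₀) (hT' : imgS X f₀ = T') (hP' : imgS V f₀ = P') (hmp : MaxPair F p T' P') (hψ : Mor F (normalizerIn S P') ψ) (hψP : imgS P' ψ = V) : SatClass E p X := by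
  have hT'S : T' ≤ S := hmp.fa.1
  have hP'S : P' ≤ S := hmp.le.trans hT'S
  have hP'N : P' ≤ normalizerIn S P' := H86.le_normalizerIn hP'S
  have hψT : Mor F T' ψ := hψ.restrict hmp.nor
  have hψP' : Mor F P' ψ := hψ.restrict hP'N
  have hX'N : imgS T' ψ ≤ normalizerIn S V := by
    intro y hy
    obtain ⟨x, hx, rfl⟩ := hψT.mem_imgS.1 hy
    have := map_mem_normalizerIn hψ hP'N le_rfl (hmp.nor hx)
    rwa [hψP] at this
  have hVX' : V ≤ imgS T' ψ := by
    rw [← hψP]; exact hψT.imgS_mono hmp.le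
  have hNS : normalizerIn S V ≤ S := normalizerIn_le' S V
  have hNp : IsPGroup p (normalizerIn S V) := hS.to_le hNS
  have : Finite (normalizerIn S V) := finite_of_le hNS
  have : Finite T' := finite_of_le hT'S
  have : Finite (imgS T' ψ) := finite_of_le (hX'N.trans hNS)
  obtain ⟨e, he, hesymm⟩ : ∃ e : T' ≃* imgS T' ψ, (∀ x : T', ((e x : imgS T' ψ) : Ω) = ψ x) ∧
      ∀ y : imgS T' ψ, ((e.symm y : T') : Ω) = invOn T' ψ y :=
    ⟨isoEquiv hψT rfl, fun x => rfl, isoEquiv_symm_apply hψT rfl⟩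
  -- transport of the automorphisms induced by `N_S(T') ⊓ N_S(P')`
  have hle1 : (autInducedBy (normalizerIn S T' ⊓ normalizerIn S P') T').map
      (MulAut.congr e).toMonoidHom ≤ autInducedBy (normalizerIn S V) (imgS T' ψ) := by
    rintro _ ⟨α, hα, rfl⟩
    obtain ⟨g, hg, H⟩ := (mem_autInducedBy_iff _ T' α).1 hα
    have hgP : g ∈ normalizerIn S P' := (Subgroup.mem_inf.1 hg).2
    rw [mem_autInducedBy_iff]
    refine ⟨ψ g, ?_, fun y => ?_⟩
    · have := map_mem_normalizerIn hψ hP'N le_rfl hgP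
      rwa [hψP] at this
    · obtain ⟨x, rfl⟩ := e.surjective y
      show (((MulAut.congr e α) (e x) : imgS T' ψ) : Ω) = _
      rw [congr_apply_apply, he, he, H, hψ.map_mul (mul_mem hgP (hmp.nor x.2)) (inv_mem hgP),
        hψ.map_mul hgP (hmp.nor x.2), hψ.map_inv hgP]
  -- the automorphisms of the image in the normalizer system
  have hle2 : E.autGroup (imgS T' ψ) ≤
      (F.autGroup T' ⊓ stabAut T' P').map (MulAut.congr e).toMonoidHom := by
    intro β hβ
    have h1 : Mor E (imgS T' ψ) (autFun _ β) := (mem_autGroup_iff hX'N β).1 hβ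
    obtain ⟨-, -, f', hf', hf'f, hf'V⟩ := (H88.mor_normalizerSystem_iff hE).1 h1
    have h2 : Mor F (imgS T' ψ) (autFun _ β) := (hf'.restrict le_sup_left).congr hf'f
    have h3 : imgS V (autFun (imgS T' ψ) β) = V := by
      rw [← (hf'.restrict le_sup_right).imgS_congr (fun x hx => hf'f x (hVX' hx))]; exact hf'V
    have hV' := h2.restrict hVX'
    have hβV : ∀ y : imgS T' ψ, (y : Ω) ∈ V ↔ ((β y : imgS T' ψ) : Ω) ∈ V := by
      intro y
      constructor
      · intro hy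
        have h4 := hV'.mem_imgS_of_mem hy
        rw [h3, autFun_apply β y] at h4
        exact h4
      · intro hy
        rw [← h3] at hy
        obtain ⟨v, hv, hvy⟩ := hV'.mem_imgS.1 hy
        rw [← autFun_apply β y] at hvy
        have h4 := h2.injOn (hVX' hv) y.2 hvy
        rw [← h4]; exact hv
    have hβF : β ∈ F.autGroup (imgS T' ψ) := (mem_autGroup_iff (hX'N.trans hNS) β).2 h2
    refine ⟨MulAut.congr e.symm β, Subgroup.mem_inf.2 ⟨?_, ?_⟩, ?_⟩
    · exact congr_mem_autGroup hψT.inv hψT.imgS_inv e.symm hesymm hβF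
    · rw [mem_stabAut]
      intro x
      have key : ∀ t : T', (t : Ω) ∈ P' ↔ ((e t : imgS T' ψ) : Ω) ∈ V := by
        intro t
        rw [he, ← hψP, hψP'.mem_imgS]
        constructor
        · intro ht; exact ⟨t, ht, rfl⟩
        · rintro ⟨u, hu, hut⟩
          have h4 := hψT.injOn (hmp.le hu) t.2 hut
          rw [← h4]; exact hu
      have h5 : e ((MulAut.congr e.symm β) x) = β (e x) := by simp [MulAut.congr]
      rw [key x, key, hβV, h5]
    · ext y
      simp [MulAut.congr]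
  -- cardinalities
  have hSgK : autInducedBy (normalizerIn S T' ⊓ normalizerIn S P') T' ≤
      F.autGroup T' ⊓ stabAut T' P' := by
    intro α hα
    refine Subgroup.mem_inf.2 ⟨autInducedBy_le_autGroup F hT'S
      (H86.autInducedBy_mono T' (inf_le_left.trans (normalizerIn_le' S T')) hα), ?_⟩
    obtain ⟨g, hg, H⟩ := (mem_autInducedBy_iff _ T' α).1 hα
    have hgP : g ∈ Subgroup.normalizer (P' : Set Ω) :=
      (mem_normalizerIn_iff.1 (Subgroup.mem_inf.1 hg).2).2
    rw [mem_stabAut]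
    intro x
    rw [H]
    exact Subgroup.mem_normalizer_iff.1 hgP x
  have hinj : Function.Injective (MulAut.congr e).toMonoidHom := (MulAut.congr e).injective
  have hcSg : Nat.card (autInducedBy (normalizerIn S T' ⊓ normalizerIn S P') T') =
      p ^ (Nat.card ↥(F.autGroup T' ⊓ stabAut T' P')).factorization p :=
    (isSylIn_iff_card hSgK).1 hmp.syl
  have hBA : autInducedBy (normalizerIn S V) (imgS T' ψ) ≤ E.autGroup (imgS T' ψ) :=
    autInducedBy_le_autGroup E hX'N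
  have hBp : IsPGroup p (autInducedBy (normalizerIn S V) (imgS T' ψ)) :=
    autInducedBy_isPGroup hNp _
  have hdvd1 : p ^ (Nat.card ↥(E.autGroup (imgS T' ψ))).factorization p ∣
      Nat.card ((autInducedBy (normalizerIn S T' ⊓ normalizerIn S P') T').map
        (MulAut.congr e).toMonoidHom) := by
    rw [Subgroup.card_map_of_injective hinj, hcSg]
    apply pow_dvd_pow
    have hd : Nat.card ↥(E.autGroup (imgS T' ψ)) ∣ Nat.card ↥(F.autGroup T' ⊓ stabAut T' P') := by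
      rw [← Subgroup.card_map_of_injective hinj]
      exact Subgroup.card_dvd_of_le hle2
    exact (Nat.factorization_le_iff_dvd Nat.card_pos.ne' Nat.card_pos.ne').2 hd p
  have hSyl : IsSylIn p (autInducedBy (normalizerIn S V) (imgS T' ψ)) (E.autGroup (imgS T' ψ)) :=
    isSylIn_of_card_le hBA hBp (hdvd1.trans (Subgroup.card_dvd_of_le hle1))
  have hEq : (autInducedBy (normalizerIn S T' ⊓ normalizerIn S P') T').map
      (MulAut.congr e).toMonoidHom = autInducedBy (normalizerIn S V) (imgS T' ψ) :=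
    Subgroup.eq_of_le_of_card_ge hle1
      (Nat.le_of_dvd Nat.card_pos ((card_dvd_of_isPGroup_le hBA hBp).trans hdvd1))
  refine ⟨imgS T' ψ, ?_, ⟨hX'N, hSyl⟩, ?_⟩
  · rw [H86.isConj_iff]
    have hmaps : ∀ x ∈ X, f₀ x ∈ T' := fun x hx => by rw [← hT']; exact hf₀.mem_imgS_of_mem hx
    have hcomp : Mor F X (ψ ∘ f₀) := hf₀.comp hψT hmaps
    refine ⟨ψ ∘ f₀, (H88.mor_normalizerSystem_iff hE).2 ⟨hXN,
      fun x hx => hX'N (hψT.mem_imgS_of_mem (hmaps x hx)), ψ ∘ f₀, ?_, fun _ _ => rfl, ?_⟩, ?_⟩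
    · rw [sup_eq_left.2 hVX]; exact hcomp
    · rw [(hf₀.restrict hVX).imgS_comp hψT (fun x hx => hmaps x (hVX hx)), hP', hψP]
    · rw [hf₀.imgS_comp hψT hmaps, hT']
  · refine receptive_of hX'N (fun Y φ hφ himg M hM => ?_)
    obtain ⟨hYN, hφN, φ₁, hφ₁, hφ₁φ, hφ₁V⟩ := (H88.mor_normalizerSystem_iff hE).1 hφ
    have hVY : V ≤ Y := by
      intro v hv
      have h1 : φ₁ v ∈ V := by
        have := (hφ₁.restrict le_sup_right).mem_imgS_of_mem hv
        rwa [hφ₁V] at this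
      have h2 : φ₁ v ∈ imgS Y φ := by rw [himg]; exact hVX' h1
      obtain ⟨y, hy, hyv⟩ := hφ.mem_imgS.1 h2
      rw [← hφ₁φ y hy] at hyv
      have h4 := hφ₁.injOn (Subgroup.mem_sup_left hy) (Subgroup.mem_sup_right hv) hyv
      rw [← h4]; exact hy
    have hφF : Mor F Y φ := (hφ₁.restrict le_sup_left).congr hφ₁φ
    have hφV : imgS V φ = V := by
      rw [← (hφ₁.restrict le_sup_right).imgS_congr (fun x hx => hφ₁φ x (hVY hx))]; exact hφ₁V
    have hφmem : ∀ x ∈ Y, φ x ∈ imgS T' ψ := fun x hx => by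
      rw [← himg]; exact hφF.mem_imgS_of_mem hx
    have hlam : Mor F Y (invOn T' ψ ∘ φ) := hφF.comp hψT.inv hφmem
    have hlamimg : imgS Y (invOn T' ψ ∘ φ) = T' := by
      rw [hφF.imgS_comp hψT.inv hφmem, himg, hψT.imgS_inv]
    have hlamψ : ∀ x ∈ Y, ψ (invOn T' ψ (φ x)) = φ x := fun x hx =>
      hψT.apply_invOn (hφmem x hx)
    have hlamT : ∀ x ∈ Y, invOn T' ψ (φ x) ∈ T' := fun x hx => hψT.invOn_mem (hφmem x hx)
    have hYM : Y ≤ M := by
      intro y hy
      rw [hM]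
      refine ⟨hYN hy, Subgroup.le_normalizer hy, φ y, hφN y hy, fun x hx => ?_⟩
      rw [hφF.map_mul (Y.mul_mem hy hx) (Y.inv_mem hy), hφF.map_mul hy hx, hφF.map_inv hy]
    have hMN : M ≤ normalizerIn S V := fun g hg => ((hM g).1 hg).1
    have hext : ∀ g ∈ M, g ∈ S ∧ g ∈ Subgroup.normalizer (Y : Set Ω) ∧
        ∃ h ∈ S, ∀ x ∈ Y, (invOn T' ψ ∘ φ) (g * x * g⁻¹) = h * (invOn T' ψ ∘ φ) x * h⁻¹ := by
      intro g hg
      obtain ⟨hgN, hgY, h₀, hh₀, H₀⟩ := (hM g).1 hg
      refine ⟨hNS hgN, hgY, ?_⟩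
      have hh₀X : h₀ ∈ Subgroup.normalizer ((imgS T' ψ : Subgroup Ω) : Set Ω) := by
        rw [Subgroup.mem_normalizer_iff]
        intro y
        rw [← himg, hφF.mem_imgS, hφF.mem_imgS]
        constructor
        · rintro ⟨x, hx, rfl⟩
          exact ⟨g * x * g⁻¹, conj_mem_of_mem_normalizer hgY hx, H₀ x hx⟩
        · rintro ⟨x, hx, hxy⟩
          refine ⟨g⁻¹ * x * g, conj_inv_mem_of_mem_normalizer hgY hx, ?_⟩
          have h5 := H₀ (g⁻¹ * x * g) (conj_inv_mem_of_mem_normalizer hgY hx)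
          have h6 : g * (g⁻¹ * x * g) * g⁻¹ = x := by group
          rw [h6, hxy] at h5
          exact (mul_left_cancel (mul_right_cancel h5)).symm
      obtain ⟨β₀, hβ₀⟩ := exists_conjAut hh₀X
      have hβ₀B : β₀ ∈ autInducedBy (normalizerIn S V) (imgS T' ψ) :=
        (mem_autInducedBy_iff _ _ β₀).2 ⟨h₀, hh₀, hβ₀⟩
      rw [← hEq] at hβ₀B
      obtain ⟨α₀, hα₀, hα₀β₀⟩ := hβ₀B
      have h8 : MulAut.congr e α₀ = β₀ := hα₀β₀
      obtain ⟨h', hh', Hh'⟩ := (mem_autInducedBy_iff _ T' α₀).1 hα₀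
      have hh'T : h' ∈ normalizerIn S T' := (Subgroup.mem_inf.1 hh').1
      refine ⟨h', (mem_normalizerIn_iff.1 hh'T).1, fun x hx => ?_⟩
      show invOn T' ψ (φ (g * x * g⁻¹)) = h' * invOn T' ψ (φ x) * h'⁻¹
      have ht := hlamT x hx
      have hconjT : h' * invOn T' ψ (φ x) * h'⁻¹ ∈ T' :=
        conj_mem_of_mem_normalizer (mem_normalizerIn_iff.1 hh'T).2 ht
      have h9 : (((MulAut.congr e α₀) (e ⟨_, ht⟩) : imgS T' ψ) : Ω) =
          ((β₀ (e ⟨_, ht⟩) : imgS T' ψ) : Ω) := by rw [h8]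
      rw [congr_apply_apply, he, Hh', hβ₀, he] at h9
      have h7 : ψ (h' * invOn T' ψ (φ x) * h'⁻¹) = h₀ * φ x * h₀⁻¹ := by
        have h10 : ψ (h' * invOn T' ψ (φ x) * h'⁻¹) = h₀ * ψ (invOn T' ψ (φ x)) * h₀⁻¹ := h9
        rw [hlamψ x hx] at h10
        exact h10
      rw [H₀ x hx, ← h7, invOn_apply hψT.injOn hconjT]
    obtain ⟨ρ, hρ, hρlam⟩ := receptive_extend hmp.rc hlam hlamimg hYM hext
    have hVM : V ≤ M := hVY.trans hYM
    have hρV : imgS V ρ = P' := by
      rw [(hρ.restrict hVM).imgS_congr (fun x hx => hρlam x (hVY hx)),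
        (hφF.restrict hVY).imgS_comp hψT.inv (fun x hx => hφmem x (hVY hx)), hφV]
      have h10 := imgS_invOn_imgS hψT hmp.le
      rwa [hψP] at h10
    have hρN : ∀ x ∈ M, ρ x ∈ normalizerIn S P' := fun x hx => by
      have := map_mem_normalizerIn hρ hVM hMN hx
      rwa [hρV] at this
    have hφ' : Mor F M (ψ ∘ ρ) := hρ.comp hψ hρN
    refine ⟨ψ ∘ ρ, (H88.mor_normalizerSystem_iff hE).2 ⟨hMN, fun x hx => ?_, ψ ∘ ρ, ?_,
      fun _ _ => rfl, ?_⟩, fun x hx => ?_⟩
    · have := map_mem_normalizerIn hψ hP'N le_rfl (hρN x hx)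
      rwa [hψP] at this
    · rw [sup_eq_left.2 hVM]; exact hφ'
    · rw [(hρ.restrict hVM).imgS_comp hψ (fun x hx => hρN x (hVM hx)), hρV, hψP]
    · show ψ (ρ x) = φ x
      rw [hρlam x hx]
      exact hlamψ x hx

end Cfsg.Agent.H24.BC
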