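import Cfsg.Agent.H87.BCDefs
import Cfsg.Agent.H86.PredSys

set_option autoImplicit false
set_option maxHeartbeats 400000

/-!
Piece RCV of the saturation criterion (team project S5110): in a class of subgroups of a fusion system
all of whose strict overgroup pairs have the extension property, the member with the largest normalizer
receives every member of the class by a map defined on the whole normalizer.
-/

namespace Cfsg.Agent.H24.BC

open Cfsg Cfsg.FusionSystem Cfsg.Agent.H86 Cfsg.Agent.H87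

variable {Ω : Type*} [Group Ω] {S : Subgroup Ω}

lemma normalizerIn_le' (S A : Subgroup Ω) : normalizerIn S A ≤ S := inf_le_left

/-- The image of an element normalizing `A` normalizes the image of `A`. -/
lemma map_mem_normalizerIn {F : FusionSystem S} {N A : Subgroup Ω} {ψ : Ω → Ω} (hψ : Mor F N ψ)
    (hAN : A ≤ N) (hN : N ≤ normalizerIn S A) {x : Ω} (hx : x ∈ N) :
    ψ x ∈ normalizerIn S (imgS A ψ) := by
  rw [mem_normalizerIn_iff]
  refine ⟨hψ.mem hx, ?_⟩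
  have hA := hψ.restrict hAN
  have hxn := (mem_normalizerIn_iff.1 (hN hx)).2
  rw [Subgroup.mem_normalizer_iff]
  intro y
  rw [hA.mem_imgS, hA.mem_imgS]
  constructor
  · rintro ⟨a, ha, rfl⟩
    refine ⟨x * a * x⁻¹, (Subgroup.mem_normalizer_iff.1 hxn a).1 ha, ?_⟩
    rw [hψ.map_mul (N.mul_mem hx (hAN ha)) (N.inv_mem hx), hψ.map_mul hx (hAN ha), hψ.map_inv hx]
  · rintro ⟨a, ha, hay⟩
    refine ⟨x⁻¹ * a * x, ?_, ?_⟩
    · refine (Subgroup.mem_normalizer_iff.1 hxn (x⁻¹ * a * x)).2 ?_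
      have : x * (x⁻¹ * a * x) * x⁻¹ = a := by group
      rw [this]
      exact ha
    · rw [hψ.map_mul (N.mul_mem (N.inv_mem hx) (hAN ha)) hx, hψ.map_mul (N.inv_mem hx) (hAN ha),
        hψ.map_inv hx, hay]
      group

lemma rcv_refl (F : FusionSystem S) (A : Subgroup Ω) : Rcv F A A :=
  ⟨fun x => x, Mor.id F (normalizerIn_le' S A), Mor.imgS_id A⟩

lemma rcv_trans {F : FusionSystem S} {A B C : Subgroup Ω} (hA : A ≤ S) (h1 : Rcv F A B)
    (h2 : Rcv F B C) : Rcv F A C := by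
  obtain ⟨ψ₁, hψ₁, rfl⟩ := h1
  obtain ⟨ψ₂, hψ₂, rfl⟩ := h2
  have hmaps : ∀ x ∈ normalizerIn S A, ψ₁ x ∈ normalizerIn S (imgS A ψ₁) := fun x hx =>
    map_mem_normalizerIn hψ₁ (H86.le_normalizerIn hA) le_rfl hx
  refine ⟨ψ₂ ∘ ψ₁, hψ₁.comp hψ₂ hmaps, ?_⟩
  exact (hψ₁.restrict (H86.le_normalizerIn hA)).imgS_comp hψ₂
    (fun x hx => hmaps x (H86.le_normalizerIn hA hx))

/-- Two subgroups are received by a common third one. -/
def CB (F : FusionSystem S) (A B : Subgroup Ω) : Prop := ∃ C, Rcv F A C ∧ Rcv F B C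

lemma imgS_invOn_imgS {F : FusionSystem S} {N Q : Subgroup Ω} {f : Ω → Ω} (hf : Mor F N f)
    (hQ : Q ≤ N) : imgS (imgS Q f) (invOn N f) = Q := by
  have h1 : Mor F (imgS Q f) (invOn N f) := hf.inv.restrict (hf.imgS_mono hQ)
  ext y
  rw [h1.mem_imgS]
  constructor
  · rintro ⟨x, hx, rfl⟩
    obtain ⟨q, hq, rfl⟩ := (hf.restrict hQ).mem_imgS.1 hx
    rw [invOn_apply hf.injOn (hQ hq)]
    exact hq
  · intro hy
    exact ⟨f y, (hf.restrict hQ).mem_imgS_of_mem hy, invOn_apply hf.injOn (hQ hy)⟩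

lemma imgS_imgS_invOn {F : FusionSystem S} {X Q : Subgroup Ω} {f : Ω → Ω} (hf : Mor F X f)
    (hQ : Q ≤ imgS X f) : imgS (imgS Q (invOn X f)) f = Q := by
  have h1 : Mor F Q (invOn X f) := hf.inv.restrict hQ
  have hle : imgS Q (invOn X f) ≤ X := by
    intro y hy
    obtain ⟨x, hx, rfl⟩ := h1.mem_imgS.1 hy
    exact hf.invOn_mem (hQ hx)
  have h2 : Mor F (imgS Q (invOn X f)) f := hf.restrict hle
  ext y
  rw [h2.mem_imgS]
  constructor
  · rintro ⟨x, hx, rfl⟩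
    obtain ⟨q, hq, rfl⟩ := h1.mem_imgS.1 hx
    rw [hf.apply_invOn (hQ hq)]
    exact hq
  · intro hy
    exact ⟨invOn X f y, h1.mem_imgS_of_mem hy, hf.apply_invOn (hQ hy)⟩

/-- The link between the two images of `B` under two maps defined on `N_S(B)`. -/
lemma mid {F : FusionSystem S} {B : Subgroup Ω} {χ₁ χ₂ : Ω → Ω} (hB : B ≤ S)
    (h1 : Mor F (normalizerIn S B) χ₁) (h2 : Mor F (normalizerIn S B) χ₂) :
    imgS B χ₁ ≤ imgS (normalizerIn S B) χ₁ ∧
    imgS (normalizerIn S B) χ₁ ≤ normalizerIn S (imgS B χ₁) ∧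
    Mor F (imgS (normalizerIn S B) χ₁) (χ₂ ∘ invOn (normalizerIn S B) χ₁) ∧
    imgS (imgS B χ₁) (χ₂ ∘ invOn (normalizerIn S B) χ₁) = imgS B χ₂ := by
  have hBN := H86.le_normalizerIn hB
  refine ⟨h1.imgS_mono hBN, ?_, ?_, ?_⟩
  · intro y hy
    obtain ⟨x, hx, rfl⟩ := h1.mem_imgS.1 hy
    exact map_mem_normalizerIn h1 hBN le_rfl hx
  · exact h1.inv.comp h2 (fun x hx => h1.invOn_mem hx)
  · have h3 : Mor F (imgS B χ₁) (invOn (normalizerIn S B) χ₁) :=
      h1.inv.restrict (h1.imgS_mono hBN)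
    rw [h3.imgS_comp h2 (fun x hx => h1.invOn_mem (h1.imgS_mono hBN hx)), imgS_invOn_imgS h1 hBN]

/-- Linked members of the class are received by a common member. -/
theorem claimA [Finite S] {p : ℕ} [Fact p.Prime] (hS : IsPGroup p S) {F : FusionSystem S}
    {P : Subgroup Ω}
    (hK : ∀ T Q : Subgroup Ω, Q ≤ T → T ≤ normalizerIn S Q → Nat.card P < Nat.card T → ∃ (T' Q' : Subgroup Ω) (f₀ : Ω → Ω), Mor F T f₀ ∧ imgS T f₀ = T' ∧ imgS Q f₀ = Q' ∧ ∀ (T₁ Q₁ : Subgroup Ω) (g : Ω → Ω), Q₁ ≤ T₁ → T₁ ≤ normalizerIn S Q₁ → Mor F T₁ g → imgS T₁ g = T' → imgS Q₁ g = Q' → ∃ ψ, Mor F (normalizerIn S T₁ ⊓ normalizerIn S Q₁) ψ ∧ imgS T₁ ψ = T' ∧ imgS Q₁ ψ = Q') :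
    ∀ (n : ℕ) (T Q : Subgroup Ω) (θ : Ω → Ω), Nat.card S - Nat.card T = n → Q ≤ T →
      T ≤ normalizerIn S Q → Nat.card P < Nat.card T → Mor F T θ → CB F Q (imgS Q θ) := by
  intro n
  induction n using Nat.strong_induction_on with
  | _ n ih =>
    intro T Q θ hn hQT hTN hPT hθ
    have hTS : T ≤ S := hθ.le
    have hQS : Q ≤ S := hQT.trans hTS
    obtain ⟨T', Q', f₀, hf₀, hT', hQ', EP⟩ := hK T Q hQT hTN hPT
    have hQ'S : Q' ≤ S := by rw [← hQ']; exact (hf₀.restrict hQT).imgS_le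
    have key : ∀ (Ti Qi : Subgroup Ω) (ψ : Ω → Ω), Qi ≤ Ti → Ti ≤ normalizerIn S Qi →
        Nat.card Ti = Nat.card T → Mor F (normalizerIn S Ti ⊓ normalizerIn S Qi) ψ →
        imgS Qi ψ = Q' →
        Rcv F Qi Q' ∨ (Nat.card T < Nat.card (normalizerIn S Q') ∧ CB F Qi Q') := by
      intro Ti Qi ψ hQTi hTNi hcard hψ hψQ
      have hNiS : normalizerIn S Qi ≤ S := normalizerIn_le' S Qi
      have hTiS : Ti ≤ S := hTNi.trans hNiS
      by_cases hfull : Ti = normalizerIn S Qi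
      · left
        refine ⟨ψ, hψ.restrict (le_inf ?_ le_rfl), hψQ⟩
        rw [hfull]
        exact H86.le_normalizerIn hNiS
      · right
        have hlt : Ti < normalizerIn S Qi := lt_of_le_of_ne hTNi hfull
        have : Finite (normalizerIn S Qi) := finite_of_le hNiS
        have hlt2 : Ti < normalizerIn (normalizerIn S Qi) Ti := lt_normalizerIn (hS.to_le hNiS) hlt
        have hle3 : normalizerIn (normalizerIn S Qi) Ti ≤
            normalizerIn S Ti ⊓ normalizerIn S Qi := by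
          intro x hx
          rw [mem_normalizerIn_iff] at hx
          exact Subgroup.mem_inf.2 ⟨mem_normalizerIn_iff.2 ⟨hNiS hx.1, hx.2⟩, hx.1⟩
        have hTU : Ti < normalizerIn S Ti ⊓ normalizerIn S Qi := lt_of_lt_of_le hlt2 hle3
        have hUS : normalizerIn S Ti ⊓ normalizerIn S Qi ≤ S :=
          inf_le_left.trans (normalizerIn_le' S Ti)
        have : Finite ↥(normalizerIn S Ti ⊓ normalizerIn S Qi) := finite_of_le hUS
        have hcU : Nat.card T < Nat.card ↥(normalizerIn S Ti ⊓ normalizerIn S Qi) := by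
          rw [← hcard]; exact card_lt_card_of_lt hTU
        have hQU : Qi ≤ normalizerIn S Ti ⊓ normalizerIn S Qi := hQTi.trans hTU.le
        have hUN : normalizerIn S Ti ⊓ normalizerIn S Qi ≤ normalizerIn S Qi := inf_le_right
        constructor
        · have hle : imgS (normalizerIn S Ti ⊓ normalizerIn S Qi) ψ ≤ normalizerIn S Q' := by
            intro y hy
            obtain ⟨x, hx, rfl⟩ := hψ.mem_imgS.1 hy
            rw [← hψQ]
            exact map_mem_normalizerIn hψ hQU hUN hx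
          have : Finite (normalizerIn S Q') := finite_of_le (normalizerIn_le' S Q')
          calc Nat.card T < Nat.card ↥(normalizerIn S Ti ⊓ normalizerIn S Qi) := hcU
            _ = Nat.card (imgS (normalizerIn S Ti ⊓ normalizerIn S Qi) ψ) := hψ.card_imgS.symm
            _ ≤ Nat.card (normalizerIn S Q') := Subgroup.card_le_of_le hle
        · have hcS : Nat.card ↥(normalizerIn S Ti ⊓ normalizerIn S Qi) ≤ Nat.card S :=
            Subgroup.card_le_of_le hUS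
          have := ih (Nat.card S - Nat.card ↥(normalizerIn S Ti ⊓ normalizerIn S Qi)) (by omega)
            (normalizerIn S Ti ⊓ normalizerIn S Qi) Qi ψ rfl hQU hUN (hPT.trans hcU) hψ
          rwa [hψQ] at this
    -- first end of the link
    obtain ⟨ψ₁, hψ₁, -, hψ₁Q⟩ := EP T Q f₀ hQT hTN hf₀ hT' hQ'
    have r1 := key T Q ψ₁ hQT hTN rfl hψ₁ hψ₁Q
    -- second end of the link
    have hQT₂ : imgS Q θ ≤ imgS T θ := hθ.imgS_mono hQT
    have hQ₂S : imgS Q θ ≤ S := (hθ.restrict hQT).imgS_le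
    have hTN₂ : imgS T θ ≤ normalizerIn S (imgS Q θ) := by
      intro y hy
      obtain ⟨x, hx, rfl⟩ := hθ.mem_imgS.1 hy
      exact map_mem_normalizerIn hθ hQT hTN hx
    have hg : Mor F (imgS T θ) (f₀ ∘ invOn T θ) := hθ.inv.comp hf₀ (fun x hx => hθ.invOn_mem hx)
    have hgT : imgS (imgS T θ) (f₀ ∘ invOn T θ) = T' := by
      rw [hθ.inv.imgS_comp hf₀ (fun x hx => hθ.invOn_mem hx), hθ.imgS_inv, hT']
    have hgQ : imgS (imgS Q θ) (f₀ ∘ invOn T θ) = Q' := by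
      have h3 : Mor F (imgS Q θ) (invOn T θ) := hθ.inv.restrict hQT₂
      rw [h3.imgS_comp hf₀ (fun x hx => hθ.invOn_mem (hQT₂ hx)), imgS_invOn_imgS hθ hQT, hQ']
    obtain ⟨ψ₂, hψ₂, -, hψ₂Q⟩ := EP (imgS T θ) (imgS Q θ) _ hQT₂ hTN₂ hg hgT hgQ
    have r2 := key (imgS T θ) (imgS Q θ) ψ₂ hQT₂ hTN₂ hθ.card_imgS hψ₂ hψ₂Q
    -- combination
    by_cases hc : Nat.card T < Nat.card (normalizerIn S Q')
    · have c1 : CB F Q Q' := by
        rcases r1 with h | h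
        · exact ⟨Q', h, rcv_refl F Q'⟩
        · exact h.2
      have c2 : CB F (imgS Q θ) Q' := by
        rcases r2 with h | h
        · exact ⟨Q', h, rcv_refl F Q'⟩
        · exact h.2
      obtain ⟨C₁, hQC₁, ⟨χ₁, hχ₁, rfl⟩⟩ := c1
      obtain ⟨C₂, hQC₂, ⟨χ₂, hχ₂, rfl⟩⟩ := c2
      obtain ⟨m1, m2, m3, m4⟩ := mid hQ'S hχ₁ hχ₂
      have hcT : Nat.card (imgS (normalizerIn S Q') χ₁) = Nat.card (normalizerIn S Q') :=
        hχ₁.card_imgS
      have hcS : Nat.card (imgS (normalizerIn S Q') χ₁) ≤ Nat.card S :=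
        Subgroup.card_le_of_le hχ₁.imgS_le
      have := ih (Nat.card S - Nat.card (imgS (normalizerIn S Q') χ₁)) (by omega) _ _ _ rfl m1 m2
        (by omega) m3
      rw [m4] at this
      obtain ⟨C, hC1, hC2⟩ := this
      exact ⟨C, rcv_trans hQS hQC₁ hC1, rcv_trans hQ₂S hQC₂ hC2⟩
    · have h1 : Rcv F Q Q' := by
        rcases r1 with h | h
        · exact h
        · exact absurd h.1 hc
      have h2 : Rcv F (imgS Q θ) Q' := by
        rcases r2 with h | h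
        · exact h
        · exact absurd h.1 hc
      exact ⟨Q', h1, h2⟩

theorem rcv_max [Finite S] {p : ℕ} [Fact p.Prime] (hS : IsPGroup p S) {F : FusionSystem S} {P V : Subgroup Ω} (hPS : P < S)
    (hK : ∀ T Q : Subgroup Ω, Q ≤ T → T ≤ normalizerIn S Q → Nat.card P < Nat.card T → ∃ (T' Q' : Subgroup Ω) (f₀ : Ω → Ω), Mor F T f₀ ∧ imgS T f₀ = T' ∧ imgS Q f₀ = Q' ∧ ∀ (T₁ Q₁ : Subgroup Ω) (g : Ω → Ω), Q₁ ≤ T₁ → T₁ ≤ normalizerIn S Q₁ → Mor F T₁ g → imgS T₁ g = T' → imgS Q₁ g = Q' → ∃ ψ, Mor F (normalizerIn S T₁ ⊓ normalizerIn S Q₁) ψ ∧ imgS T₁ ψ = T' ∧ imgS Q₁ ψ = Q')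
    (hgen : ∀ E : FusionSystem S, (∀ Q : Subgroup Ω, ¬ F.IsConj P Q → F.Hom Q ⊆ E.Hom Q) → F ≤ E)
    (hV : F.IsConj P V) (hVmax : ∀ Q, F.IsConj P Q → Nat.card (normalizerIn S Q) ≤ Nat.card (normalizerIn S V)) : ∀ Q, F.IsConj P Q → Rcv F Q V := by
  have A := claimA hS hK
  have A' : ∀ (T Q : Subgroup Ω) (θ : Ω → Ω), Q ≤ T → T ≤ normalizerIn S Q →
      Nat.card P < Nat.card T → Mor F T θ → CB F Q (imgS Q θ) := fun T Q θ => A _ T Q θ rfl
  have hcls : ∀ Q, F.IsConj P Q → Q ≤ S ∧ Nat.card P < Nat.card (normalizerIn S Q) := by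
    intro Q hQ
    have hQS := isConj_le_right hQ
    have hc := isConj_card hQ
    have hlt : Q < S := by
      refine lt_of_le_of_ne hQS ?_
      rintro rfl
      exact absurd hc (ne_of_gt (card_lt_card_of_lt hPS))
    have : Finite (normalizerIn S Q) := finite_of_le (normalizerIn_le' S Q)
    have h2 := card_lt_card_of_lt (lt_normalizerIn hS hlt)
    rw [hc] at h2
    exact ⟨hQS, h2⟩
  have cb_trans : ∀ A B D : Subgroup Ω, F.IsConj P A → F.IsConj P B → D ≤ S → CB F A B →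
      CB F B D → CB F A D := by
    rintro A B D hA hB hD ⟨C₁, hAC₁, ⟨χ₁, hχ₁, rfl⟩⟩ ⟨C₂, ⟨χ₂, hχ₂, rfl⟩, hDC₂⟩
    obtain ⟨hBS, hBc⟩ := hcls B hB
    obtain ⟨m1, m2, m3, m4⟩ := mid hBS hχ₁ hχ₂
    have := A' _ _ _ m1 m2 (by rw [hχ₁.card_imgS]; exact hBc) m3
    rw [m4] at this
    obtain ⟨C, hC1, hC2⟩ := this
    exact ⟨C, rcv_trans (hcls A hA).1 hAC₁ hC1, rcv_trans hD hDC₂ hC2⟩
  let good : Subgroup Ω → (Ω → Ω) → Prop := fun X f =>
    ∀ Q ≤ X, F.IsConj P Q → CB F Q (imgS Q f)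
  have hcongr : ∀ (X : Subgroup Ω) (f g : Ω → Ω), Mor F X f → (∀ x ∈ X, f x = g x) →
      good X f → good X g := by
    intro X f g hf hfg hgood Q hQX hQ
    rw [← (hf.restrict hQX).imgS_congr (fun x hx => hfg x (hQX hx))]
    exact hgood Q hQX hQ
  have hconj : ∀ (X : Subgroup Ω) (g : Ω), X ≤ S → g ∈ S → good X (fun x => g * x * g⁻¹) := by
    intro X g hX hg Q hQX hQ
    have h1 : Mor F (normalizerIn S Q) (fun x => g * x * g⁻¹) :=
      Mor.conj F (normalizerIn_le' S Q) hg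
    exact ⟨_, ⟨_, h1, rfl⟩, rcv_refl F _⟩
  have hcomp : ∀ (X Y : Subgroup Ω) (f g : Ω → Ω), Mor F X f → Mor F Y g →
      (∀ x ∈ X, f x ∈ Y) → good X f → good Y g → good X (g ∘ f) := by
    intro X Y f g hf hg hmaps hgf hgg Q hQX hQ
    have hfQ := hf.restrict hQX
    have hle : imgS Q f ≤ Y := by
      intro y hy
      obtain ⟨x, hx, rfl⟩ := hfQ.mem_imgS.1 hy
      exact hmaps x (hQX hx)
    have hQ2 : F.IsConj P (imgS Q f) := isConj_trans hQ (isConj_iff.2 ⟨f, hfQ, rfl⟩)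
    rw [hfQ.imgS_comp hg (fun x hx => hmaps x (hQX hx))]
    have hgQ2 := hg.restrict hle
    exact cb_trans _ _ _ hQ hQ2 hgQ2.imgS_le (hgf Q hQX hQ) (hgg _ hle hQ2)
  have hinv : ∀ (X : Subgroup Ω) (f : Ω → Ω), Mor F X f → good X f →
      good (imgS X f) (invOn X f) := by
    intro X f hf hgood Q hQX hQ
    have h1 : Mor F Q (invOn X f) := hf.inv.restrict hQX
    have hle : imgS Q (invOn X f) ≤ X := by
      intro y hy
      obtain ⟨x, hx, rfl⟩ := h1.mem_imgS.1 hy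
      exact hf.invOn_mem (hQX hx)
    have hQ2 : F.IsConj P (imgS Q (invOn X f)) := isConj_trans hQ (isConj_iff.2 ⟨_, h1, rfl⟩)
    have h3 := hgood _ hle hQ2
    rw [imgS_imgS_invOn hf hQX] at h3
    obtain ⟨C, h4, h5⟩ := h3
    exact ⟨C, h5, h4⟩
  have hle := hgen (predSys F good hcongr hconj hcomp hinv) (by
    intro Q₀ hQ₀ φ hφ
    refine ⟨hφ, ?_⟩
    intro Q hQQ₀ hQ
    have hf : Mor F Q₀ (extFun Q₀ φ) := mor_extFun hφ
    have hQ₀S : Q₀ ≤ S := hf.le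
    have hlt : Q < Q₀ := lt_of_le_of_ne hQQ₀ (by rintro rfl; exact hQ₀ hQ)
    have : Finite Q₀ := finite_of_le hQ₀S
    have hlt2 : Q < normalizerIn Q₀ Q := lt_normalizerIn (hS.to_le hQ₀S) hlt
    have hTQ₀ : normalizerIn Q₀ Q ≤ Q₀ := normalizerIn_le' Q₀ Q
    have : Finite (normalizerIn Q₀ Q) := finite_of_le (hTQ₀.trans hQ₀S)
    refine A' (normalizerIn Q₀ Q) Q _ hlt2.le ?_ ?_ (hf.restrict hTQ₀)
    · intro x hx
      rw [mem_normalizerIn_iff] at hx ⊢
      exact ⟨hQ₀S hx.1, hx.2⟩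
    · rw [← isConj_card hQ]; exact card_lt_card_of_lt hlt2)
  have hall : ∀ (X : Subgroup Ω) (f : Ω → Ω), Mor F X f → good X f := fun X f hf =>
    (mor_predSys_iff.1 (fusionSystem_le_iff.1 hle X f hf)).2
  intro Q hQ
  obtain ⟨hQS, -⟩ := hcls Q hQ
  obtain ⟨f, hf, hfV⟩ := isConj_iff.1 (isConj_trans (isConj_symm hQ) hV)
  have hcb := hall Q f hf Q le_rfl hQ
  rw [hfV] at hcb
  obtain ⟨C, hQC, ⟨χ, hχ, rfl⟩⟩ := hcb
  have hVS := (hcls V hV).1
  have hVN := H86.le_normalizerIn hVS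
  have hC : F.IsConj P (imgS V χ) := isConj_trans hV (isConj_iff.2 ⟨χ, hχ.restrict hVN, rfl⟩)
  have hle2 : imgS (normalizerIn S V) χ ≤ normalizerIn S (imgS V χ) := by
    intro y hy
    obtain ⟨x, hx, rfl⟩ := hχ.mem_imgS.1 hy
    exact map_mem_normalizerIn hχ hVN le_rfl hx
  have : Finite (normalizerIn S (imgS V χ)) := finite_of_le (normalizerIn_le' S _)
  have heq : imgS (normalizerIn S V) χ = normalizerIn S (imgS V χ) :=
    Subgroup.eq_of_le_of_card_ge hle2 (by rw [hχ.card_imgS]; exact hVmax _ hC)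
  have hinvM : Mor F (normalizerIn S (imgS V χ)) (invOn (normalizerIn S V) χ) := by
    rw [← heq]; exact hχ.inv
  have hCV : Rcv F (imgS V χ) V := ⟨_, hinvM, imgS_invOn_imgS hχ hVN⟩
  exact rcv_trans hQS hQC hCV

end Cfsg.Agent.H24.BC
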