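import Mathlib
import Cfsg.Prelude.Def_Blocks
import Cfsg.Prelude.Def_Characters
import Cfsg.Prelude.Def_Solvable
import Cfsg.Prelude.Def_CaseTheorems
import Cfsg.Agent.H21.BRMDefs
import Cfsg.Agent.H82.Irr
import Cfsg.Agent.S4729

set_option autoImplicit false

/-!
# S4700-FAITH (team project of helper21): a principal-block character of degree `< 2p` that
does not take its degree on `P ∖ 1` is faithful, hence `C(P) = P` (via S4729)
-/

namespace Cfsg.Agent.H24.BRQ

open Cfsg Cfsg.Agent.H21.BR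

theorem centralizer_eq_of_minus_char {G : Type*} [Group G] [Finite G]
    (hperf : commutator G = ⊤) (p : ℕ) [Fact p.Prime]
    (M : Ideal Cfsg.AlgInt) (hM : Cfsg.IsPModular p M) (P : Sylow p G)
    (hP : Nat.card (P : Subgroup G) = p)
    (hcore : ∀ N : Subgroup G, N.Normal → ¬ p ∣ Nat.card N → N = ⊥)
    (χ : IrrCharacter G) (hχ : χ ∈ principalBlock M G)
    (hdeg : charDegree (χ : G → ℂ) < 2 * p)
    (hval : ∀ x ∈ (P : Subgroup G), x ≠ 1 → (χ : G → ℂ) x ≠ (χ : G → ℂ) 1) :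
    Subgroup.centralizer ((P : Subgroup G) : Set G) = (P : Subgroup G) := by
  have hp : p.Prime := Fact.out
  have hK : ¬ p ∣ Nat.card (Cfsg.Agent.H82.irrKer χ) := by
    intro hdvd
    obtain ⟨k, hk⟩ := exists_prime_orderOf_dvd_card' p hdvd
    have hkG : orderOf (k : G) = p := by
      rw [Subgroup.orderOf_coe]
      exact hk
    have hz : IsPGroup p (Subgroup.zpowers (k : G)) :=
      IsPGroup.of_card (n := 1) (by rw [Nat.card_zpowers, hkG, pow_one])
    obtain ⟨Q, hQ⟩ := hz.exists_le_sylow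
    obtain ⟨g, hg⟩ := MulAction.exists_smul_eq G Q P
    have hx : g * (k : G) * g⁻¹ ∈ (P : Subgroup G) := by
      rw [← hg, Sylow.coe_subgroup_smul, Subgroup.mem_pointwise_smul_iff_inv_smul_mem]
      have h1 : (k : G) ∈ (Q : Subgroup G) := hQ (Subgroup.mem_zpowers _)
      simpa [MulAut.smul_def, mul_assoc] using h1
    have hx1 : g * (k : G) * g⁻¹ ≠ 1 := by
      intro h
      have h2 : (k : G) = 1 := by
        have h3 := congrArg (fun y => g⁻¹ * y * g) h
        simpa [mul_assoc] using h3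
      rw [h2, orderOf_one] at hkG
      exact hp.one_lt.ne hkG
    have hxK : g * (k : G) * g⁻¹ ∈ Cfsg.Agent.H82.irrKer χ :=
      (Cfsg.Agent.H82.irrKer_normal χ).conj_mem _ k.2 g
    exact hval _ hx hx1 ((Cfsg.Agent.H82.mem_irrKer χ _).mp hxK)
  have hKbot : Cfsg.Agent.H82.irrKer χ = ⊥ :=
    hcore _ (Cfsg.Agent.H82.irrKer_normal χ) hK
  have hfaith : ∀ g : G, (χ : G → ℂ) g = (χ : G → ℂ) 1 → g = 1 := by
    intro g hg
    have h1 : g ∈ Cfsg.Agent.H82.irrKer χ := (Cfsg.Agent.H82.mem_irrKer χ g).mpr hg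
    rw [hKbot] at h1
    exact Subgroup.mem_bot.mp h1
  have hC : IsPGroup p ↥(Subgroup.centralizer ((P : Subgroup G) : Set G)) :=
    Cfsg.Agent.S4729.result p M hM hperf P χ hχ hfaith hdeg
  have hcyc : IsCyclic ↥(P : Subgroup G) := isCyclic_of_prime_card hP
  have hle : (P : Subgroup G) ≤ Subgroup.centralizer ((P : Subgroup G) : Set G) := by
    intro x hx
    rw [Subgroup.mem_centralizer_iff]
    intro y hy
    have h1 : IsMulCommutative ↥(P : Subgroup G) := IsCyclic.isMulCommutative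
    have h2 := h1.is_comm.comm ⟨y, hy⟩ ⟨x, hx⟩
    exact congrArg (fun z : ↥(P : Subgroup G) => (z : G)) h2
  exact P.is_maximal' hC hle

example {G : Type*} [Group G] [Finite G]
    (hperf : commutator G = ⊤) (p : ℕ) [Fact p.Prime]
    (M : Ideal Cfsg.AlgInt) (hM : Cfsg.IsPModular p M) (P : Sylow p G)
    (hP : Nat.card (P : Subgroup G) = p)
    (hcore : ∀ N : Subgroup G, N.Normal → ¬ p ∣ Nat.card N → N = ⊥)
    (χ : IrrCharacter G) (hχ : χ ∈ principalBlock M G)
    (hdeg : charDegree (χ : G → ℂ) < 2 * p)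
    (hval : ∀ x ∈ (P : Subgroup G), x ≠ 1 → (χ : G → ℂ) x ≠ (χ : G → ℂ) 1) :
    Subgroup.centralizer ((P : Subgroup G) : Set G) = (P : Subgroup G) :=
  centralizer_eq_of_minus_char hperf p M hM P hP hcore χ hχ hdeg hval

end Cfsg.Agent.H24.BRQ
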