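import Mathlib
import Cfsg.Agent.H59.FRDefs

set_option autoImplicit false

/-!
# S4563-FRAT (team project of helper59): the Frattini argument modulo `Z`
-/

namespace Cfsg.Agent.H24.FR

open Cfsg Cfsg.Agent.H59.FR

universe u

theorem frat : FratStmt.{u} := by
  intro H _ _ Z K _ _ M hZM hMK p _ a hcard hidx h
  classical
  obtain ⟨π, hπ⟩ : ∃ π : H →* H ⧸ Z, π = QuotientGroup.mk' Z := ⟨_, rfl⟩
  have hsurj : Function.Surjective π := by
    rw [hπ]
    exact QuotientGroup.mk'_surjective Z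
  have hker : π.ker = Z := by
    rw [hπ]
    exact QuotientGroup.ker_mk' Z
  have hN : (K.map π).Normal := Subgroup.Normal.map inferInstance π hsurj
  have hMN : M.map π ≤ K.map π := Subgroup.map_mono hMK
  have hcardM : Nat.card (M.map π) = p ^ a := by
    have h1 := Subgroup.relIndex_map_map π ⊥ M
    rw [Subgroup.map_bot, Subgroup.relIndex_bot_left, hker, bot_sup_eq, sup_of_le_left hZM] at h1
    rw [h1, hcard]
  have hpM : IsPGroup p ↥((M.map π).subgroupOf (K.map π)) := by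
    have e := Subgroup.subgroupOfEquivOfLe hMN
    apply IsPGroup.of_card (n := a)
    rw [Nat.card_congr e.toEquiv, hcardM]
  have hidx' : ¬ p ∣ ((M.map π).subgroupOf (K.map π)).index := by
    show ¬ p ∣ (M.map π).relIndex (K.map π)
    rw [Subgroup.relIndex_map_map, hker, sup_of_le_left hZM, sup_of_le_left (hZM.trans hMK)]
    exact hidx
  obtain ⟨P, hP⟩ : ∃ P : Sylow p ↥(K.map π),
      (P : Subgroup ↥(K.map π)) = (M.map π).subgroupOf (K.map π) :=
    ⟨hpM.toSylow hidx', rfl⟩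
  have hfr := Sylow.normalizer_sup_eq_top P
  have hPmap : (P : Subgroup ↥(K.map π)).map (K.map π).subtype = M.map π := by
    rw [hP]
    exact Subgroup.map_subgroupOf_eq_of_le hMN
  rw [hPmap] at hfr
  have hmem : π h ∈ (Subgroup.normalizer ((M.map π : Subgroup (H ⧸ Z)) : Set (H ⧸ Z)) ⊔
      K.map π : Subgroup (H ⧸ Z)) := by
    rw [hfr]
    exact Subgroup.mem_top _
  rw [sup_comm, ← SetLike.mem_coe, Subgroup.normal_mul] at hmem
  obtain ⟨kbar, hkbar, nbar, hnbar, hprod⟩ := Set.mem_mul.mp hmem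
  obtain ⟨k0, hk0K, hk0⟩ := hkbar
  refine ⟨k0⁻¹, K.inv_mem hk0K, ?_⟩
  have hπx : π (k0⁻¹ * h) = nbar := by
    rw [map_mul, map_inv, hk0, ← hprod]
    group
  rw [Subgroup.mem_normalizer_iff]
  intro y
  have hcm : ∀ y : H, π y ∈ M.map π ↔ y ∈ M := by
    intro y
    rw [← Subgroup.mem_comap, Subgroup.comap_map_eq_self (by rw [hker]; exact hZM)]
  rw [← hcm y, ← hcm (k0⁻¹ * h * y * (k0⁻¹ * h)⁻¹), map_mul, map_mul, map_inv, hπx]
  exact Subgroup.mem_normalizer_iff.mp hnbar (π y)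

example : Cfsg.Agent.H59.FR.FratStmt.{u} := frat

end Cfsg.Agent.H24.FR
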