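import Mathlib
import Cfsg.Agent.H59.FRDefs

set_option autoImplicit false

/-!
# S4563-GT (team project of helper59): the stabilizer argument producing a `p`-complement of
`H ⧸ K`
-/

namespace Cfsg.Agent.H24.FR

open Cfsg Cfsg.Agent.H59.FR Subgroup

open scoped Pointwise

universe u

section aux

variable {G : Type*} [Group G]

theorem card_mul_relIndex_le {H K : Subgroup G} (h : H ≤ K) :
    Nat.card H * H.relIndex K = Nat.card K := by
  have h1 := Subgroup.relIndex_mul_relIndex ⊥ H K bot_le h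
  rwa [Subgroup.relIndex_bot_left, Subgroup.relIndex_bot_left] at h1

/-- The product formula when `H` normalizes `K`. -/
theorem card_sup_mul_card_inf_of_le_normalizer [Finite G] {H K : Subgroup G}
    (h : H ≤ normalizer (K : Set G)) :
    Nat.card (H ⊔ K : Subgroup G) * Nat.card (H ⊓ K : Subgroup G) = Nat.card H * Nat.card K := by
  have e1 : K.relIndex (H ⊔ K) = K.relIndex H := by
    let _ := Subgroup.normal_subgroupOf_of_le_normalizer h
    let _ := Subgroup.normal_subgroupOf_sup_of_le_normalizer h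
    exact Nat.card_congr (QuotientGroup.quotientInfEquivProdNormalizerQuotient H K h).toEquiv.symm
  have e2 := card_mul_relIndex_le (le_sup_right : K ≤ H ⊔ K)
  have e3 := card_mul_relIndex_le (inf_le_left : H ⊓ K ≤ H)
  rw [Subgroup.inf_relIndex_left] at e3
  rw [← e2, ← e3, e1]
  ring

/-- The product formula for a factorized subgroup `C = A B`. -/
theorem card_mul_card_inf_of_factor [Finite G] (A B C : Subgroup G) (hA : A ≤ C) (hB : B ≤ C)
    (h : ∀ c ∈ C, ∃ a ∈ A, ∃ b ∈ B, c = a * b) :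
    Nat.card C * Nat.card (A ⊓ B : Subgroup G) = Nat.card A * Nat.card B := by
  classical
  choose fa hfa fb hfb hs using h
  rw [← Nat.card_prod, ← Nat.card_prod]
  apply Nat.card_congr
  refine Equiv.ofBijective (fun q : ↥C × ↥(A ⊓ B) =>
    ((⟨fa q.1.1 q.1.2 * q.2.1, A.mul_mem (hfa _ _) q.2.2.1⟩ : ↥A),
      (⟨(q.2.1)⁻¹ * fb q.1.1 q.1.2, B.mul_mem (B.inv_mem q.2.2.2) (hfb _ _)⟩ : ↥B))) ⟨?_, ?_⟩
  · rintro ⟨⟨c, hc⟩, ⟨z, hz⟩⟩ ⟨⟨c', hc'⟩, ⟨z', hz'⟩⟩ heq
    simp only [Prod.mk.injEq, Subtype.mk.injEq] at heq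
    obtain ⟨h1, h2⟩ := heq
    have hcc : c = c' := by
      rw [hs c hc, hs c' hc']
      calc fa c hc * fb c hc = (fa c hc * z) * (z⁻¹ * fb c hc) := by group
        _ = (fa c' hc' * z') * (z'⁻¹ * fb c' hc') := by rw [h1, h2]
        _ = fa c' hc' * fb c' hc' := by group
    subst hcc
    have hzz : z = z' := mul_left_cancel h1
    subst hzz
    rfl
  · rintro ⟨⟨a, ha⟩, ⟨b, hb⟩⟩
    have hc : a * b ∈ C := C.mul_mem (hA ha) (hB hb)
    have hzA : (fa (a * b) hc)⁻¹ * a ∈ A := A.mul_mem (A.inv_mem (hfa _ _)) ha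
    have hzeq : (fa (a * b) hc)⁻¹ * a = fb (a * b) hc * b⁻¹ := by
      have h3 := hs (a * b) hc
      calc (fa (a * b) hc)⁻¹ * a = (fa (a * b) hc)⁻¹ * (a * b) * b⁻¹ := by group
        _ = (fa (a * b) hc)⁻¹ * (fa (a * b) hc * fb (a * b) hc) * b⁻¹ := by rw [← h3]
        _ = fb (a * b) hc * b⁻¹ := by group
    have hzB : (fa (a * b) hc)⁻¹ * a ∈ B := by
      rw [hzeq]
      exact B.mul_mem (hfb _ _) (B.inv_mem hb)
    refine ⟨(⟨a * b, hc⟩, ⟨(fa (a * b) hc)⁻¹ * a, ⟨hzA, hzB⟩⟩), ?_⟩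
    simp only [Prod.mk.injEq, Subtype.mk.injEq]
    constructor
    · group
    · calc ((fa (a * b) hc)⁻¹ * a)⁻¹ * fb (a * b) hc
          = a⁻¹ * (fa (a * b) hc * fb (a * b) hc) := by group
        _ = a⁻¹ * (a * b) := by rw [← hs (a * b) hc]
        _ = b := by group

end aux

theorem gt : GTStmt.{u} := by
  intro H _ _ K hKn S p _ k hSk hNK hfrat hidx F h1 h2 h3
  classical
  have hp : p.Prime := Fact.out
  obtain ⟨M, hM⟩ : ∃ M : Subgroup H, M = S ⊓ K := ⟨_, rfl⟩
  rw [← hM] at hSk hNK hfrat h1 h2 h3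
  obtain ⟨N, hN⟩ : ∃ N : Subgroup H, N = normalizer (M : Set H) := ⟨_, rfl⟩
  rw [← hN] at hNK hfrat h3
  have hMS : M ≤ S := hM ▸ inf_le_left
  have hMK : M ≤ K := hM ▸ inf_le_right
  have hMN : M ≤ N := hN ▸ Subgroup.le_normalizer
  -- the stabilizer of `F`
  obtain ⟨A, hA⟩ : ∃ A : Subgroup H, ∀ g, g ∈ A ↔ ∀ y, F (g⁻¹ * y * g) = F y := by
    refine ⟨{ carrier := {g | ∀ y, F (g⁻¹ * y * g) = F y}
              one_mem' := by
                intro y
                simp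
              mul_mem' := by
                intro a b ha hb y
                have e : (a * b)⁻¹ * y * (a * b) = b⁻¹ * (a⁻¹ * y * a) * b := by group
                rw [e, hb, ha]
              inv_mem' := by
                intro a ha y
                have h4 := ha (a⁻¹⁻¹ * y * a⁻¹)
                have e : a⁻¹ * (a⁻¹⁻¹ * y * a⁻¹) * a = y := by group
                rw [e] at h4
                exact h4.symm }, fun g => Iff.rfl⟩
  have hMA : M ≤ A := fun m hm => (hA m).mpr (h1 m hm)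
  have conj_inf : ∀ (X : Subgroup H) (g : H), g ∈ X →
      g ∈ normalizer ((X ⊓ K : Subgroup H) : Set H) := by
    intro X g hg
    rw [Subgroup.mem_normalizer_iff]
    intro y
    constructor
    · rintro ⟨hyX, hyK⟩
      exact ⟨X.mul_mem (X.mul_mem hg hyX) (X.inv_mem hg), hKn.conj_mem y hyK g⟩
    · rintro ⟨hyX, hyK⟩
      refine ⟨?_, ?_⟩
      · have h4 := X.mul_mem (X.mul_mem (X.inv_mem hg) hyX) hg
        have e : g⁻¹ * (g * y * g⁻¹) * g = y := by group
        rwa [e] at h4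
      · have h4 := hKn.conj_mem _ hyK g⁻¹
        have e : g⁻¹ * (g * y * g⁻¹) * g⁻¹⁻¹ = y := by group
        rwa [e] at h4
  have hSN : S ≤ N := by
    intro s hs
    rw [hN, hM]
    exact conj_inf S s hs
  have hAS : ∀ s ∈ S, s ∈ A → s ∈ M := fun s hs hsA => h2 s hs ((hA s).mp hsA)
  obtain ⟨St, hSt⟩ : ∃ St : Subgroup H, St = A ⊓ N := ⟨_, rfl⟩
  have hStN : St ≤ N := hSt ▸ inf_le_right
  have hStA : St ≤ A := hSt ▸ inf_le_left
  have hMSt : M ≤ St := hSt ▸ le_inf hMA hMN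
  -- factorization of `N`
  have hfac : ∀ n ∈ N, ∃ s ∈ S, ∃ a ∈ St, n = s * a := by
    intro n hn
    obtain ⟨s, hs, hsF⟩ := h3 n hn
    refine ⟨s, hs, s⁻¹ * n, ?_, by group⟩
    rw [hSt]
    refine ⟨?_, N.mul_mem (N.inv_mem (hSN hs)) hn⟩
    apply (hA _).mpr
    intro y
    have e : (s⁻¹ * n)⁻¹ * y * (s⁻¹ * n) = n⁻¹ * (s * y * s⁻¹) * n := by group
    rw [e, hsF]
    have e2 : s⁻¹ * (s * y * s⁻¹) * s = y := by group
    rw [e2]
  have hSSt : S ⊓ St = M := by
    apply le_antisymm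
    · rintro x ⟨hxS, hxSt⟩
      exact hAS x hxS (hStA hxSt)
    · exact le_inf hMS hMSt
  -- `|N : St| = p ^ k`
  have hpf1 := card_mul_card_inf_of_factor S St N hSN hStN hfac
  rw [hSSt] at hpf1
  have hStidx : St.relIndex N = p ^ k := by
    have e1 := card_mul_relIndex_le hStN
    have e2 := card_mul_relIndex_le hMS
    rw [hSk] at e2
    have hpos1 : 0 < Nat.card St := Nat.card_pos
    have hpos2 : 0 < Nat.card M := Nat.card_pos
    have h4 : Nat.card St * Nat.card M * St.relIndex N = Nat.card St * Nat.card M * p ^ k := by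
      calc Nat.card St * Nat.card M * St.relIndex N
          = (Nat.card St * St.relIndex N) * Nat.card M := by ring
        _ = Nat.card N * Nat.card M := by rw [e1]
        _ = Nat.card S * Nat.card St := hpf1
        _ = (Nat.card M * p ^ k) * Nat.card St := by rw [e2]
        _ = Nat.card St * Nat.card M * p ^ k := by ring
    exact Nat.eq_of_mul_eq_mul_left (Nat.mul_pos hpos1 hpos2) h4
  -- `N ⊓ K ≤ St`
  obtain ⟨NK, hNKdef⟩ : ∃ NK : Subgroup H, NK = N ⊓ K := ⟨_, rfl⟩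
  rw [← hNKdef] at hNK
  have hNKN : NK ≤ N := hNKdef ▸ inf_le_left
  have hNKK : NK ≤ K := hNKdef ▸ inf_le_right
  have hMNK : M ≤ NK := hNKdef ▸ le_inf hMN hMK
  have hnorm : St ≤ normalizer (NK : Set H) := by
    intro g hg
    rw [hNKdef]
    exact conj_inf N g (hStN hg)
  have hpf2 := card_sup_mul_card_inf_of_le_normalizer hnorm
  have hDrel : (St ⊓ NK).relIndex NK ∣ p ^ k := by
    have e1 := card_mul_relIndex_le (le_sup_left : St ≤ St ⊔ NK)
    have e2 := card_mul_relIndex_le (inf_le_right : St ⊓ NK ≤ NK)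
    have e3 : St.relIndex (St ⊔ NK) = (St ⊓ NK).relIndex NK := by
      have hpos1 : 0 < Nat.card St := Nat.card_pos
      have hpos2 : 0 < Nat.card ↥(St ⊓ NK) := Nat.card_pos
      have h4 : Nat.card St * Nat.card ↥(St ⊓ NK) * St.relIndex (St ⊔ NK) =
          Nat.card St * Nat.card ↥(St ⊓ NK) * (St ⊓ NK).relIndex NK := by
        calc Nat.card St * Nat.card ↥(St ⊓ NK) * St.relIndex (St ⊔ NK)
            = (Nat.card St * St.relIndex (St ⊔ NK)) * Nat.card ↥(St ⊓ NK) := by ring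
          _ = Nat.card ↥(St ⊔ NK) * Nat.card ↥(St ⊓ NK) := by rw [e1]
          _ = Nat.card St * Nat.card NK := hpf2
          _ = Nat.card St * (Nat.card ↥(St ⊓ NK) * (St ⊓ NK).relIndex NK) := by rw [e2]
          _ = Nat.card St * Nat.card ↥(St ⊓ NK) * (St ⊓ NK).relIndex NK := by ring
      exact Nat.eq_of_mul_eq_mul_left (Nat.mul_pos hpos1 hpos2) h4
    rw [← e3, ← hStidx]
    exact Dvd.intro _
      (Subgroup.relIndex_mul_relIndex St (St ⊔ NK) N le_sup_left (sup_le hStN hNKN))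
  have hDrel2 : ¬ p ∣ (St ⊓ NK).relIndex NK := by
    intro hdvd
    apply hNK
    rw [← Subgroup.relIndex_mul_relIndex M (St ⊓ NK) NK (le_inf hMSt hMNK) inf_le_right]
    exact Dvd.dvd.mul_left hdvd _
  have hD1 : (St ⊓ NK).relIndex NK = 1 := by
    obtain ⟨j, -, hjeq⟩ := (Nat.dvd_prime_pow hp).mp hDrel
    rcases Nat.eq_zero_or_pos j with h0 | h0
    · rw [hjeq, h0, pow_zero]
    · exfalso
      apply hDrel2
      rw [hjeq]
      exact dvd_pow_self p (by omega)
  have hNKSt : NK ≤ St := (Subgroup.relIndex_eq_one.mp hD1).trans inf_le_left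
  -- the complement in the quotient
  obtain ⟨π, hπ⟩ : ∃ π : H →* H ⧸ K, π = QuotientGroup.mk' K := ⟨_, rfl⟩
  have hker : π.ker = K := by
    rw [hπ]
    exact QuotientGroup.ker_mk' K
  have hsurj : Function.Surjective π := by
    rw [hπ]
    exact QuotientGroup.mk'_surjective K
  have hπK : ∀ x, π x = 1 ↔ x ∈ K := by
    intro x
    have h4 : x ∈ π.ker ↔ x ∈ K := by rw [hker]
    rw [← h4, MonoidHom.mem_ker]
  have hdisj : Disjoint (S.map π) (St.map π) := by
    rw [Subgroup.disjoint_def]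
    rintro x ⟨s, hs, rfl⟩ ⟨n, hn, hsn⟩
    have h5 : s⁻¹ * n ∈ K := by
      rw [← hπK, map_mul, map_inv, hsn, inv_mul_cancel]
    have h6 : s⁻¹ * n ∈ NK := by
      rw [hNKdef]
      exact ⟨N.mul_mem (N.inv_mem (hSN hs)) (hStN hn), h5⟩
    have h7 : s⁻¹ ∈ A := by
      have h8 := A.mul_mem (hStA (hNKSt h6)) (A.inv_mem (hStA hn))
      have e : s⁻¹ * n * n⁻¹ = s⁻¹ := by group
      rwa [e] at h8
    have h8 : s ∈ M := hAS s hs (by simpa using A.inv_mem h7)
    exact (hπK s).mpr (hMK h8)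
  have hmul : ((S.map π : Subgroup (H ⧸ K)) : Set (H ⧸ K)) *
      ((St.map π : Subgroup (H ⧸ K)) : Set (H ⧸ K)) = Set.univ := by
    rw [Set.eq_univ_iff_forall]
    intro q
    obtain ⟨h, rfl⟩ := hsurj q
    obtain ⟨x, hxK, hxN⟩ := hfrat h
    obtain ⟨s, hs, a, ha, hsa⟩ := hfac _ hxN
    refine Set.mem_mul.mpr ⟨π s, ⟨s, hs, rfl⟩, π a, ⟨a, ha, rfl⟩, ?_⟩
    rw [← map_mul, ← hsa, map_mul, (hπK x).mpr hxK, one_mul]
  have hcompl := Subgroup.isComplement'_of_disjoint_and_mul_eq_univ hdisj hmul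
  have hKS : K.relIndex S = p ^ k := by
    rw [← hSk, hM, Subgroup.inf_relIndex_left]
  have hcardS : Nat.card (S.map π) = p ^ k := by
    have e := Subgroup.relIndex_map_map π ⊥ S
    rw [Subgroup.map_bot, Subgroup.relIndex_bot_left, hker, bot_sup_eq,
      Subgroup.relIndex_sup_right] at e
    rw [e, hKS]
  refine ⟨St.map π, ?_, k, ?_⟩
  · have e1 := hcompl.card_mul_card
    rw [hcardS, ← Subgroup.index_eq_card,
      ← Subgroup.relIndex_mul_index (le_sup_right : K ≤ S ⊔ K), Subgroup.relIndex_sup_right,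
      hKS] at e1
    have e2 : Nat.card (St.map π) = (S ⊔ K).index :=
      Nat.eq_of_mul_eq_mul_left (pow_pos hp.pos k) e1
    rw [e2]
    exact ((Nat.Prime.coprime_iff_not_dvd hp).mpr hidx).symm
  · rw [hcompl.index_eq_card, hcardS]

example : Cfsg.Agent.H59.FR.GTStmt.{u} := gt

end Cfsg.Agent.H24.FR
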