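import Cfsg.Agent.H59.Fx2Defs

/-!
# S3390 piece FX-V4: a group of order 4 with two distinct involutions is a four-group
-/

set_option autoImplicit false

namespace Cfsg.Agent.H24.Fx2

open Cfsg.Agent.H59.Fx2

universe u

/-- FX-V4. -/
theorem v4 : StV4.{u} := by
  intro K _ hK a b ha hb hab ha2 hb2
  classical
  have : Finite K := Nat.finite_of_card_ne_zero (by rw [hK]; norm_num)
  have : Fintype K := Fintype.ofFinite K
  have hcard : Fintype.card K = 4 := by
    rw [← Nat.card_eq_fintype_card]
    exact hK
  have haa : a * a = 1 := by rw [← pow_two]; exact ha2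
  have hbb : b * b = 1 := by rw [← pow_two]; exact hb2
  have hbi : b⁻¹ = b := inv_eq_of_mul_eq_one_left hbb
  have hab1 : a * b ≠ 1 := by
    intro h
    have h1 : a = b⁻¹ := eq_inv_of_mul_eq_one_left h
    rw [hbi] at h1
    exact hab h1
  have hba1 : b * a ≠ 1 := by
    intro h
    have h1 : a = b⁻¹ := (eq_inv_of_mul_eq_one_right h)
    rw [hbi] at h1
    exact hab h1
  have haba : a * b ≠ a := by
    intro h
    exact hb (mul_left_cancel (h.trans (mul_one a).symm))
  have habb : a * b ≠ b := by
    intro h
    exact ha (mul_right_cancel (h.trans (one_mul b).symm))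
  have hbaa : b * a ≠ a := by
    intro h
    exact hb (mul_right_cancel (h.trans (one_mul a).symm))
  have hbab : b * a ≠ b := by
    intro h
    exact ha (mul_left_cancel (h.trans (mul_one b).symm))
  have hs : ({1, a, b, a * b} : Finset K) = Finset.univ := by
    apply Finset.eq_univ_of_card
    rw [hcard, Finset.card_insert_of_notMem, Finset.card_insert_of_notMem,
      Finset.card_insert_of_notMem, Finset.card_singleton]
    · simp only [Finset.mem_singleton]
      exact fun h => habb h.symm
    · simp only [Finset.mem_insert, Finset.mem_singleton]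
      rintro (h | h)
      · exact hab h
      · exact haba h.symm
    · simp only [Finset.mem_insert, Finset.mem_singleton]
      rintro (h | h | h)
      · exact ha h.symm
      · exact hb h.symm
      · exact hab1 h.symm
  have hmem : ∀ x : K, x = 1 ∨ x = a ∨ x = b ∨ x = a * b := by
    intro x
    have hx : x ∈ ({1, a, b, a * b} : Finset K) := by rw [hs]; exact Finset.mem_univ x
    simpa using hx
  have hcomm : b * a = a * b := by
    rcases hmem (b * a) with h | h | h | h
    · exact absurd h hba1
    · exact absurd h hbaa
    · exact absurd h hbab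
    · exact h
  have hsq : ∀ x : K, x ^ 2 = 1 := by
    intro x
    rcases hmem x with rfl | rfl | rfl | rfl
    · exact one_pow 2
    · exact ha2
    · exact hb2
    · calc (a * b) ^ 2 = a * (b * a) * b := by rw [pow_two]; group
        _ = a * (a * b) * b := by rw [hcomm]
        _ = (a * a) * (b * b) := by group
        _ = 1 := by rw [haa, hbb, one_mul]
  have hexp : Monoid.exponent K = 2 := by
    have hdvd : Monoid.exponent K ∣ 2 := Monoid.exponent_dvd_of_forall_pow_eq_one hsq
    rcases (Nat.dvd_prime Nat.prime_two).mp hdvd with h | h
    · exfalso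
      have h1 := Monoid.pow_exponent_eq_one a
      rw [h, pow_one] at h1
      exact ha h1
    · exact h
  have : IsKleinFour K := ⟨hK, hexp⟩
  exact IsKleinFour.nonempty_mulEquiv

end Cfsg.Agent.H24.Fx2

universe w

example : Cfsg.Agent.H59.Fx2.StV4.{w} := Cfsg.Agent.H24.Fx2.v4
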