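import Mathlib
import Cfsg.Agent.H59.GagDefs
import Cfsg.Agent.S2427

set_option autoImplicit false

/-!
# S4840-SLFIN3 (helper59): a group acting as `SL₂(3)` on `𝔽₃²` with `3`-element point
stabilizers has a normal `3`-complement and abelian Sylow `3`-subgroups
-/

namespace Cfsg.Agent.H24.Gag

open Cfsg Cfsg.Agent.H59.Gag

universe u

theorem zmod3_cases : ∀ d : ZMod 3, d ≠ 0 → d = 1 ∨ d = -1 := by decide

theorem zmod3_neg_one_ne : (-1 : ZMod 3) ≠ 1 := by decide

/-- the diagonal matrix `diag(1, -1)` over `𝔽₃` -/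
def diagM : Matrix (Fin 2) (Fin 2) (ZMod 3) := !![1, 0; 0, -1]

theorem det_diagM : diagM.det = -1 := by
  rw [diagM, Matrix.det_fin_two_of]
  decide

theorem diagM_mulVec : diagM.mulVec ![1, 0] = ![1, 0] := by
  ext i
  fin_cases i <;> simp [diagM, Matrix.mulVec, dotProduct]

theorem e10_ne : (![1, 0] : Fin 2 → ZMod 3) ≠ 0 := by
  intro h
  have h1 := congrFun h 0
  simp at h1

theorem slfin3_of (hnpc : NpcStmt.{u}) : SLFin3Stmt.{u} := by
  intro X _ _ p _ ψ hp3 hψ hSL
  subst hp3
  -- every element has determinant one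
  have hdet : ∀ g : X, (ψ g).val.det = 1 := by
    intro g
    have hu : IsUnit (ψ g).val.det := (Matrix.isUnit_iff_isUnit_det _).1 (ψ g).isUnit
    have hne : (ψ g).val.det ≠ 0 := hu.ne_zero
    rcases zmod3_cases _ hne with h1 | h1
    · exact h1
    · exfalso
      have hBdet : ((ψ g).val⁻¹ * diagM).det = 1 := by
        rw [Matrix.det_mul, Matrix.det_nonsing_inv, h1, det_diagM, Ring.inverse_eq_inv',
          inv_neg_one, neg_mul_neg, one_mul]
      obtain ⟨h, hh⟩ := hSL ⟨(ψ g).val⁻¹ * diagM, hBdet⟩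
      have hgh : (ψ (g * h)).val = diagM := by
        rw [map_mul, Units.val_mul, hh]
        show (ψ g).val * ((ψ g).val⁻¹ * diagM) = _
        rw [← Matrix.mul_assoc, Matrix.mul_nonsing_inv _ hu, Matrix.one_mul]
      have hfix : (ψ (g * h)).val.mulVec ![(1 : ZMod 3), 0] = ![(1 : ZMod 3), 0] := by
        rw [hgh]
        exact diagM_mulVec
      obtain ⟨k, hk⟩ := hψ.stab _ e10_ne (g * h) hfix
      have h2 : ((ψ (g * h)).val.det) ^ (3 ^ k) = 1 := by
        rw [← Matrix.det_pow, ← Units.val_pow_eq_pow_val, ← map_pow, hk, map_one, Units.val_one,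
          Matrix.det_one]
      rw [hgh, det_diagM] at h2
      have hodd : Odd (3 ^ k) := Odd.pow (by decide)
      rw [hodd.neg_one_pow] at h2
      exact zmod3_neg_one_ne h2
  -- the induced homomorphism to `SL₂(3)`
  let φ : X →* Matrix.SpecialLinearGroup (Fin 2) (ZMod 3) :=
    { toFun := fun g => ⟨(ψ g).val, hdet g⟩
      map_one' := by
        apply Subtype.ext
        show (ψ 1).val = 1
        rw [map_one]
        rfl
      map_mul' := fun a b => by
        apply Subtype.ext
        show (ψ (a * b)).val = (ψ a).val * (ψ b).val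
        rw [map_mul]
        rfl }
  have hφinj : Function.Injective φ := by
    intro a b hab
    apply hψ.inj
    apply Units.ext
    exact congrArg Subtype.val hab
  have hAn : ((commutator (Matrix.SpecialLinearGroup (Fin 2) (ZMod 3))).comap φ).Normal :=
    Subgroup.Normal.comap inferInstance φ
  have hdvd : Nat.card ((commutator (Matrix.SpecialLinearGroup (Fin 2) (ZMod 3))).comap φ) ∣ 8 := by
    rw [← Cfsg.Agent.S2427.result.2.2.1]
    exact Subgroup.card_comap_dvd_of_injective _ φ hφinj
  have hcop : (Nat.card ((commutator (Matrix.SpecialLinearGroup (Fin 2) (ZMod 3))).comap φ)).Coprime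
      3 := Nat.Coprime.coprime_dvd_left hdvd (by norm_num)
  refine hnpc X 3 _ hAn hcop ?_
  intro g h
  have h1 := Subgroup.commutator_mem_commutator (Subgroup.mem_top (φ g)) (Subgroup.mem_top (φ h))
  rw [commutatorElement_def] at h1
  rw [Subgroup.mem_comap, map_mul, map_mul, map_mul, map_inv, map_inv, commutator_def]
  exact h1

example (hnpc : NpcStmt.{u}) : SLFin3Stmt.{u} := slfin3_of hnpc

end Cfsg.Agent.H24.Gag
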