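import Mathlib
import Cfsg.Prelude.Def_LieRecognition

set_option autoImplicit false

namespace Cfsg.Agent.H24

open scoped Pointwise

/-- Decomposition of an odd-order subgroup normalised by an involution:
the core computations, for a general `t` with `t * t = 1`. -/
theorem invDecomp_aux {M : Type*} [Group M] [Finite M]
    (t : M) (ht2 : t * t = 1) (X : Subgroup M) (hodd : Odd (Nat.card X))
    (hnorm : ∀ x ∈ X, t * x * t⁻¹ ∈ X) :
    (∀ x ∈ X, ∃ y z : M, y ∈ X ⊓ Subgroup.centralizer {t} ∧ z ∈ Cfsg.invertedBy X t ∧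
      x = y * z) ∧
    (∀ y1 z1 y2 z2 : M, y1 ∈ X ⊓ Subgroup.centralizer {t} → z1 ∈ Cfsg.invertedBy X t →
      y2 ∈ X ⊓ Subgroup.centralizer {t} → z2 ∈ Cfsg.invertedBy X t → y1 * z1 = y2 * z2 →
      y1 = y2 ∧ z1 = z2) := by
  have htinv : t⁻¹ = t := inv_eq_of_mul_eq_one_left ht2
  obtain ⟨m, hm⟩ := hodd
  have hpow : ∀ x ∈ X, x ^ (2 * m + 1) = 1 := by
    intro x hx
    have h1 : (⟨x, hx⟩ : X) ^ Nat.card X = 1 := pow_card_eq_one'
    rw [hm] at h1
    have h2 := congrArg Subtype.val h1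
    simpa using h2
  have hσmul : ∀ x y : M, t * (x * y) * t⁻¹ = (t * x * t⁻¹) * (t * y * t⁻¹) := by
    intro x y; group
  have hσinv : ∀ x : M, t * x⁻¹ * t⁻¹ = (t * x * t⁻¹)⁻¹ := by intro x; group
  have hσpow : ∀ (x : M) (k : ℕ), t * x ^ k * t⁻¹ = (t * x * t⁻¹) ^ k := fun x k => conj_pow.symm
  have hσσ : ∀ x : M, t * (t * x * t⁻¹) * t⁻¹ = x := by
    intro x; rw [htinv]
    calc t * (t * x * t) * t = (t * t) * x * (t * t) := by group
      _ = x := by rw [ht2]; group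
  have hsq : ∀ w ∈ X, (w * w) ^ (m + 1) = w := by
    intro w hw
    have h1 : (w * w) ^ (m + 1) = w ^ (2 * m + 1) * w := by
      rw [← pow_two, ← pow_mul, ← pow_succ]; congr 1
    rw [h1, hpow w hw, one_mul]
  have hc : ∀ y ∈ X ⊓ Subgroup.centralizer {t}, t * y * t⁻¹ = y := by
    intro y hy
    have h1 := (Subgroup.mem_centralizer_iff.mp (Subgroup.mem_inf.mp hy).2) t
      (Set.mem_singleton t)
    rw [h1]; group
  refine ⟨?_, ?_⟩
  · intro x hx
    set u := x⁻¹ * (t * x * t⁻¹) with hu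
    have huX : u ∈ X := mul_mem (inv_mem hx) (hnorm x hx)
    have hσu : t * u * t⁻¹ = u⁻¹ := by
      rw [hu, hσmul, hσinv, hσσ]; group
    set v := u ^ (m + 1) with hv
    have hvX : v ∈ X := pow_mem huX _
    have hvv : v * v = u := by
      have h1 : u ^ (m + 1 + (m + 1)) = u ^ (2 * m + 1) * u := by
        rw [← pow_succ]; congr 1; ring
      rw [hv, ← pow_add, h1, hpow u huX, one_mul]
    have hσv : t * v * t⁻¹ = v⁻¹ := by
      rw [hv, hσpow, hσu, inv_pow]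
    refine ⟨x * v, v⁻¹, ?_, ?_, by group⟩
    · refine Subgroup.mem_inf.mpr ⟨mul_mem hx hvX, ?_⟩
      rw [Subgroup.mem_centralizer_iff]
      intro h hh
      rw [Set.mem_singleton_iff] at hh
      subst hh
      have h1 : h * (x * v) * h⁻¹ = x * v := by
        rw [hσmul, hσv]
        have h2 : h * x * h⁻¹ = x * u := by rw [hu]; group
        rw [h2, ← hvv]; group
      calc h * (x * v) = (h * (x * v) * h⁻¹) * h := by group
        _ = x * v * h := by rw [h1]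
    · refine ⟨inv_mem hvX, ?_⟩
      rw [hσinv, hσv]
  · intro y1 z1 y2 z2 hy1 hz1 hy2 hz2 h
    have key : ∀ y z : M, y ∈ X ⊓ Subgroup.centralizer {t} → z ∈ Cfsg.invertedBy X t →
        (y * z)⁻¹ * (t * (y * z) * t⁻¹) = z⁻¹ * z⁻¹ := by
      intro y z hy hz
      rw [hσmul, hc y hy, hz.2]; group
    have h1 : z1⁻¹ * z1⁻¹ = z2⁻¹ * z2⁻¹ := by
      rw [← key y1 z1 hy1 hz1, ← key y2 z2 hy2 hz2, h]
    have h2 : z1⁻¹ = z2⁻¹ := by
      rw [← hsq z1⁻¹ (inv_mem hz1.1), ← hsq z2⁻¹ (inv_mem hz2.1), h1]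
    have h3 : z1 = z2 := inv_injective h2
    subst h3
    exact ⟨mul_right_cancel h, rfl⟩

/-- `|X| = |C_X(t)| |I_X(t)|`. -/
theorem invDecomp_card {M : Type*} [Group M] [Finite M]
    (t : M) (ht2 : t * t = 1) (X : Subgroup M) (hodd : Odd (Nat.card X))
    (hnorm : ∀ x ∈ X, t * x * t⁻¹ ∈ X) :
    Nat.card X = Nat.card ↥(X ⊓ Subgroup.centralizer {t}) * Nat.card (Cfsg.invertedBy X t) := by
  obtain ⟨hex, huniq⟩ := invDecomp_aux t ht2 X hodd hnorm
  rw [← Nat.card_prod]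
  symm
  apply Nat.card_congr
  refine Equiv.ofBijective (fun p : ↥(X ⊓ Subgroup.centralizer {t}) × ↥(Cfsg.invertedBy X t) =>
    (⟨(p.1 : M) * (p.2 : M), mul_mem (Subgroup.mem_inf.mp p.1.2).1 p.2.2.1⟩ : X)) ⟨?_, ?_⟩
  · rintro ⟨⟨y1, hy1⟩, ⟨z1, hz1⟩⟩ ⟨⟨y2, hy2⟩, ⟨z2, hz2⟩⟩ h
    have h' : y1 * z1 = y2 * z2 := congrArg Subtype.val h
    obtain ⟨e1, e2⟩ := huniq y1 z1 y2 z2 hy1 hz1 hy2 hz2 h'
    subst e1; subst e2; rfl
  · rintro ⟨x, hx⟩
    obtain ⟨y, z, hy, hz, rfl⟩ := hex x hx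
    exact ⟨(⟨y, hy⟩, ⟨z, hz⟩), rfl⟩

/-- The subgroup generated by the inverted elements is normalised by `X`. -/
theorem invDecomp_conj_mem {M : Type*} [Group M] [Finite M]
    (t : M) (ht2 : t * t = 1) (X : Subgroup M) (hodd : Odd (Nat.card X))
    (hnorm : ∀ x ∈ X, t * x * t⁻¹ ∈ X) :
    ∀ x ∈ X, ∀ w ∈ Subgroup.closure (Cfsg.invertedBy X t),
      x * w * x⁻¹ ∈ Subgroup.closure (Cfsg.invertedBy X t) := by
  obtain ⟨hex, -⟩ := invDecomp_aux t ht2 X hodd hnorm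
  have hc : ∀ y ∈ X ⊓ Subgroup.centralizer {t}, t * y * t⁻¹ = y := by
    intro y hy
    have h1 := (Subgroup.mem_centralizer_iff.mp (Subgroup.mem_inf.mp hy).2) t
      (Set.mem_singleton t)
    rw [h1]; group
  have stepA : ∀ y ∈ X ⊓ Subgroup.centralizer {t}, ∀ w ∈ Subgroup.closure (Cfsg.invertedBy X t),
      y * w * y⁻¹ ∈ Subgroup.closure (Cfsg.invertedBy X t) := by
    intro y hy w hw
    induction hw using Subgroup.closure_induction with
    | mem z hz =>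
      apply Subgroup.subset_closure
      refine ⟨mul_mem (mul_mem (Subgroup.mem_inf.mp hy).1 hz.1) (inv_mem (Subgroup.mem_inf.mp hy).1), ?_⟩
      have h1 : t * (y * z * y⁻¹) * t⁻¹ = (t * y * t⁻¹) * (t * z * t⁻¹) * (t * y * t⁻¹)⁻¹ := by
        group
      rw [h1, hc y hy, hz.2]; group
    | one => simp
    | mul w1 w2 _ _ h1 h2 =>
      have : y * (w1 * w2) * y⁻¹ = (y * w1 * y⁻¹) * (y * w2 * y⁻¹) := by group
      rw [this]; exact mul_mem h1 h2
    | inv w _ h1 =>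
      have : y * w⁻¹ * y⁻¹ = (y * w * y⁻¹)⁻¹ := by group
      rw [this]; exact inv_mem h1
  intro x hx w hw
  obtain ⟨y, z, hy, hz, rfl⟩ := hex x hx
  have hz' : z ∈ Subgroup.closure (Cfsg.invertedBy X t) := Subgroup.subset_closure hz
  have h1 : y * z * w * (y * z)⁻¹ = y * (z * w * z⁻¹) * y⁻¹ := by group
  rw [h1]
  exact stepA y hy _ (mul_mem (mul_mem hz' hw) (inv_mem hz'))

end Cfsg.Agent.H24
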