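import Mathlib
import Cfsg.Agent.H91.L34Defs
import Cfsg.Agent.S0243

/-!
# S5387-IDX: the unitriangular group has odd index in `PSL₃(4)`
-/

set_option autoImplicit false

namespace Cfsg.Agent.H24.L34

open Cfsg.Agent.H91.L34

universe u

/-- the order of `PSL₃(4)` -/
theorem card_psl34 {F : Type u} [Field F] [Fintype F] (hF : Fintype.card F = 4) :
    Nat.card (Matrix.ProjectiveSpecialLinearGroup (Fin 3) F) = 20160 := by
  have h2 := Cfsg.Agent.S0243.result hF 3 (by norm_num)
  simp only [Fin.prod_univ_succ, Fin.val_zero, Fin.val_succ, Finset.univ_eq_empty,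
    Finset.prod_empty] at h2
  norm_num at h2
  omega

/-- **S5387-IDX.** -/
theorem idx : IdxStmt.{u} := by
  intro F _ _ hF
  have hcard := card_psl34 hF
  have hr : Nat.card (Cfsg.Agent.H60.heisPSL (F := F)).range = 64 := by
    rw [← Cfsg.Agent.H60.heis_card hF]
    exact (Nat.card_congr
      (MonoidHom.ofInjective Cfsg.Agent.H60.heisPSL_injective).toEquiv).symm
  have hmul := Subgroup.card_mul_index (Cfsg.Agent.H60.heisPSL (F := F)).range
  rw [hr, hcard] at hmul
  have h315 : (Cfsg.Agent.H60.heisPSL (F := F)).range.index = 315 := by omega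
  rw [h315]
  decide

end Cfsg.Agent.H24.L34
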