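import Cfsg.Agent.H74.MCDefs

/-!
# S4756 piece MC-CONVCENT: off `P`, the centralizer has order at most `[G : G']`
-/

set_option autoImplicit false

namespace Cfsg.Agent.H24.MC

open Cfsg Cfsg.Agent.H74.MC

universe u

/-- MC-CONVCENT. -/
theorem convCent (h1 : StConvComm.{u}) (h2 : StConvA.{u}) (h3 : StConvB.{u}) :
    StConvCent.{u} := by
  intro G _ _ p _ P A hAlt g hg
  obtain ⟨a, haA, ha1, d₁, hd₁, hgP⟩ := h3 G p P A hAlt g hg
  have hcomm : commutator G ≤ ⁅A, P⁆ := h1 G p P A hAlt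
  have hdisj : ∀ d : G, d ∈ Subgroup.centralizer ({g} : Set G) → d ∈ ⁅A, P⁆ → d = 1 := by
    intro d hdC hdD
    apply h2 G p P A hAlt a haA ha1 d₁ hd₁ d hdD
    rw [← hgP]
    have hc : d * g = g * d := Subgroup.mem_centralizer_singleton_iff.mp hdC
    have hc' : Commute g d := hc.symm
    exact (hc'.pow_left _).eq
  have hinj : Function.Injective
      (fun x : ↥(Subgroup.centralizer ({g} : Set G)) × ↥(⁅A, P⁆) => (x.1 : G) * (x.2 : G)) := by
    rintro ⟨k, d⟩ ⟨k', d'⟩ h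
    have h' : (k : G) * (d : G) = (k' : G) * (d' : G) := h
    have h4 : (k' : G)⁻¹ * (k : G) = (d' : G) * (d : G)⁻¹ := by
      calc (k' : G)⁻¹ * (k : G) = (k' : G)⁻¹ * ((k : G) * (d : G)) * (d : G)⁻¹ := by group
        _ = (k' : G)⁻¹ * ((k' : G) * (d' : G)) * (d : G)⁻¹ := by rw [h']
        _ = (d' : G) * (d : G)⁻¹ := by group
    have h5 : (k' : G)⁻¹ * (k : G) = 1 := by
      apply hdisj
      · exact mul_mem (inv_mem k'.2) k.2
      · rw [h4]
        exact mul_mem d'.2 (inv_mem d.2)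
    have hk : (k : G) = (k' : G) := (inv_mul_eq_one.mp h5).symm
    have hd : (d : G) = (d' : G) := by
      rw [hk] at h'
      exact mul_left_cancel h'
    exact Prod.ext (Subtype.ext hk) (Subtype.ext hd)
  have hcard := Nat.card_le_card_of_injective _ hinj
  rw [Nat.card_prod] at hcard
  calc Nat.card ↥(Subgroup.centralizer ({g} : Set G)) * Nat.card ↥(commutator G)
      ≤ Nat.card ↥(Subgroup.centralizer ({g} : Set G)) * Nat.card ↥(⁅A, P⁆) :=
        Nat.mul_le_mul_left _ (Subgroup.card_le_of_le hcomm)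
    _ ≤ Nat.card G := hcard

end Cfsg.Agent.H24.MC

universe w

example : Cfsg.Agent.H74.MC.StConvComm.{w} → Cfsg.Agent.H74.MC.StConvA.{w} →
    Cfsg.Agent.H74.MC.StConvB.{w} → Cfsg.Agent.H74.MC.StConvCent.{w} :=
  Cfsg.Agent.H24.MC.convCent
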