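import Cfsg.Agent.H83.PCDefs
import Cfsg.Agent.S0245
import Cfsg.Agent.H6.SpCenter

/-!
# S3366 piece PC-ORD: `|PSp(4,3)| = 25920`
-/

set_option autoImplicit false

namespace Cfsg.Agent.H24.PC

open Cfsg Cfsg.Agent.H83.PC

universe v

/-- PC-ORD. -/
theorem ord : StOrd.{v} := by
  intro F _ _ hF
  have hSp := Cfsg.Agent.S0245.result (F := F) (q := 3) hF 2
  have hZ := Cfsg.Agent.H6.card_center_symplectic (l := Fin 2) (F := F) (q := 3) hF
  have hquot := Subgroup.card_eq_card_quotient_mul_card_subgroup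
    (Subgroup.center (Matrix.symplecticGroup (Fin 2) F))
  rw [hSp, hZ] at hquot
  have h1 : (3 : ℕ) ^ (2 ^ 2) * ∏ i ∈ Finset.range 2, (3 ^ (2 * (i + 1)) - 1) = 51840 := by
    simp [Finset.prod_range_succ]
  have h2 : Nat.gcd 2 (3 - 1) = 2 := by norm_num
  rw [h1, h2] at hquot
  have h3 : Nat.card (Cfsg.PSp 2 F)
      = Nat.card (Matrix.symplecticGroup (Fin 2) F ⧸
          Subgroup.center (Matrix.symplecticGroup (Fin 2) F)) := rfl
  rw [h3]
  omega

end Cfsg.Agent.H24.PC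

universe w

example : Cfsg.Agent.H83.PC.StOrd.{w} := Cfsg.Agent.H24.PC.ord
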