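import Mathlib
import Cfsg.Agent.H36.GLkPoly1

/-!
# S2479-LB: `q ^ (n - 1) < k(SL_n(q))`
-/

set_option autoImplicit false

open Polynomial DirectSum

namespace Cfsg.Agent.H24.SLk

/-- every monic polynomial of degree `n ≥ 2` is the characteristic polynomial of a
non-identity `n × n` matrix -/
theorem exists_charpoly_eq_ne_one {F : Type*} [Field F] (n : ℕ) (hn : 2 ≤ n) (f : F[X])
    (hf : f.Monic) (hd : f.natDegree = n) :
    ∃ A : Matrix (Fin n) (Fin n) F, A.charpoly = f ∧ A ≠ 1 := by
  subst hd
  have h2 : minpoly F (AdjoinRoot.powerBasis' hf).gen = f := by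
    show minpoly F (AdjoinRoot.root f) = f
    rw [AdjoinRoot.minpoly_root hf.ne_zero, hf.leadingCoeff, inv_one, map_one, mul_one]
  refine ⟨Algebra.leftMulMatrix (AdjoinRoot.powerBasis' hf).basis (AdjoinRoot.powerBasis' hf).gen,
    (charpoly_leftMulMatrix (AdjoinRoot.powerBasis' hf)).trans h2, ?_⟩
  intro h1
  have h3 : (AdjoinRoot.powerBasis' hf).gen = 1 :=
    Algebra.leftMulMatrix_injective (AdjoinRoot.powerBasis' hf).basis
      (h1.trans (map_one _).symm)
  have hnt : Nontrivial (AdjoinRoot f) := by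
    apply AdjoinRoot.nontrivial
    rw [degree_eq_natDegree hf.ne_zero]
    intro h
    have h' : f.natDegree = 0 := by exact_mod_cast h
    omega
  rw [h3, minpoly.one] at h2
  have h4 : (X - C (1 : F)).natDegree = f.natDegree := by rw [← h2, map_one]
  rw [natDegree_X_sub_C] at h4
  omega

/-- **S2479-LB.** -/
theorem card_conjClasses_SL_gt {F : Type*} [Field F] [Fintype F] (n : ℕ) (hn : 2 ≤ n) :
    Fintype.card F ^ (n - 1) < Nat.card (ConjClasses (Matrix.SpecialLinearGroup (Fin n) F)) := by
  classical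
  obtain ⟨k, rfl⟩ : ∃ k, n = k + 1 := ⟨n - 1, by omega⟩
  have hk : 1 ≤ k := by omega
  -- the polynomials
  obtain ⟨P, hP⟩ : ∃ P : (Fin k → F) → {g : F[X] // g.Monic ∧ g.natDegree = k + 1},
      P = fun c => (Cfsg.Agent.H36.GLk.monicEquivFun F (k + 1)).symm
        (Fin.cons ((-1 : F) ^ (k + 1)) c) := ⟨_, rfl⟩
  have hP0 : ∀ c, (P c).1.coeff 0 = (-1 : F) ^ (k + 1) := by
    intro c
    rw [← Cfsg.Agent.H36.GLk.monicEquivFun_zero F k (P c), hP]
    simp only [Equiv.apply_symm_apply, Fin.cons_zero]
  have hPinj : Function.Injective P := by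
    intro c c' h
    rw [hP] at h
    have h1 := (Cfsg.Agent.H36.GLk.monicEquivFun F (k + 1)).symm.injective h
    exact Fin.cons_right_injective _ h1
  -- the matrices
  have hA : ∀ c : Fin k → F, ∃ A : Matrix.SpecialLinearGroup (Fin (k + 1)) F,
      (A : Matrix (Fin (k + 1)) (Fin (k + 1)) F).charpoly = (P c).1 ∧ A ≠ 1 := by
    intro c
    obtain ⟨A, hA, hA1⟩ := exists_charpoly_eq_ne_one (k + 1) hn (P c).1 (P c).2.1 (P c).2.2
    have hdet : A.det = 1 := by
      rw [Matrix.det_eq_sign_charpoly_coeff, hA, hP0 c, Fintype.card_fin, ← mul_pow]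
      simp
    refine ⟨⟨A, hdet⟩, hA, ?_⟩
    intro h
    exact hA1 (congrArg
      (fun B : Matrix.SpecialLinearGroup (Fin (k + 1)) F =>
        (B : Matrix (Fin (k + 1)) (Fin (k + 1)) F)) h)
  choose Φ hΦ hΦ1 using hA
  have hfin : Finite (Matrix.SpecialLinearGroup (Fin (k + 1)) F) :=
    Finite.of_injective (fun A => A.1) Subtype.val_injective
  have hcard : Nat.card (Option (Fin k → F)) = Fintype.card F ^ k + 1 := by
    rw [Nat.card_eq_fintype_card, Fintype.card_option, Fintype.card_fun, Fintype.card_fin]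
  have hle : Nat.card (Option (Fin k → F))
      ≤ Nat.card (ConjClasses (Matrix.SpecialLinearGroup (Fin (k + 1)) F)) := by
    apply Nat.card_le_card_of_injective
      (fun o : Option (Fin k → F) => match o with
        | none => ConjClasses.mk (1 : Matrix.SpecialLinearGroup (Fin (k + 1)) F)
        | some c => ConjClasses.mk (Φ c))
    intro o o' h
    cases o with
    | none =>
      cases o' with
      | none => rfl
      | some c' =>
        exfalso
        simp only at h
        have h2 : IsConj (1 : Matrix.SpecialLinearGroup (Fin (k + 1)) F) (Φ c') :=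
          ConjClasses.mk_eq_mk_iff_isConj.mp h
        exact hΦ1 c' (isConj_one_right.mp h2)
    | some c =>
      cases o' with
      | none =>
        exfalso
        simp only at h
        have h2 : IsConj (1 : Matrix.SpecialLinearGroup (Fin (k + 1)) F) (Φ c) :=
          ConjClasses.mk_eq_mk_iff_isConj.mp h.symm
        exact hΦ1 c (isConj_one_right.mp h2)
      | some c' =>
        simp only at h
        have h2 : IsConj (Φ c) (Φ c') := ConjClasses.mk_eq_mk_iff_isConj.mp h
        obtain ⟨g, hg⟩ := isConj_iff.mp h2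
        congr 1
        apply hPinj
        apply Subtype.ext
        rw [← hΦ c, ← hΦ c']
        have hu1 : (g : Matrix (Fin (k + 1)) (Fin (k + 1)) F)
            * ((g⁻¹ : Matrix.SpecialLinearGroup (Fin (k + 1)) F) :
              Matrix (Fin (k + 1)) (Fin (k + 1)) F) = 1 := by
          rw [← Matrix.SpecialLinearGroup.coe_mul, mul_inv_cancel]; rfl
        have hu2 : ((g⁻¹ : Matrix.SpecialLinearGroup (Fin (k + 1)) F) :
              Matrix (Fin (k + 1)) (Fin (k + 1)) F)
            * (g : Matrix (Fin (k + 1)) (Fin (k + 1)) F) = 1 := by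
          rw [← Matrix.SpecialLinearGroup.coe_mul, inv_mul_cancel]; rfl
        have hinv : ((g⁻¹ : Matrix.SpecialLinearGroup (Fin (k + 1)) F) :
              Matrix (Fin (k + 1)) (Fin (k + 1)) F)
            = (g : Matrix (Fin (k + 1)) (Fin (k + 1)) F)⁻¹ :=
          (Matrix.inv_eq_right_inv hu1).symm
        have h3 : (Φ c' : Matrix (Fin (k + 1)) (Fin (k + 1)) F)
            = (g : Matrix (Fin (k + 1)) (Fin (k + 1)) F)
              * (Φ c : Matrix (Fin (k + 1)) (Fin (k + 1)) F)
              * (g : Matrix (Fin (k + 1)) (Fin (k + 1)) F)⁻¹ := by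
          rw [← hinv, ← hg, Matrix.SpecialLinearGroup.coe_mul, Matrix.SpecialLinearGroup.coe_mul]
        have h4 := Matrix.charpoly_units_conj
          (⟨(g : Matrix (Fin (k + 1)) (Fin (k + 1)) F),
            ((g⁻¹ : Matrix.SpecialLinearGroup (Fin (k + 1)) F) :
              Matrix (Fin (k + 1)) (Fin (k + 1)) F), hu1, hu2⟩ :
            (Matrix (Fin (k + 1)) (Fin (k + 1)) F)ˣ)
          (Φ c : Matrix (Fin (k + 1)) (Fin (k + 1)) F)
        rw [h3]
        exact h4.symm
  rw [hcard] at hle
  simp only [Nat.add_sub_cancel]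
  omega

end Cfsg.Agent.H24.SLk
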