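import Mathlib
import Cfsg.Agent.H24.SLkLB

set_option autoImplicit false

/-!
# S2480-LB: `q ^ (n - 1) ≤ gcd(n, q - 1) * k(PSL_n(q))`

From `q ^ (n - 1) < k(SL_n(q))` (`Cfsg.Agent.H24.SLk.card_conjClasses_SL_gt`), the general bound
`k(G) ≤ |Z| * k(G ⧸ Z)` for a central subgroup `Z`, and `|Z(SL_n(q))| = gcd(n, q - 1)`.
-/

namespace Cfsg.Agent.H24.PSLk

/-- `k(G) ≤ |Z| * k(G ⧸ Z)` for a central subgroup `Z`. -/
theorem card_conjClasses_le_card_mul_quot {G : Type*} [Group G] [Finite G] (Z : Subgroup G)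
    [Z.Normal] (hZ : Z ≤ Subgroup.center G) :
    Nat.card (ConjClasses G) ≤ Nat.card Z * Nat.card (ConjClasses (G ⧸ Z)) := by
  classical
  rw [← Nat.card_prod]
  have hrep : ∀ c : ConjClasses (G ⧸ Z),
      ∃ y : G, ConjClasses.mk (QuotientGroup.mk y : G ⧸ Z) = c := by
    intro c
    obtain ⟨yb, rfl⟩ := ConjClasses.mk_surjective c
    obtain ⟨y, rfl⟩ := QuotientGroup.mk_surjective yb
    exact ⟨y, rfl⟩
  choose rep hrep' using hrep
  apply Nat.card_le_card_of_surjective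
    (fun zc : Z × ConjClasses (G ⧸ Z) => ConjClasses.mk ((zc.1 : G) * rep zc.2))
  intro c
  obtain ⟨x, rfl⟩ := ConjClasses.mk_surjective c
  have h1 := hrep' (ConjClasses.mk (QuotientGroup.mk x : G ⧸ Z))
  rw [ConjClasses.mk_eq_mk_iff_isConj, isConj_iff] at h1
  obtain ⟨gb, hg⟩ := h1
  obtain ⟨g, rfl⟩ := QuotientGroup.mk_surjective gb
  obtain ⟨y, hy⟩ : ∃ y, y = rep (ConjClasses.mk (QuotientGroup.mk x : G ⧸ Z)) := ⟨_, rfl⟩
  rw [← hy] at hg
  have h2 : (QuotientGroup.mk (g * y * g⁻¹) : G ⧸ Z) = QuotientGroup.mk x := by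
    rw [QuotientGroup.mk_mul, QuotientGroup.mk_mul, QuotientGroup.mk_inv]
    exact hg
  rw [QuotientGroup.eq] at h2
  refine ⟨(⟨(g * y * g⁻¹)⁻¹ * x, h2⟩, ConjClasses.mk (QuotientGroup.mk x)), ?_⟩
  change ConjClasses.mk ((g * y * g⁻¹)⁻¹ * x *
    rep (ConjClasses.mk (QuotientGroup.mk x : G ⧸ Z))) = ConjClasses.mk x
  rw [← hy, ConjClasses.mk_eq_mk_iff_isConj, isConj_iff]
  refine ⟨g, ?_⟩
  have hz := Subgroup.mem_center_iff.mp (hZ h2)
  have e1 : g * ((g * y * g⁻¹)⁻¹ * x) = (g * y * g⁻¹)⁻¹ * x * g := hz g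
  have e2 : (g * y * g⁻¹) * ((g * y * g⁻¹)⁻¹ * x) = (g * y * g⁻¹)⁻¹ * x * (g * y * g⁻¹) :=
    hz (g * y * g⁻¹)
  calc g * ((g * y * g⁻¹)⁻¹ * x * y) * g⁻¹
      = g * ((g * y * g⁻¹)⁻¹ * x) * y * g⁻¹ := by group
    _ = (g * y * g⁻¹)⁻¹ * x * g * y * g⁻¹ := by rw [e1]
    _ = (g * y * g⁻¹)⁻¹ * x * (g * y * g⁻¹) := by group
    _ = (g * y * g⁻¹) * ((g * y * g⁻¹)⁻¹ * x) := e2.symm
    _ = x := by group

/-- The centre of `SL_n(q)` has order `gcd(n, q - 1)` for `n ≥ 1`. -/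
theorem card_center_SL {F : Type*} [Field F] [Fintype F] (n : ℕ) (hn : 1 ≤ n) :
    Nat.card (Subgroup.center (Matrix.SpecialLinearGroup (Fin n) F)) =
      Nat.gcd n (Fintype.card F - 1) := by
  classical
  rw [Nat.card_congr (Matrix.SpecialLinearGroup.center_equiv_rootsOfUnity).toEquiv]
  have hmax : max (Fintype.card (Fin n)) 1 = n := by
    rw [Fintype.card_fin]; omega
  rw [hmax]
  have hker : rootsOfUnity n F = (powMonoidHom n : Fˣ →* Fˣ).ker := by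
    ext ζ
    rw [mem_rootsOfUnity, MonoidHom.mem_ker, powMonoidHom_apply]
  rw [hker, IsCyclic.card_powMonoidHom_ker, Nat.card_units, Nat.card_eq_fintype_card,
    Nat.gcd_comm]

theorem le_gcd_mul_card_conjClasses_PSL {F : Type*} [Field F] [Fintype F] (n : ℕ)
    (hn : 2 ≤ n) :
    Fintype.card F ^ (n - 1) ≤ Nat.gcd n (Fintype.card F - 1) *
      Nat.card (ConjClasses (Matrix.ProjectiveSpecialLinearGroup (Fin n) F)) := by
  classical
  have h1 := Cfsg.Agent.H24.SLk.card_conjClasses_SL_gt (F := F) n hn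
  have h2 := card_conjClasses_le_card_mul_quot
    (Subgroup.center (Matrix.SpecialLinearGroup (Fin n) F)) le_rfl
  rw [card_center_SL n (by omega)] at h2
  exact h1.le.trans h2

end Cfsg.Agent.H24.PSLk
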