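import Mathlib
import Cfsg.Agent.H98.PSLkDefs

set_option autoImplicit false

/-!
# S2480-SCALG: algebra of `Polynomial.scaleRoots` and of the configuration scaling `sc`
-/

namespace Cfsg.Agent.H24.PSLk

open Polynomial DirectSum
open Cfsg.Agent.H98.GLk Cfsg.Agent.H98.SLk

theorem isUnit_scaleRoots_iff {F : Type*} [Field F] (p : F[X]) (a : F) :
    IsUnit (p.scaleRoots a) ↔ IsUnit p := by
  rw [Polynomial.isUnit_iff_degree_eq_zero, Polynomial.isUnit_iff_degree_eq_zero,
    degree_scaleRoots]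

theorem irreducible_scaleRoots {F : Type*} [Field F] (p : F[X]) (ζ : Fˣ) (hp : Irreducible p) :
    Irreducible (p.scaleRoots (ζ : F)) := by
  rw [irreducible_iff] at hp ⊢
  refine ⟨fun h => hp.1 ((isUnit_scaleRoots_iff p _).mp h), ?_⟩
  intro a b hab
  have h1 : p = a.scaleRoots ((ζ⁻¹ : Fˣ) : F) * b.scaleRoots ((ζ⁻¹ : Fˣ) : F) := by
    rw [← mul_scaleRoots_of_noZeroDivisors, ← hab, ← scaleRoots_mul, ← Units.val_mul,
      mul_inv_cancel, Units.val_one, scaleRoots_one]
  rcases hp.2 h1 with h | h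
  · exact Or.inl ((isUnit_scaleRoots_iff a _).mp h)
  · exact Or.inr ((isUnit_scaleRoots_iff b _).mp h)

theorem scaleRoots_eq_one_iff {F : Type*} [Field F] (p : F[X]) (a : F) :
    p.scaleRoots a = 1 ↔ p = 1 := by
  constructor
  · intro h
    have hd : p.natDegree = 0 := by
      rw [← natDegree_scaleRoots p a, h, natDegree_one]
    rw [eq_C_of_natDegree_eq_zero hd] at h ⊢
    rw [scaleRoots_C] at h
    exact h
  · rintro rfl
    exact one_scaleRoots a

theorem prod_scaleRoots {F : Type*} [Field F] {ι : Type*} (s : Finset ι) (f : ι → F[X])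
    (a : F) : (∏ i ∈ s, f i).scaleRoots a = ∏ i ∈ s, (f i).scaleRoots a := by
  classical
  induction s using Finset.induction_on with
  | empty => simp [one_scaleRoots]
  | insert i s hi ih =>
    rw [Finset.prod_insert hi, Finset.prod_insert hi, mul_scaleRoots_of_noZeroDivisors, ih]

theorem cdet_sc {F : Type*} [Field F] {n : ℕ} (ζ : Fˣ) (g : Fin n → F[X])
    (hg : g ∈ Conf F n n) : cdet (sc ζ g) = (ζ : F) ^ n * cdet g := by
  have hsum := (mem_Conf.mp hg).2
  rw [cdet_def, cdet_def]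
  have h1 : ∀ i : Fin n,
      ((-1 : F) ^ (sc ζ g i).natDegree * (sc ζ g i).coeff 0) ^ (i.val + 1)
        = (ζ : F) ^ ((i.val + 1) * (g i).natDegree) *
          ((-1 : F) ^ (g i).natDegree * (g i).coeff 0) ^ (i.val + 1) := by
    intro i
    rw [sc_apply, natDegree_scaleRoots, coeff_scaleRoots, Nat.sub_zero, mul_comm (i.val + 1),
      pow_mul, ← mul_pow]
    congr 1
    ring
  rw [Finset.prod_congr rfl (fun i _ => h1 i), Finset.prod_mul_distrib,
    Finset.prod_pow_eq_pow_sum, hsum]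

theorem sc_mem_Conf {F : Type*} [Field F] {n : ℕ} (ζ : Fˣ) (g : Fin n → F[X])
    (hg : g ∈ Conf F n n) : sc ζ g ∈ Conf F n n := by
  rw [mem_Conf] at hg ⊢
  refine ⟨fun e => ⟨?_, ?_⟩, ?_⟩
  · rw [sc_apply, monic_scaleRoots_iff]
    exact (hg.1 e).1
  · rw [sc_apply, coeff_scaleRoots]
    exact mul_ne_zero (hg.1 e).2 (pow_ne_zero _ ζ.ne_zero)
  · refine Eq.trans ?_ hg.2
    refine Finset.sum_congr rfl (fun e _ => ?_)
    rw [sc_apply, natDegree_scaleRoots]

end Cfsg.Agent.H24.PSLk
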