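import Mathlib
import Cfsg.Prelude.Def_CaseTheorems

/-!
# S5287-VSD: the Klein-four data of a quasi-dihedral 2-group
-/

set_option autoImplicit false

namespace Cfsg.Agent.H24.QdK

open Subgroup

/-- Abstract form: a group of order `16 k` generated by `x` of order `8 k` and an involution `y`
with `y x y⁻¹ = x ^ (4 k - 1)`. -/
theorem qd_data {T : Type*} [Group T] [Finite T] (k : ℕ) (hk : 1 ≤ k)
    (hcard : Nat.card T = 16 * k)
    (x y : T) (hx : orderOf x = 8 * k) (hy : orderOf y = 2)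
    (hrel : y * x * y⁻¹ = x ^ (4 * k - 1)) :
    ∃ z y' h₀ : T, (∀ s, s * z = z * s) ∧ z * z = 1 ∧ y' * y' = 1 ∧ z ≠ 1 ∧ y' ≠ 1 ∧ y' ≠ z ∧
      (∀ s, s * y' = y' * s → s = 1 ∨ s = z ∨ s = y' ∨ s = z * y') ∧
      h₀ * y' * h₀⁻¹ = z * y' := by
  have hkz : (1 : ℤ) ≤ k := by exact_mod_cast hk
  have hyy : y * y = 1 := by
    have := pow_orderOf_eq_one y
    rwa [hy, pow_two] at this
  have hyinv : y⁻¹ = y := inv_eq_of_mul_eq_one_left hyy
  have hy1 : y ≠ 1 := by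
    intro h
    rw [h, orderOf_one] at hy
    omega
  have hpow1 : ∀ a : ℤ, x ^ a = 1 ↔ (8 * k : ℤ) ∣ a := by
    intro a
    rw [← orderOf_dvd_iff_zpow_eq_one, hx]
    push_cast
    rfl
  have hpeq : ∀ a b : ℤ, x ^ a = x ^ b ↔ (8 * k : ℤ) ∣ a - b := by
    intro a b
    rw [← hpow1, zpow_sub, mul_inv_eq_one]
  have hrelz : y * x * y⁻¹ = x ^ (4 * k - 1 : ℤ) := by
    rw [hrel]
    have : ((4 * k - 1 : ℕ) : ℤ) = 4 * k - 1 := by omega
    rw [← this, zpow_natCast]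
  have hconj : ∀ a : ℤ, y * x ^ a * y⁻¹ = x ^ ((4 * k - 1) * a : ℤ) := by
    intro a
    rw [← conj_zpow, hrelz, ← zpow_mul]
  have hzz : x ^ (4 * k : ℤ) * x ^ (4 * k : ℤ) = 1 := by
    rw [← zpow_add]
    exact (hpow1 _).mpr ⟨1, by ring⟩
  have hz1 : x ^ (4 * k : ℤ) ≠ 1 := by
    intro h
    have h1 := (hpow1 _).mp h
    have h2 := Int.le_of_dvd (by omega) h1
    omega
  have hzy : y * x ^ (4 * k : ℤ) = x ^ (4 * k : ℤ) * y := by
    have h1 : y * x ^ (4 * k : ℤ) * y⁻¹ = x ^ (4 * k : ℤ) := by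
      rw [hconj]
      exact (hpeq _ _).mpr ⟨2 * k - 1, by ring⟩
    exact mul_inv_eq_iff_eq_mul.mp h1
  have hynot : y ∉ zpowers x := by
    rintro ⟨a, ha⟩
    have ha' : x ^ a = y := ha
    have h1 : y * x * y⁻¹ = x := by rw [← ha']; group
    rw [hrelz] at h1
    have h2 : x ^ (4 * k - 1 : ℤ) = x ^ (1 : ℤ) := by rw [h1, zpow_one]
    have h3 := (hpeq _ _).mp h2
    have h4 := Int.le_of_dvd (by omega) h3
    omega
  have hidx : (zpowers x).index = 2 := by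
    have h1 := Subgroup.card_mul_index (zpowers x)
    rw [Nat.card_zpowers, hx, hcard] at h1
    have h2 : 8 * k * (zpowers x).index = 8 * k * 2 := by rw [h1]; ring
    exact Nat.eq_of_mul_eq_mul_left (by omega) h2
  have hstruct : ∀ s : T, ∃ a : ℤ, s = x ^ a ∨ s = x ^ a * y := by
    intro s
    by_cases hs : s ∈ zpowers x
    · obtain ⟨a, ha⟩ := hs
      exact ⟨a, Or.inl ha.symm⟩
    · have h1 : s * y ∈ zpowers x :=
        (Subgroup.mul_mem_iff_of_index_two hidx).mpr (iff_of_false hs hynot)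
      obtain ⟨a, ha⟩ := h1
      have ha' : x ^ a = s * y := ha
      refine ⟨a, Or.inr ?_⟩
      rw [ha', mul_assoc, hyy, mul_one]
  have hcz : ∀ s, s * x ^ (4 * k : ℤ) = x ^ (4 * k : ℤ) * s := by
    intro s
    obtain ⟨a, rfl | rfl⟩ := hstruct s
    · rw [← zpow_add, ← zpow_add, add_comm]
    · calc x ^ a * y * x ^ (4 * k : ℤ) = x ^ a * (y * x ^ (4 * k : ℤ)) := by group
        _ = x ^ a * (x ^ (4 * k : ℤ) * y) := by rw [hzy]
        _ = (x ^ a * x ^ (4 * k : ℤ)) * y := by group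
        _ = (x ^ (4 * k : ℤ) * x ^ a) * y := by rw [← zpow_add, ← zpow_add, add_comm]
        _ = x ^ (4 * k : ℤ) * (x ^ a * y) := by group
  have hcent : ∀ a : ℤ, x ^ a * y = y * x ^ a → x ^ a = 1 ∨ x ^ a = x ^ (4 * k : ℤ) := by
    intro a h
    have h1 : y * x ^ a * y⁻¹ = x ^ a := by rw [← h]; group
    rw [hconj] at h1
    obtain ⟨c, hc⟩ := (hpeq _ _).mp h1
    have hc' : (2 * k - 1 : ℤ) * a = 4 * k * c := by linarith
    have ha : a = 4 * k * ((2 * k - 1) * c - (k - 1) * a) := by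
      linear_combination (2 * (k : ℤ) - 1) * hc'
    obtain ⟨f, hf | hf⟩ := Int.even_or_odd' ((2 * k - 1) * c - (k - 1) * a)
    · left
      refine (hpow1 a).mpr ⟨f, ?_⟩
      rw [hf] at ha
      linarith
    · right
      refine (hpeq a _).mpr ⟨f, ?_⟩
      rw [hf] at ha
      linarith
  refine ⟨x ^ (4 * k : ℤ), y, x ^ (2 * k : ℤ), hcz, hzz, hyy, hz1, hy1, ?_, ?_, ?_⟩
  · intro h
    exact hynot ⟨4 * k, h.symm⟩
  · intro s
    obtain ⟨a, rfl | rfl⟩ := hstruct s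
    · intro h
      rcases hcent a h with h1 | h1
      · left; exact h1
      · right; left; exact h1
    · intro h
      have h' : x ^ a * y = y * x ^ a := by
        have h2 := h
        rw [← mul_assoc] at h2
        exact mul_right_cancel h2
      rcases hcent a h' with h1 | h1
      · right; right; left; rw [h1, one_mul]
      · right; right; right; rw [h1]
  · calc x ^ (2 * k : ℤ) * y * (x ^ (2 * k : ℤ))⁻¹
        = x ^ (2 * k : ℤ) * (y * x ^ (-(2 * k) : ℤ) * y⁻¹) * y := by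
          rw [zpow_neg]; group
      _ = x ^ (2 * k : ℤ) * x ^ ((4 * k - 1) * (-(2 * k)) : ℤ) * y := by rw [hconj]
      _ = x ^ (4 * k : ℤ) * y := by
          have e : x ^ ((2 * k : ℤ) + (4 * k - 1) * (-(2 * k))) = x ^ (4 * k : ℤ) :=
            (hpeq _ _).mpr ⟨-k, by ring⟩
          rw [← zpow_add, e]

/-- **S5287-VSD.** -/
theorem quasidihedral_klein_data {Ω : Type*} [Group Ω] {S : Subgroup Ω} [Finite S]
    (hS : IsPGroup 2 S) (h : Cfsg.IsQuasiDihedral ↥S) :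
    ∃ z y h₀ : Ω, z ∈ S ∧ y ∈ S ∧ h₀ ∈ S ∧ (∀ s ∈ S, s * z = z * s) ∧ z * z = 1 ∧ y * y = 1 ∧
      z ≠ 1 ∧ y ≠ 1 ∧ y ≠ z ∧
      (∀ s ∈ S, s * y = y * s → s = 1 ∨ s = z ∨ s = y ∨ s = z * y) ∧ h₀ * y * h₀⁻¹ = z * y := by
  have _hS := hS
  obtain ⟨n, hn, hcard, x, y, hx, hy, hrel⟩ := h
  obtain ⟨j, rfl⟩ := Nat.exists_eq_add_of_le hn
  have e1 : 2 ^ (3 + j) = 8 * 2 ^ j := by rw [pow_add]; norm_num
  have e2 : 2 ^ (3 + j + 1) = 16 * 2 ^ j := by rw [pow_succ, e1]; ring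
  have e3 : 2 ^ (3 + j - 1) - 1 = 4 * 2 ^ j - 1 := by
    have : 3 + j - 1 = 2 + j := by omega
    rw [this, pow_add]; norm_num
  obtain ⟨z, y', h₀, hz, hzz, hyy, hz1, hy1, hyz, hcent, hh⟩ :=
    qd_data (2 ^ j) Nat.one_le_two_pow (by rw [hcard, e2]) x y (by rw [hx, e1]) hy
      (by rw [hrel, e3])
  refine ⟨z, y', h₀, z.2, y'.2, h₀.2, ?_, ?_, ?_, ?_, ?_, ?_, ?_, ?_⟩
  · intro s hs
    exact congrArg Subtype.val (hz ⟨s, hs⟩)
  · exact congrArg Subtype.val hzz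
  · exact congrArg Subtype.val hyy
  · intro h
    exact hz1 (Subtype.ext h)
  · intro h
    exact hy1 (Subtype.ext h)
  · intro h
    exact hyz (Subtype.ext h)
  · intro s hs hcomm
    have h1 : (⟨s, hs⟩ : S) * y' = y' * ⟨s, hs⟩ := Subtype.ext hcomm
    rcases hcent ⟨s, hs⟩ h1 with h2 | h2 | h2 | h2
    · left; exact congrArg Subtype.val h2
    · right; left; exact congrArg Subtype.val h2
    · right; right; left; exact congrArg Subtype.val h2
    · right; right; right; exact congrArg Subtype.val h2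
  · exact congrArg Subtype.val hh

end Cfsg.Agent.H24.QdK
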