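import Mathlib
import Cfsg.Agent.H7.RUDefs

/-!
# RU-ARC (helper7's team project S2358)

Arithmetic for the torus of order `q - r + 1` of the small Ree group (`q = 3^(2m+1)`,
`r = 3^(m+1)`), together with the polynomial coprimality facts shared with RU-ARD.
-/

set_option autoImplicit false

namespace Cfsg.Agent.H24.RU

open Cfsg.Agent.H7.RU

/-- With `3^m = b + 1`: `q = 3 (b+1)^2`, `q - 1 = 3 b^2 + 6 b + 2`, `q - r + 1 = 3 b^2 + 3 b + 1`,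
`q + r + 1 = 3 b^2 + 9 b + 7`; the two "toral" numbers are coprime to each other, to `6`, to `q`,
to `q - 1` and to `q + 1`. -/
theorem ru_poly (b : ℕ) :
    Nat.Coprime (3 * b ^ 2 + 3 * b + 1)
      ((3 * (b + 1) ^ 2) ^ 3 * (3 * b ^ 2 + 6 * b + 2) * (3 * (b + 1) ^ 2 + 1) *
        (3 * b ^ 2 + 9 * b + 7)) ∧
    Nat.Coprime (3 * b ^ 2 + 9 * b + 7)
      ((3 * (b + 1) ^ 2) ^ 3 * (3 * b ^ 2 + 6 * b + 2) * (3 * (b + 1) ^ 2 + 1) *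
        (3 * b ^ 2 + 3 * b + 1)) ∧
    Nat.Coprime (3 * b ^ 2 + 3 * b + 1) 6 ∧ Nat.Coprime (3 * b ^ 2 + 9 * b + 7) 6 := by
  obtain ⟨c, hc⟩ := Nat.even_mul_succ_self b
  have hbb : b ^ 2 + b = c + c := by rw [← hc]; ring
  -- parity and residues mod 3
  have h12 : Nat.Coprime (3 * b ^ 2 + 3 * b + 1) 2 := by
    rw [Nat.coprime_comm, Nat.Prime.coprime_iff_not_dvd Nat.prime_two]; omega
  have h13 : Nat.Coprime (3 * b ^ 2 + 3 * b + 1) 3 := by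
    rw [Nat.coprime_comm, Nat.Prime.coprime_iff_not_dvd Nat.prime_three]; omega
  have h22 : Nat.Coprime (3 * b ^ 2 + 9 * b + 7) 2 := by
    rw [Nat.coprime_comm, Nat.Prime.coprime_iff_not_dvd Nat.prime_two]; omega
  have h23 : Nat.Coprime (3 * b ^ 2 + 9 * b + 7) 3 := by
    rw [Nat.coprime_comm, Nat.Prime.coprime_iff_not_dvd Nat.prime_three]; omega
  have h16 : Nat.Coprime (3 * b ^ 2 + 3 * b + 1) 6 := Nat.Coprime.mul_right h12 h13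
  have h26 : Nat.Coprime (3 * b ^ 2 + 9 * b + 7) 6 := Nat.Coprime.mul_right h22 h23
  -- `k₁ k₂ = 1 + q (q - 1)`
  have hprod : (3 * b ^ 2 + 3 * b + 1) * (3 * b ^ 2 + 9 * b + 7) =
      1 + 3 * (b + 1) ^ 2 * (3 * b ^ 2 + 6 * b + 2) := by ring
  have hcop : Nat.Coprime ((3 * b ^ 2 + 3 * b + 1) * (3 * b ^ 2 + 9 * b + 7))
      (3 * (b + 1) ^ 2 * (3 * b ^ 2 + 6 * b + 2)) := by
    rw [hprod]
    exact (Nat.coprime_add_self_left).2 (Nat.coprime_one_left _)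
  have h1qq : Nat.Coprime (3 * b ^ 2 + 3 * b + 1) (3 * (b + 1) ^ 2 * (3 * b ^ 2 + 6 * b + 2)) :=
    Nat.Coprime.coprime_dvd_left (Dvd.intro _ rfl) hcop
  have h2qq : Nat.Coprime (3 * b ^ 2 + 9 * b + 7) (3 * (b + 1) ^ 2 * (3 * b ^ 2 + 6 * b + 2)) :=
    Nat.Coprime.coprime_dvd_left (Dvd.intro_left _ rfl) hcop
  have h1q : Nat.Coprime (3 * b ^ 2 + 3 * b + 1) (3 * (b + 1) ^ 2) :=
    Nat.Coprime.coprime_mul_right_right h1qq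
  have h1q1 : Nat.Coprime (3 * b ^ 2 + 3 * b + 1) (3 * b ^ 2 + 6 * b + 2) :=
    Nat.Coprime.coprime_mul_left_right h1qq
  have h2q : Nat.Coprime (3 * b ^ 2 + 9 * b + 7) (3 * (b + 1) ^ 2) :=
    Nat.Coprime.coprime_mul_right_right h2qq
  have h2q1 : Nat.Coprime (3 * b ^ 2 + 9 * b + 7) (3 * b ^ 2 + 6 * b + 2) :=
    Nat.Coprime.coprime_mul_left_right h2qq
  -- `(q + 1)^2 = k₁ k₂ + 3 q`
  have hsq1 : (3 * (b + 1) ^ 2 + 1) ^ 2 =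
      (3 * b ^ 2 + 3 * b + 1) * (3 * b ^ 2 + 9 * b + 7) + 3 * (3 * (b + 1) ^ 2) := by ring
  have hsq2 : (3 * (b + 1) ^ 2 + 1) ^ 2 =
      (3 * b ^ 2 + 9 * b + 7) * (3 * b ^ 2 + 3 * b + 1) + 3 * (3 * (b + 1) ^ 2) := by ring
  have h1p : Nat.Coprime (3 * b ^ 2 + 3 * b + 1) (3 * (b + 1) ^ 2 + 1) := by
    have h : Nat.Coprime (3 * b ^ 2 + 3 * b + 1) ((3 * (b + 1) ^ 2 + 1) ^ 2) := by
      rw [hsq1, Nat.coprime_mul_left_add_right]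
      exact Nat.Coprime.mul_right h13 h1q
    exact Nat.Coprime.coprime_dvd_right (dvd_pow_self _ two_ne_zero) h
  have h2p : Nat.Coprime (3 * b ^ 2 + 9 * b + 7) (3 * (b + 1) ^ 2 + 1) := by
    have h : Nat.Coprime (3 * b ^ 2 + 9 * b + 7) ((3 * (b + 1) ^ 2 + 1) ^ 2) := by
      rw [hsq2, Nat.coprime_mul_left_add_right]
      exact Nat.Coprime.mul_right h23 h2q
    exact Nat.Coprime.coprime_dvd_right (dvd_pow_self _ two_ne_zero) h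
  -- `k₂ = k₁ + 6 (b + 1)` and `k₁ = 1 + 3 b (b + 1)`
  have h1b : Nat.Coprime (3 * b ^ 2 + 3 * b + 1) (b + 1) := by
    have e : 3 * b ^ 2 + 3 * b + 1 = 1 + (b + 1) * (3 * b) := by ring
    rw [e, Nat.coprime_add_mul_left_left]
    exact Nat.coprime_one_left _
  have h12' : Nat.Coprime (3 * b ^ 2 + 3 * b + 1) (3 * b ^ 2 + 9 * b + 7) := by
    have e : 3 * b ^ 2 + 9 * b + 7 = 3 * b ^ 2 + 3 * b + 1 + 6 * (b + 1) := by ring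
    rw [e, Nat.coprime_self_add_right]
    exact Nat.Coprime.mul_right h16 h1b
  refine ⟨?_, ?_, h16, h26⟩
  · exact Nat.Coprime.mul_right (Nat.Coprime.mul_right (Nat.Coprime.mul_right
      (Nat.Coprime.pow_right 3 h1q) h1q1) h1p) h12'
  · exact Nat.Coprime.mul_right (Nat.Coprime.mul_right (Nat.Coprime.mul_right
      (Nat.Coprime.pow_right 3 h2q) h2q1) h2p) h12'.symm

/-- The shape of `q = 3^(2m+1)` and `r = 3^(m+1)` in terms of `b = 3^m - 1`. -/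
theorem ru_shape (m : ℕ) : ∃ b : ℕ, 3 ^ (2 * m + 1) = 3 * (b + 1) ^ 2 ∧ 3 ^ (m + 1) = 3 * (b + 1) ∧
    3 ^ (2 * m + 1) - 1 = 3 * b ^ 2 + 6 * b + 2 ∧
    3 ^ (2 * m + 1) - 3 ^ (m + 1) + 1 = 3 * b ^ 2 + 3 * b + 1 ∧
    3 ^ (2 * m + 1) + 3 ^ (m + 1) + 1 = 3 * b ^ 2 + 9 * b + 7 ∧
    (3 ^ (2 * m + 1)) ^ 3 * (3 ^ (2 * m + 1) - 1) * ((3 ^ (2 * m + 1)) ^ 3 + 1) =
      (3 * b ^ 2 + 3 * b + 1) * ((3 * (b + 1) ^ 2) ^ 3 * (3 * b ^ 2 + 6 * b + 2) *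
        (3 * (b + 1) ^ 2 + 1) * (3 * b ^ 2 + 9 * b + 7)) ∧
    (3 ^ (2 * m + 1)) ^ 3 * (3 ^ (2 * m + 1) - 1) * ((3 ^ (2 * m + 1)) ^ 3 + 1) =
      (3 * b ^ 2 + 9 * b + 7) * ((3 * (b + 1) ^ 2) ^ 3 * (3 * b ^ 2 + 6 * b + 2) *
        (3 * (b + 1) ^ 2 + 1) * (3 * b ^ 2 + 3 * b + 1)) := by
  obtain ⟨b, hb⟩ : ∃ b : ℕ, 3 ^ m = b + 1 :=
    ⟨3 ^ m - 1, (Nat.sub_add_cancel (Nat.pow_pos (by norm_num))).symm⟩
  have hq : 3 ^ (2 * m + 1) = 3 * (b + 1) ^ 2 := by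
    rw [pow_succ, pow_mul', hb]; ring
  have hr : 3 ^ (m + 1) = 3 * (b + 1) := by
    rw [pow_succ, hb]; ring
  have hexp : 3 * (b + 1) ^ 2 = 3 * b ^ 2 + 6 * b + 3 := by ring
  have hq1 : 3 ^ (2 * m + 1) - 1 = 3 * b ^ 2 + 6 * b + 2 := by rw [hq]; omega
  have hk1 : 3 ^ (2 * m + 1) - 3 ^ (m + 1) + 1 = 3 * b ^ 2 + 3 * b + 1 := by rw [hq, hr]; omega
  have hk2 : 3 ^ (2 * m + 1) + 3 ^ (m + 1) + 1 = 3 * b ^ 2 + 9 * b + 7 := by rw [hq, hr]; omega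
  refine ⟨b, hq, hr, hq1, hk1, hk2, ?_, ?_⟩
  · rw [hq1, hq]; ring
  · rw [hq1, hq]; ring

theorem arC : StArC := by
  intro m _
  obtain ⟨b, -, -, -, hk1, -, hg, -⟩ := ru_shape m
  obtain ⟨h1, -, h16, -⟩ := ru_poly b
  have hpos : 0 < 3 * b ^ 2 + 3 * b + 1 := by omega
  rw [hk1, hg, Nat.mul_div_cancel_left _ hpos, Nat.mul_div_cancel _ hpos]
  exact ⟨h1, h16⟩

example : StArC := arC

end Cfsg.Agent.H24.RU
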