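import Mathlib
import Cfsg.Agent.H7.RUDefs
import Cfsg.Agent.H24.RUArC

/-!
# RU-ARD (helper7's team project S2358)

Arithmetic for the torus of order `q + r + 1` of the small Ree group (`q = 3^(2m+1)`,
`r = 3^(m+1)`).
-/

set_option autoImplicit false

namespace Cfsg.Agent.H24.RU

open Cfsg.Agent.H7.RU

theorem arD : StArD := by
  intro m _
  obtain ⟨b, -, -, -, -, hk2, -, hg⟩ := ru_shape m
  obtain ⟨-, h2, -, h26⟩ := ru_poly b
  have hpos : 0 < 3 * b ^ 2 + 9 * b + 7 := by omega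
  rw [hk2, hg, Nat.mul_div_cancel_left _ hpos, Nat.mul_div_cancel _ hpos]
  exact ⟨h2, h26⟩

example : StArD := arD

end Cfsg.Agent.H24.RU
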