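import Mathlib

/-!
# S3641-C (helper21's team project S3641): coprime orbit counting

If a normal subgroup `K` normalizes a Sylow `p`-subgroup `P` of `G`, then for every Sylow
`r`-subgroup `R` (`r ≠ p`) the `p`-part of `|K : N_K(R)|` is `≡ 1 (mod r)`.

`K_p = P ⊓ K` contains every `p`-subgroup of `K`, so it is normal in `G` and `K_p ⊓ M` is a Sylow
`p`-subgroup of every `M ≤ K`; `R` acts on `K_p` by conjugation with fixed points `K_p ⊓ N_G(R)`.
-/

set_option autoImplicit false

namespace Cfsg.Agent.H24.S3641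

open Subgroup

theorem sc_card_inf_mul_relIndex {G : Type*} [Group G] (A B : Subgroup G) :
    Nat.card ↥(A ⊓ B) * A.relIndex B = Nat.card B := by
  rw [← Subgroup.inf_relIndex_right A B, ← Subgroup.relIndex_bot_left,
    Subgroup.relIndex_mul_relIndex ⊥ (A ⊓ B) B bot_le inf_le_right, Subgroup.relIndex_bot_left]

section

variable {G : Type*} [Group G] [Finite G] (K : Subgroup G) (p : ℕ) [Fact p.Prime] (P : Sylow p G)

omit [Finite G] [Fact p.Prime] in
/-- Every `p`-subgroup of `K ≤ N_G(P)` lies in `P ⊓ K`. -/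
theorem sc_le_inf (hKP : K ≤ Subgroup.normalizer ((P : Subgroup G) : Set G)) (S : Subgroup G)
    (hS : IsPGroup p S) (hSK : S ≤ K) : S ≤ (P : Subgroup G) ⊓ K := by
  have h1 : S ⊓ Subgroup.normalizer ((P : Subgroup G) : Set G) = S ⊓ (P : Subgroup G) :=
    hS.inf_normalizer_sylow P
  have h2 : S ≤ S ⊓ Subgroup.normalizer ((P : Subgroup G) : Set G) :=
    le_inf le_rfl (hSK.trans hKP)
  rw [h1] at h2
  exact le_inf (h2.trans inf_le_right) hSK

/-- For `M ≤ K`, the subgroup `(P ⊓ K) ⊓ M` is a Sylow `p`-subgroup of `M`. -/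
theorem sc_card (hKP : K ≤ Subgroup.normalizer ((P : Subgroup G) : Set G)) (M : Subgroup G)
    (hMK : M ≤ K) :
    Nat.card ↥(((P : Subgroup G) ⊓ K) ⊓ M) = p ^ (Nat.card ↥M).factorization p := by
  have hp : p.Prime := Fact.out
  have hpg : IsPGroup p ↥(((P : Subgroup G) ⊓ K) ⊓ M) :=
    P.isPGroup'.to_le (inf_le_left.trans inf_le_left)
  obtain ⟨n, hn⟩ := IsPGroup.iff_card.1 hpg
  obtain ⟨S⟩ : Nonempty (Sylow p ↥M) := inferInstance
  have hScard : Nat.card ↥((S : Subgroup ↥M).map M.subtype) = p ^ (Nat.card ↥M).factorization p := by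
    rw [← S.card_eq_multiplicity]
    exact Nat.card_congr
      ((S : Subgroup ↥M).equivMapOfInjective M.subtype (Subgroup.subtype_injective M)).symm.toEquiv
  have hSM : (S : Subgroup ↥M).map M.subtype ≤ M := by
    rintro _ ⟨x, _, rfl⟩
    exact x.2
  have hSp : IsPGroup p ↥((S : Subgroup ↥M).map M.subtype) := S.isPGroup'.map M.subtype
  have hSle : (S : Subgroup ↥M).map M.subtype ≤ ((P : Subgroup G) ⊓ K) ⊓ M :=
    le_inf (sc_le_inf K p P hKP _ hSp (hSM.trans hMK)) hSM
  have hd1 : p ^ (Nat.card ↥M).factorization p ∣ p ^ n := by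
    rw [← hScard, ← hn]
    exact Subgroup.card_dvd_of_le hSle
  have hd2 : p ^ n ∣ Nat.card ↥M := by
    rw [← hn]
    exact Subgroup.card_dvd_of_le inf_le_right
  have h1 : (Nat.card ↥M).factorization p ≤ n := (Nat.pow_dvd_pow_iff_le_right hp.one_lt).1 hd1
  have h2 : n ≤ (Nat.card ↥M).factorization p :=
    (hp.pow_dvd_iff_le_factorization Nat.card_pos.ne').1 hd2
  rw [hn, le_antisymm h2 h1]

omit [Finite G] [Fact p.Prime] in
/-- `P ⊓ K` is normal in `G`. -/
theorem sc_normal [K.Normal] (hKP : K ≤ Subgroup.normalizer ((P : Subgroup G) : Set G)) :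
    ((P : Subgroup G) ⊓ K).Normal := by
  constructor
  intro k hk g
  have hp : IsPGroup p ↥(((P : Subgroup G) ⊓ K).map (MulAut.conj g).toMonoidHom) :=
    (P.isPGroup'.to_le inf_le_left).map _
  have hle : ((P : Subgroup G) ⊓ K).map (MulAut.conj g).toMonoidHom ≤ K := by
    rintro _ ⟨x, hx, rfl⟩
    exact Subgroup.Normal.conj_mem inferInstance x hx.2 g
  exact sc_le_inf K p P hKP _ hp hle ⟨k, hk, rfl⟩

end

theorem ordProj_relIndex_modEq_one {G : Type*} [Group G] [Finite G] (K : Subgroup G)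
    [K.Normal] (p r : ℕ) [Fact p.Prime] [Fact r.Prime] (hpr : p ≠ r) (P : Sylow p G)
    (hKP : K ≤ Subgroup.normalizer ((P : Subgroup G) : Set G)) (R : Sylow r G) :
    p ^ ((Subgroup.normalizer ((R : Subgroup G) : Set G)).relIndex K).factorization p ≡
      1 [MOD r] := by
  have hp : p.Prime := Fact.out
  have hr : r.Prime := Fact.out
  obtain ⟨N, hN⟩ : ∃ N : Subgroup G, N = Subgroup.normalizer ((R : Subgroup G) : Set G) :=
    ⟨_, rfl⟩
  rw [← hN]
  obtain ⟨Kp, hKp⟩ : ∃ Kp : Subgroup G, Kp = (P : Subgroup G) ⊓ K := ⟨_, rfl⟩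
  have hKpK : Kp ≤ K := by rw [hKp]; exact inf_le_right
  have hKpn : Kp.Normal := by rw [hKp]; exact sc_normal K p P hKP
  have hKpp : IsPGroup p ↥Kp := by rw [hKp]; exact P.isPGroup'.to_le inf_le_left
  -- orders
  have hA : Nat.card ↥Kp = p ^ (Nat.card ↥K).factorization p := by
    have := sc_card K p P hKP K le_rfl
    rw [← hKp, inf_eq_left.2 hKpK] at this
    exact this
  have hB : Nat.card ↥(Kp ⊓ N) = p ^ (Nat.card ↥(N ⊓ K)).factorization p := by
    have := sc_card K p P hKP (N ⊓ K) inf_le_right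
    rw [← hKp] at this
    have e : Kp ⊓ (N ⊓ K) = Kp ⊓ N := by
      apply le_antisymm
      · exact le_inf inf_le_left (inf_le_right.trans inf_le_left)
      · exact le_inf inf_le_left (le_inf inf_le_right (inf_le_left.trans hKpK))
    rw [e] at this
    exact this
  -- the conjugation action of `R` on `Kp` and its fixed points
  let act : MulAction ↥(R : Subgroup G) ↥Kp :=
    { smul := fun x k => ⟨(x : G) * (k : G) * (x : G)⁻¹, hKpn.conj_mem k.1 k.2 x.1⟩
      one_smul := fun k => Subtype.ext (by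
        show ((1 : ↥(R : Subgroup G)) : G) * (k : G) * ((1 : ↥(R : Subgroup G)) : G)⁻¹ = (k : G)
        simp)
      mul_smul := fun x y k => Subtype.ext (by
        show ((x * y : ↥(R : Subgroup G)) : G) * (k : G) * ((x * y : ↥(R : Subgroup G)) : G)⁻¹ =
          (x : G) * ((y : G) * (k : G) * (y : G)⁻¹) * (x : G)⁻¹
        simp [mul_assoc]) }
  have hsmul : ∀ (x : ↥(R : Subgroup G)) (k : ↥Kp), ((x • k : ↥Kp) : G) = (x : G) * (k : G) * (x : G)⁻¹ :=
    fun x k => rfl
  have hmod := R.isPGroup'.card_modEq_card_fixedPoints (↥Kp)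
  have hdisj : Disjoint Kp (R : Subgroup G) :=
    IsPGroup.disjoint_of_ne p r hpr Kp (R : Subgroup G) hKpp R.isPGroup'
  have hfix : Nat.card ↥(MulAction.fixedPoints ↥(R : Subgroup G) ↥Kp) = Nat.card ↥(Kp ⊓ N) := by
    refine Nat.card_congr
      { toFun := fun k => ⟨(k.1 : G), Subgroup.mem_inf.2 ⟨k.1.2, ?_⟩⟩
        invFun := fun k => ⟨⟨(k : G), k.2.1⟩, ?_⟩
        left_inv := fun k => rfl
        right_inv := fun k => rfl }
    · -- a fixed point centralizes `R`, hence normalizes it
      have hk := k.2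
      rw [MulAction.mem_fixedPoints] at hk
      rw [hN, Subgroup.mem_normalizer_iff]
      intro h
      have key : ∀ y : G, y ∈ (R : Subgroup G) → (k.1 : G) * y * (k.1 : G)⁻¹ = y := by
        intro y hy
        have h1 := congrArg Subtype.val (hk ⟨y, hy⟩)
        rw [hsmul] at h1
        have h2 : y * (k.1 : G) = (k.1 : G) * y := by
          have := congrArg (fun t => t * y) h1
          simpa [mul_assoc] using this
        rw [← h2]
        simp
      constructor
      · intro hh
        have := key h hh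
        show (k.1 : G) * h * (k.1 : G)⁻¹ ∈ ((R : Subgroup G) : Set G)
        rw [this]
        exact hh
      · intro hh
        have hh' : (k.1 : G) * h * (k.1 : G)⁻¹ ∈ (R : Subgroup G) := hh
        have h3 := key _ hh'
        -- `k (k h k⁻¹) k⁻¹ = k h k⁻¹` gives `k h k⁻¹ = h`
        have h4 : (k.1 : G) * h * (k.1 : G)⁻¹ = h := by
          have := congrArg (fun t => (k.1 : G)⁻¹ * t * (k.1 : G)) h3
          simpa [mul_assoc] using this
        rw [← h4]
        exact hh'
    · -- an element of `Kp ⊓ N` is fixed: the commutator lies in `Kp ⊓ R = ⊥`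
      rw [MulAction.mem_fixedPoints]
      intro x
      apply Subtype.ext
      rw [hsmul]
      show (x : G) * (k : G) * (x : G)⁻¹ = (k : G)
      have hkN : (k : G) ∈ Subgroup.normalizer ((R : Subgroup G) : Set G) := by
        rw [← hN]; exact k.2.2
      have h1 : (x : G) * (k : G) * (x : G)⁻¹ * (k : G)⁻¹ ∈ Kp :=
        Kp.mul_mem (hKpn.conj_mem _ k.2.1 _) (Kp.inv_mem k.2.1)
      have h2 : (x : G) * (k : G) * (x : G)⁻¹ * (k : G)⁻¹ ∈ (R : Subgroup G) := by
        have h3 : (k : G) * (x : G)⁻¹ * (k : G)⁻¹ ∈ (R : Subgroup G) :=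
          (Subgroup.mem_normalizer_iff.1 hkN _).1 ((R : Subgroup G).inv_mem x.2)
        have h4 := (R : Subgroup G).mul_mem x.2 h3
        simpa [mul_assoc] using h4
      have h5 := Subgroup.disjoint_def.1 hdisj h1 h2
      have := congrArg (fun t => t * (k : G)) h5
      simpa [mul_assoc] using this
  rw [hfix, hA, hB] at hmod
  -- arithmetic
  have hcard := sc_card_inf_mul_relIndex N K
  have hKpos : Nat.card ↥K ≠ 0 := Nat.card_pos.ne'
  have hIpos : Nat.card ↥(N ⊓ K) ≠ 0 := Nat.card_pos.ne'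
  have hRpos : N.relIndex K ≠ 0 := by
    intro h0
    rw [h0, mul_zero] at hcard
    exact hKpos hcard.symm
  have hfac : (Nat.card ↥K).factorization p =
      (Nat.card ↥(N ⊓ K)).factorization p + (N.relIndex K).factorization p := by
    rw [← hcard, Nat.factorization_mul hIpos hRpos]
    rfl
  rw [hfac, pow_add] at hmod
  have hcop : Nat.gcd r (p ^ (Nat.card ↥(N ⊓ K)).factorization p) = 1 :=
    Nat.Coprime.pow_right _ ((Nat.coprime_primes hr hp).2 (Ne.symm hpr))
  have hmod' : p ^ (Nat.card ↥(N ⊓ K)).factorization p * p ^ (N.relIndex K).factorization p ≡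
      p ^ (Nat.card ↥(N ⊓ K)).factorization p * 1 [MOD r] := by
    rw [mul_one]; exact hmod
  exact Nat.ModEq.cancel_left_of_coprime hcop hmod'

example {G : Type*} [Group G] [Finite G] (K : Subgroup G)
    [K.Normal] (p r : ℕ) [Fact p.Prime] [Fact r.Prime] (hpr : p ≠ r) (P : Sylow p G)
    (hKP : K ≤ Subgroup.normalizer ((P : Subgroup G) : Set G)) (R : Sylow r G) :
    p ^ ((Subgroup.normalizer ((R : Subgroup G) : Set G)).relIndex K).factorization p ≡
      1 [MOD r] := ordProj_relIndex_modEq_one K p r hpr P hKP R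

end Cfsg.Agent.H24.S3641
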