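import Mathlib

/-!
# S2479-DSUM: the determinant of a direct sum of linear maps
-/

set_option autoImplicit false

open Polynomial DirectSum

namespace Cfsg.Agent.H24.SLk

/-- The determinant of a dependent block diagonal matrix. -/
theorem det_blockDiagonal'' {R : Type*} [CommRing R] {o : Type*} [Fintype o] [LinearOrder o]
    {n' : o → Type*} [∀ i, Fintype (n' i)] [∀ i, DecidableEq (n' i)]
    (d : ∀ i, Matrix (n' i) (n' i) R) :
    (Matrix.blockDiagonal' d).det = ∏ i, (d i).det := by
  rw [(Matrix.blockTriangular_blockDiagonal' d).det_fintype]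
  refine Finset.prod_congr rfl fun k _ => ?_
  let e : {a : Σ i, n' i // a.1 = k} ≃ n' k :=
    { toFun := fun a => a.2 ▸ a.1.2
      invFun := fun x => ⟨⟨k, x⟩, rfl⟩
      left_inv := by rintro ⟨⟨i, x⟩, rfl⟩; rfl
      right_inv := fun x => rfl }
  rw [← Matrix.det_reindex_self e.symm (d k)]
  congr 1
  ext ⟨⟨i, x⟩, hi⟩ ⟨⟨j, y⟩, hj⟩
  cases hi
  cases hj
  simp [Matrix.toSquareBlock_def, e]

/-- The determinant of `DirectSum.lmap g` over a finite index type is the product of the
determinants. -/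
theorem det_lmap {R : Type*} [CommRing R] {ι : Type*} [Fintype ι] [LinearOrder ι]
    {M : ι → Type*} [∀ i, AddCommGroup (M i)] [∀ i, Module R (M i)]
    [∀ i, Module.Free R (M i)] [∀ i, Module.Finite R (M i)] (g : ∀ i, M i →ₗ[R] M i) :
    LinearMap.det (M := ⨁ i, M i) (DirectSum.lmap g) = ∏ i, LinearMap.det (g i) := by
  classical
  have h2 : ((DirectSum.linearEquivFunOnFintype R ι M : (⨁ i, M i) ≃ₗ[R] (∀ i, M i)) :
        (⨁ i, M i) →ₗ[R] (∀ i, M i))
          ∘ₗ DirectSum.lmap g
          ∘ₗ (((DirectSum.linearEquivFunOnFintype R ι M).symm : (∀ i, M i) ≃ₗ[R] (⨁ i, M i)) :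
            (∀ i, M i) →ₗ[R] (⨁ i, M i))
      = LinearMap.pi (fun i => (g i).comp (LinearMap.proj i)) := by
    refine LinearMap.ext fun x => funext fun i => ?_
    simp only [LinearMap.coe_comp, LinearEquiv.coe_coe, Function.comp_apply, LinearMap.pi_apply,
      LinearMap.coe_proj, Function.eval]
    rfl
  rw [← LinearMap.det_conj (DirectSum.lmap g) (DirectSum.linearEquivFunOnFintype R ι M), h2]
  rw [← LinearMap.det_toMatrix (Pi.basis (fun i => Module.Free.chooseBasis R (M i)))]
  have h3 : LinearMap.toMatrix (Pi.basis (fun i => Module.Free.chooseBasis R (M i)))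
      (Pi.basis (fun i => Module.Free.chooseBasis R (M i)))
      (LinearMap.pi fun i => g i ∘ₗ LinearMap.proj i)
      = Matrix.blockDiagonal' (fun i => LinearMap.toMatrix (Module.Free.chooseBasis R (M i))
          (Module.Free.chooseBasis R (M i)) (g i)) := by
    ext ⟨i₁, i₂⟩ ⟨j₁, j₂⟩
    simp only [LinearMap.toMatrix_apply, Matrix.blockDiagonal'_apply, Pi.basis_apply,
      Pi.basis_repr, LinearMap.pi_apply, LinearMap.coe_comp, Function.comp_apply,
      LinearMap.coe_proj, Function.eval]
    by_cases h : i₁ = j₁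
    · subst h
      simp
    · rw [dif_neg h, Pi.single_eq_of_ne h, map_zero, map_zero]
      rfl
  rw [h3, det_blockDiagonal'']
  simp only [LinearMap.det_toMatrix]

/-- the quotient of `F[X]` by a monic polynomial is finite-dimensional -/
theorem finite_quot_span_of_monic {F : Type*} [Field F] (f : F[X]) (hf : f.Monic) :
    Module.Finite F (F[X] ⧸ F[X] ∙ f) := by
  rcases Nat.eq_zero_or_pos f.natDegree with h | h
  · have h1 : f = 1 := Polynomial.eq_one_of_monic_natDegree_zero hf h
    have htop : (F[X] ∙ f) = ⊤ := by rw [h1]; exact Ideal.span_singleton_one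
    have : Subsingleton (F[X] ⧸ F[X] ∙ f) := Submodule.Quotient.subsingleton_iff.mpr htop
    exact Module.Finite.of_finite
  · exact Module.finite_of_finrank_pos (by rw [finrank_quotient_span_eq_natDegree]; exact h)

/-- **S2479-DSUM.** -/
theorem det_lmap_lsmul {F : Type*} [Field F] (k : ℕ) (f : Fin k → F[X]) (hf : ∀ i, (f i).Monic)
    (r : Fin k → F[X]) :
    LinearMap.det (M := ⨁ i : Fin k, F[X] ⧸ F[X] ∙ f i) ((DirectSum.lmap
        (fun i => LinearMap.lsmul F[X] (F[X] ⧸ F[X] ∙ f i) (r i))).restrictScalars F) =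
      ∏ i, LinearMap.det
        ((LinearMap.lsmul F[X] (F[X] ⧸ F[X] ∙ f i) (r i)).restrictScalars F) := by
  have : ∀ i, Module.Finite F (F[X] ⧸ F[X] ∙ f i) :=
    fun i => finite_quot_span_of_monic _ (hf i)
  have h : (DirectSum.lmap
        (fun i => LinearMap.lsmul F[X] (F[X] ⧸ F[X] ∙ f i) (r i))).restrictScalars F
      = DirectSum.lmap
        (fun i => (LinearMap.lsmul F[X] (F[X] ⧸ F[X] ∙ f i) (r i)).restrictScalars F) :=
    LinearMap.ext fun x => rfl
  rw [h]
  exact det_lmap _

end Cfsg.Agent.H24.SLk
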