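import Mathlib
import Cfsg.Agent.H56.SqDefs
import Cfsg.Agent.H23.Basic

set_option autoImplicit false

/-!
# S4625 (team project of helper56), Chevalley pieces: the generic lemma

If `U = ⟨x_r(t) : r > 0⟩` is a Sylow 2-subgroup of the Chevalley group `D.group F` in
characteristic 2, then it is generated by involutions (the root elements), so `GoodSyl`.
-/

namespace Cfsg.Agent.H24.Sq

open Cfsg Cfsg.Lie Cfsg.Agent.H23 Cfsg.Agent.H56.Sq

theorem goodSyl_of_sem {F : Type} [Field F] [Fintype F] [CharP F 2] (D : ChevalleyDatum)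
    {z : ℕ → ℕ → ℤ} (hS : Sem D F z)
    (hSyl : ∃ P : Sylow 2 ↥(D.group F),
      (P : Subgroup ↥(D.group F)) = (D.posUnipotent F).subgroupOf (D.group F)) :
    GoodSyl (D.group F) := by
  have : Fact (Nat.Prime 2) := ⟨Nat.prime_two⟩
  obtain ⟨P, hP⟩ := hSyl
  have hle : D.posUnipotent F ≤ D.group F := posUnipotent_le_group hS
  apply goodSyl_of_invol ((D.posUnipotent F).subgroupOf (D.group F))
  · rw [← hP]
    exact P.isPGroup'
  · rw [← hP]
    exact P.not_dvd_index
  · have key : ∀ g ∈ Subgroup.closure {g : GL D.Idx F | ∃ (r : ℕ) (t : F), D.IsPosRoot r ∧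
          (g : Matrix D.Idx D.Idx F) = D.x F r t}, ∀ hg : g ∈ D.group F,
        (⟨g, hg⟩ : ↥(D.group F)) ∈ Subgroup.closure {t : ↥(D.group F) |
          t ∈ (D.posUnipotent F).subgroupOf (D.group F) ∧ t ^ 2 = 1} := by
      intro g hg
      induction hg using Subgroup.closure_induction with
      | mem x hx =>
        intro hxG
        obtain ⟨r, t, hr, hxv⟩ := hx
        have hx2 : x ^ 2 = 1 := by
          rw [eq_xU hS x r t hxv, pow_two, xU_mul, CharTwo.add_self_eq_zero, xU_zero]
        apply Subgroup.subset_closure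
        refine ⟨?_, ?_⟩
        · rw [Subgroup.mem_subgroupOf]
          exact Subgroup.subset_closure ⟨r, t, hr, hxv⟩
        · apply Subtype.ext
          rw [Subgroup.coe_pow, Subgroup.coe_one]
          exact hx2
      | one =>
        intro _
        exact Subgroup.one_mem _
      | mul x y hx hy ihx ihy =>
        intro hxy
        have hxG : x ∈ D.group F := hle hx
        have hyG : y ∈ D.group F := hle hy
        exact Subgroup.mul_mem _ (ihx hxG) (ihy hyG)
      | inv x hx ihx =>
        intro hxi
        have hxG : x ∈ D.group F := hle hx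
        exact Subgroup.inv_mem _ (ihx hxG)
    intro u hu
    exact key u.1 (Subgroup.mem_subgroupOf.mp hu) u.2

end Cfsg.Agent.H24.Sq
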