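import Mathlib
import Cfsg.Agent.H56.SqDefs
import Cfsg.Agent.H23.SylowU
import Cfsg.Agent.H24.SqChevCore

set_option autoImplicit false

/-!
# S4625-G2, -F4, -E6, -E7, -E8 (team project of helper56): the Sylow 2-subgroup `U` of a
Chevalley group in characteristic 2 is generated by involutions
-/

namespace Cfsg.Agent.H24.Sq

open Cfsg

theorem goodSyl_chev {F : Type} [Field F] [Fintype F] [CharP F 2] (D : Cfsg.Lie.ChevalleyDatum)
    (hD : D ∈ [Cfsg.Lie.chevG2, Cfsg.Lie.chevB2, Cfsg.Lie.chevD4, Cfsg.Lie.chevF4,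
      Cfsg.Lie.chevE6, Cfsg.Lie.chevE7, Cfsg.Lie.chevE8]) :
    Cfsg.Agent.H56.Sq.GoodSyl (D.group F) := by
  have : Fact (Nat.Prime 2) := ⟨Nat.prime_two⟩
  obtain ⟨z, η, w, rT, par, dep, hPk⟩ := Cfsg.Agent.H23.packF_all (F := F) D hD
  exact goodSyl_of_sem D hPk.packB.sem (Cfsg.Agent.H23.exists_sylow_posUnipotent 2 D hD)

theorem chevG2_good : Cfsg.Agent.H56.Sq.G2Stmt :=
  fun F _ _ _ _ _ => goodSyl_chev Cfsg.Lie.chevG2 (by simp)

theorem chevF4_good : Cfsg.Agent.H56.Sq.F4Stmt :=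
  fun F _ _ _ _ => goodSyl_chev Cfsg.Lie.chevF4 (by simp)

theorem chevE6_good : Cfsg.Agent.H56.Sq.E6Stmt :=
  fun F _ _ _ _ => goodSyl_chev Cfsg.Lie.chevE6 (by simp)

theorem chevE7_good : Cfsg.Agent.H56.Sq.E7Stmt :=
  fun F _ _ _ _ => goodSyl_chev Cfsg.Lie.chevE7 (by simp)

theorem chevE8_good : Cfsg.Agent.H56.Sq.E8Stmt :=
  fun F _ _ _ _ => goodSyl_chev Cfsg.Lie.chevE8 (by simp)

example : Cfsg.Agent.H56.Sq.G2Stmt := chevG2_good
example : Cfsg.Agent.H56.Sq.F4Stmt := chevF4_good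
example : Cfsg.Agent.H56.Sq.E6Stmt := chevE6_good
example : Cfsg.Agent.H56.Sq.E7Stmt := chevE7_good
example : Cfsg.Agent.H56.Sq.E8Stmt := chevE8_good

end Cfsg.Agent.H24.Sq
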