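import Mathlib
import Cfsg.Agent.H88.StNDefs

set_option autoImplicit false

/-!
# S2549-UNI: the unitriangular isometries of the minus form are closed under products and
inverses, and have `p`-power order
-/

namespace Cfsg.Agent.H24.StN

open Matrix Cfsg.Agent.H88.StN

variable {F : Type*} [Field F]

theorem pZ_zero_lt_one (m : ℕ) : pZ m 0 < pZ m 1 := by
  rw [Fin.lt_def]
  simp [pZ]

theorem isUniM_one (m : ℕ) (a b : F) : IsUniM (1 : OGm m F a b) := by
  refine ⟨?_, ?_⟩
  · rw [mat_one]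
    exact Cfsg.Agent.H50.AutPSL.isUT_one
  · rw [mat_one]
    exact Matrix.one_apply_ne (ne_of_lt (pZ_zero_lt_one m))

theorem isUniM_mul (m : ℕ) (a b : F) (g h : OGm m F a b) (hg : IsUniM g) (hh : IsUniM h) :
    IsUniM (g * h) := by
  refine ⟨?_, ?_⟩
  · rw [mat_mul]
    exact hg.1.mul hh.1
  · rw [mat_mul, Matrix.mul_apply]
    apply Finset.sum_eq_zero
    intro k _
    rcases lt_trichotomy k (pZ m 0) with hk | hk | hk
    · rw [hg.1.1 _ _ hk, zero_mul]
    · rw [hk, hh.2, mul_zero]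
    · have hk' : pZ m 1 ≤ k := by
        rw [Fin.lt_def] at hk
        rw [Fin.le_def]
        simp only [pZ] at hk ⊢
        simp only [Fin.val_zero, Fin.val_one, add_zero] at hk ⊢
        omega
      rcases eq_or_lt_of_le hk' with hk1 | hk1
      · rw [← hk1, hg.2, zero_mul]
      · rw [hh.1.1 _ _ hk1, mul_zero]

theorem isUniM_pow (m : ℕ) (a b : F) (g : OGm m F a b) (hg : IsUniM g) (k : ℕ) :
    IsUniM (g ^ k) := by
  induction k with
  | zero => rw [pow_zero]; exact isUniM_one m a b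
  | succ k ih => rw [pow_succ]; exact isUniM_mul m a b _ _ ih hg

theorem isUniM_inv [Fintype F] (m : ℕ) (a b : F) (g : OGm m F a b) (hg : IsUniM g) :
    IsUniM g⁻¹ := by
  classical
  have h1 : g⁻¹ = g ^ (orderOf g - 1) := by
    apply inv_eq_of_mul_eq_one_right
    rw [← pow_succ', Nat.sub_add_cancel (orderOf_pos g), pow_orderOf_eq_one]
  rw [h1]
  exact isUniM_pow m a b g hg _

theorem mat_pow {m : ℕ} {a b : F} (g : OGm m F a b) (k : ℕ) : mat (g ^ k) = mat g ^ k := by
  induction k with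
  | zero => rw [pow_zero, pow_zero, mat_one]
  | succ k ih => rw [pow_succ, pow_succ, mat_mul, ih]

theorem ominus_uni_pow [Fintype F] (p : ℕ) [Fact p.Prime] [CharP F p] (m : ℕ) (a b : F)
    (g : OGm m F a b) (hg : IsUniM g) : ∃ k : ℕ, g ^ (p ^ k) = 1 := by
  classical
  obtain ⟨f, _, hf⟩ := FiniteField.card F p
  -- the matrix of `g` as an element of the unitriangular group
  have hs : (⟨mat g, hg.1.det⟩ : Matrix.SpecialLinearGroup (Fin (2 * m + 2)) F) ∈
      Cfsg.Agent.H50.AutPSL.Uni (2 * m + 2) F := hg.1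
  have hcard := Cfsg.Agent.H50.AutPSL.card_Uni (n := 2 * m + 2) (F := F)
  rw [hf, ← pow_mul] at hcard
  refine ⟨(f : ℕ) * ∑ j : Fin (2 * m + 2), (j : ℕ), ?_⟩
  have h1 := pow_card_eq_one' (G := Cfsg.Agent.H50.AutPSL.Uni (2 * m + 2) F)
    (x := ⟨⟨mat g, hg.1.det⟩, hs⟩)
  rw [hcard] at h1
  have h2 := congrArg (fun s : Cfsg.Agent.H50.AutPSL.Uni (2 * m + 2) F =>
    ((s : Matrix.SpecialLinearGroup (Fin (2 * m + 2)) F) :
      Matrix (Fin (2 * m + 2)) (Fin (2 * m + 2)) F)) h1
  simp only [Subgroup.coe_pow, Subgroup.coe_one, Matrix.SpecialLinearGroup.coe_one] at h2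
  apply mat_injective
  rw [mat_pow, mat_one]
  exact h2

end Cfsg.Agent.H24.StN
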