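import Mathlib
import Cfsg.Agent.H88.StNDefs
import Cfsg.Agent.H24.StNUni

set_option autoImplicit false

/-!
# S2549-BLK: block diagonal isometries of the minus form normalize the unitriangular ones
-/

namespace Cfsg.Agent.H24.StN

open Matrix Cfsg.Agent.H88.StN

variable {F : Type*} [Field F]

theorem pZ0_val (m : ℕ) : (pZ m 0).val = m := by simp [pZ]

theorem pZ1_val (m : ℕ) : (pZ m 1).val = m + 1 := by simp [pZ]

theorem out_or_mid (m : ℕ) (c : Fin (2 * m + 2)) :
    (c.val < m ∨ m + 1 < c.val) ∨ (c = pZ m 0 ∨ c = pZ m 1) := by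
  rcases lt_trichotomy c.val m with h | h | h
  · exact Or.inl (Or.inl h)
  · exact Or.inr (Or.inl (Fin.ext (by rw [pZ0_val]; exact h)))
  · rcases Nat.lt_or_ge (m + 1) c.val with h1 | h1
    · exact Or.inl (Or.inr h1)
    · exact Or.inr (Or.inr (Fin.ext (by rw [pZ1_val]; omega)))

theorem isBlk_one (m : ℕ) (a b : F) : IsBlk (1 : OGm m F a b) := by
  intro c d hcd _
  rw [mat_one]
  exact Matrix.one_apply_ne hcd

theorem isBlk_mul (m : ℕ) (a b : F) (g h : OGm m F a b) (hg : IsBlk g) (hh : IsBlk h) :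
    IsBlk (g * h) := by
  intro c d hcd hout
  rw [mat_mul, Matrix.mul_apply]
  apply Finset.sum_eq_zero
  intro k _
  by_cases hkc : k = c
  · subst hkc
    rw [hh k d hcd hout, mul_zero]
  · by_cases hkd : k = d
    · subst hkd
      rw [hg c k hcd hout, zero_mul]
    · rcases hout with h1 | h1 | h1 | h1
      · rw [hg c k (Ne.symm hkc) (Or.inl h1), zero_mul]
      · rw [hg c k (Ne.symm hkc) (Or.inr (Or.inl h1)), zero_mul]
      · rw [hh k d hkd (Or.inr (Or.inr (Or.inl h1))), mul_zero]
      · rw [hh k d hkd (Or.inr (Or.inr (Or.inr h1))), mul_zero]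

theorem isBlk_pow (m : ℕ) (a b : F) (g : OGm m F a b) (hg : IsBlk g) (k : ℕ) :
    IsBlk (g ^ k) := by
  induction k with
  | zero => rw [pow_zero]; exact isBlk_one m a b
  | succ k ih => rw [pow_succ]; exact isBlk_mul m a b _ _ ih hg

theorem blk_inv [Fintype F] (m : ℕ) (a b : F) (t : OGm m F a b) (ht : IsBlk t) : IsBlk t⁻¹ := by
  classical
  have h1 : t⁻¹ = t ^ (orderOf t - 1) := by
    apply inv_eq_of_mul_eq_one_right
    rw [← pow_succ', Nat.sub_add_cancel (orderOf_pos t), pow_orderOf_eq_one]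
  rw [h1]
  exact isBlk_pow m a b t ht _

/-- Entries of `A * (U * A')` for block diagonal `A`, `A'` with `A * A' = 1` and unitriangular
`U` which is trivial on the middle block. -/
theorem blk_conj_entries {m : ℕ}
    (A U A' : Matrix (Fin (2 * m + 2)) (Fin (2 * m + 2)) F)
    (hA : ∀ c d : Fin (2 * m + 2), c ≠ d →
      (c.val < m ∨ m + 1 < c.val ∨ d.val < m ∨ m + 1 < d.val) → A c d = 0)
    (hA' : ∀ c d : Fin (2 * m + 2), c ≠ d →
      (c.val < m ∨ m + 1 < c.val ∨ d.val < m ∨ m + 1 < d.val) → A' c d = 0)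
    (hAA' : A * A' = 1) (hU : Cfsg.Agent.H50.AutPSL.IsUT U) (hU01 : U (pZ m 0) (pZ m 1) = 0) :
    (∀ c d, d < c → (A * (U * A')) c d = 0) ∧ (∀ c, (A * (U * A')) c c = 1) ∧
      (A * (U * A')) (pZ m 0) (pZ m 1) = 0 := by
  have hz01 : pZ m 0 ≠ pZ m 1 := ne_of_lt (pZ_zero_lt_one m)
  have hU10 : U (pZ m 1) (pZ m 0) = 0 := hU.1 _ _ (pZ_zero_lt_one m)
  have hU00 : U (pZ m 0) (pZ m 0) = 1 := hU.2 _
  have hU11 : U (pZ m 1) (pZ m 1) = 1 := hU.2 _
  have outc : ∀ c : Fin (2 * m + 2), (c.val < m ∨ m + 1 < c.val) →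
      ∀ d : Fin (2 * m + 2), (c.val < m ∨ m + 1 < c.val ∨ d.val < m ∨ m + 1 < d.val) := by
    intro c hc d
    rcases hc with h | h
    · exact Or.inl h
    · exact Or.inr (Or.inl h)
  have outd : ∀ d : Fin (2 * m + 2), (d.val < m ∨ m + 1 < d.val) →
      ∀ c : Fin (2 * m + 2), (c.val < m ∨ m + 1 < c.val ∨ d.val < m ∨ m + 1 < d.val) := by
    intro d hd c
    exact Or.inr (Or.inr hd)
  have outz : ∀ c : Fin (2 * m + 2), c ≠ pZ m 0 → c ≠ pZ m 1 → (c.val < m ∨ m + 1 < c.val) := by
    intro c h0 h1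
    rcases out_or_mid m c with h | h | h
    · exact h
    · exact absurd h h0
    · exact absurd h h1
  -- the entries of `V = U * A'`
  have V1 : ∀ k d, (d.val < m ∨ m + 1 < d.val) → (U * A') k d = U k d * A' d d := by
    intro k d hd
    rw [Matrix.mul_apply]
    apply Finset.sum_eq_single d
    · intro l _ hl
      rw [hA' l d hl (outd d hd l), mul_zero]
    · intro h
      exact absurd (Finset.mem_univ d) h
  have V2 : ∀ k d, (d = pZ m 0 ∨ d = pZ m 1) →
      (U * A') k d = U k (pZ m 0) * A' (pZ m 0) d + U k (pZ m 1) * A' (pZ m 1) d := by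
    intro k d hd
    rw [Matrix.mul_apply]
    apply Finset.sum_eq_add (pZ m 0) (pZ m 1) hz01
    · intro l _ hl
      have hld : l ≠ d := by
        rcases hd with rfl | rfl
        · exact hl.1
        · exact hl.2
      rw [hA' l d hld (outc l (outz l hl.1 hl.2) d), mul_zero]
    · intro h
      exact absurd (Finset.mem_univ _) h
    · intro h
      exact absurd (Finset.mem_univ _) h
  -- the entries of `A * V`
  have W1 : ∀ c d, (c.val < m ∨ m + 1 < c.val) → (A * (U * A')) c d = A c c * (U * A') c d := by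
    intro c d hc
    rw [Matrix.mul_apply]
    apply Finset.sum_eq_single c
    · intro k _ hk
      rw [hA c k (Ne.symm hk) (outc c hc k), zero_mul]
    · intro h
      exact absurd (Finset.mem_univ c) h
  have W2 : ∀ c d, (c = pZ m 0 ∨ c = pZ m 1) → (A * (U * A')) c d =
      A c (pZ m 0) * (U * A') (pZ m 0) d + A c (pZ m 1) * (U * A') (pZ m 1) d := by
    intro c d hc
    rw [Matrix.mul_apply]
    apply Finset.sum_eq_add (pZ m 0) (pZ m 1) hz01
    · intro k _ hk
      have hck : c ≠ k := by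
        rcases hc with rfl | rfl
        · exact hk.1.symm
        · exact hk.2.symm
      rw [hA c k hck (outd k (outz k hk.1 hk.2) c), zero_mul]
    · intro h
      exact absurd (Finset.mem_univ _) h
    · intro h
      exact absurd (Finset.mem_univ _) h
  -- consequences of `A * A' = 1`
  have I1 : ∀ c, (c.val < m ∨ m + 1 < c.val) → A c c * A' c c = 1 := by
    intro c hc
    have h1 : (A * A') c c = A c c * A' c c := by
      rw [Matrix.mul_apply]
      apply Finset.sum_eq_single c
      · intro k _ hk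
        rw [hA c k (Ne.symm hk) (outc c hc k), zero_mul]
      · intro h
        exact absurd (Finset.mem_univ c) h
    rw [← h1, hAA', Matrix.one_apply_eq]
  have I2 : ∀ c d, (c = pZ m 0 ∨ c = pZ m 1) →
      A c (pZ m 0) * A' (pZ m 0) d + A c (pZ m 1) * A' (pZ m 1) d
        = (1 : Matrix (Fin (2 * m + 2)) (Fin (2 * m + 2)) F) c d := by
    intro c d hc
    rw [← hAA', Matrix.mul_apply]
    symm
    apply Finset.sum_eq_add (pZ m 0) (pZ m 1) hz01
    · intro k _ hk
      have hck : c ≠ k := by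
        rcases hc with rfl | rfl
        · exact hk.1.symm
        · exact hk.2.symm
      rw [hA c k hck (outd k (outz k hk.1 hk.2) c), zero_mul]
    · intro h
      exact absurd (Finset.mem_univ _) h
    · intro h
      exact absurd (Finset.mem_univ _) h
  -- both indices in the middle block
  have MM : ∀ c d, (c = pZ m 0 ∨ c = pZ m 1) → (d = pZ m 0 ∨ d = pZ m 1) →
      (A * (U * A')) c d = (1 : Matrix (Fin (2 * m + 2)) (Fin (2 * m + 2)) F) c d := by
    intro c d hc hd
    rw [W2 c d hc, V2 _ d hd, V2 _ d hd, hU00, hU01, hU10, hU11, ← I2 c d hc]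
    ring
  refine ⟨?_, ?_, ?_⟩
  · intro c d hdc
    rcases out_or_mid m c with hc | hc <;> rcases out_or_mid m d with hd | hd
    · rw [W1 c d hc, V1 c d hd, hU.1 c d hdc, zero_mul, mul_zero]
    · have hcbig : m + 1 < c.val := by
        rcases hc with h | h
        · exfalso
          rw [Fin.lt_def] at hdc
          rcases hd with rfl | rfl
          · rw [pZ0_val] at hdc; omega
          · rw [pZ1_val] at hdc; omega
        · exact h
      have h0 : U c (pZ m 0) = 0 := hU.1 _ _ (by rw [Fin.lt_def, pZ0_val]; omega)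
      have h1 : U c (pZ m 1) = 0 := hU.1 _ _ (by rw [Fin.lt_def, pZ1_val]; omega)
      rw [W1 c d hc, V2 c d hd, h0, h1]
      ring
    · have hdsmall : d.val < m := by
        rcases hd with h | h
        · exact h
        · exfalso
          rw [Fin.lt_def] at hdc
          rcases hc with rfl | rfl
          · rw [pZ0_val] at hdc; omega
          · rw [pZ1_val] at hdc; omega
      have h0 : U (pZ m 0) d = 0 := hU.1 _ _ (by rw [Fin.lt_def, pZ0_val]; omega)
      have h1 : U (pZ m 1) d = 0 := hU.1 _ _ (by rw [Fin.lt_def, pZ1_val]; omega)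
      rw [W2 c d hc, V1 _ d hd, V1 _ d hd, h0, h1]
      ring
    · rw [MM c d hc hd]
      exact Matrix.one_apply_ne (ne_of_gt hdc)
  · intro c
    rcases out_or_mid m c with hc | hc
    · rw [W1 c c hc, V1 c c hc, hU.2 c, one_mul, I1 c hc]
    · rw [MM c c hc hc, Matrix.one_apply_eq]
  · rw [MM _ _ (Or.inl rfl) (Or.inr rfl)]
    exact Matrix.one_apply_ne hz01

theorem blk_conj_uni [Fintype F] (m : ℕ) (a b : F) (t u : OGm m F a b) (ht : IsBlk t)
    (hu : IsUniM u) : IsUniM (t * u * t⁻¹) := by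
  have ht' := blk_inv m a b t ht
  obtain ⟨h1, h2, h3⟩ := blk_conj_entries (mat t) (mat u) (mat t⁻¹) ht ht' (mat_mul_inv t)
    hu.1 hu.2
  have e : mat (t * u * t⁻¹) = mat t * (mat u * mat t⁻¹) := by
    rw [mat_mul, mat_mul, Matrix.mul_assoc]
  refine ⟨⟨?_, ?_⟩, ?_⟩
  · intro c d hdc
    rw [e]
    exact h1 c d hdc
  · intro c
    rw [e]
    exact h2 c
  · rw [e]
    exact h3

end Cfsg.Agent.H24.StN
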