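import Cfsg.Agent.H24.TgQ0b

/-!
# S1904 piece TG-Q0A: an element of `Q₀` whose square is a square of `B` lies in `B`
-/

set_option autoImplicit false

universe u

namespace Cfsg.Agent.H24.Tg

open Cfsg Cfsg.Agent.H17.Tg

/-- `Ω_n(B) = {b ∈ B : b ^ n = 1}` for an abelian subgroup `B`, as a subgroup -/
def omegaSub {X : Type u} [Group X] (B : Subgroup X) (hab : ∀ a ∈ B, ∀ b ∈ B, a * b = b * a)
    (n : ℕ) : Subgroup X where
  carrier := {b | b ∈ B ∧ b ^ n = 1}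
  mul_mem' := by
    rintro a b ⟨ha, ha2⟩ ⟨hb, hb2⟩
    refine ⟨mul_mem ha hb, ?_⟩
    have hc : Commute a b := hab a ha b hb
    rw [hc.mul_pow, ha2, hb2, one_mul]
  one_mem' := ⟨one_mem _, one_pow _⟩
  inv_mem' := by
    rintro a ⟨ha, ha2⟩
    exact ⟨inv_mem ha, by rw [inv_pow, ha2, inv_one]⟩

theorem mem_omegaSub {X : Type u} [Group X] (B : Subgroup X)
    (hab : ∀ a ∈ B, ∀ b ∈ B, a * b = b * a) (n : ℕ) (b : X) :
    b ∈ omegaSub B hab n ↔ b ∈ B ∧ b ^ n = 1 := Iff.rfl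

/-- `W ∪ τ W` for an involution `τ` centralizing the subgroup `W` -/
def ext2 {X : Type u} [Group X] (W : Subgroup X) (τ : X) (h2 : τ * τ = 1)
    (hc : ∀ w ∈ W, τ * w = w * τ) : Subgroup X where
  carrier := {y | y ∈ W ∨ τ * y ∈ W}
  mul_mem' := by
    rintro a b (ha | ha) (hb | hb)
    · exact Or.inl (mul_mem ha hb)
    · right
      have h : τ * (a * b) = a * (τ * b) := by rw [← mul_assoc, hc a ha, mul_assoc]
      rw [h]
      exact mul_mem ha hb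
    · right
      rw [← mul_assoc]
      exact mul_mem ha hb
    · left
      have h : a * b = (τ * a) * (τ * b) := by
        rw [← mul_assoc (τ * a) τ b, ← hc (τ * a) ha, ← mul_assoc τ τ a, h2, one_mul]
      rw [h]
      exact mul_mem ha hb
  one_mem' := Or.inl (one_mem _)
  inv_mem' := by
    rintro a (ha | ha)
    · exact Or.inl (inv_mem ha)
    · right
      have hτ : τ⁻¹ = τ := inv_eq_of_mul_eq_one_left h2
      have h1 := hc (τ * a) ha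
      rw [← mul_assoc, h2, one_mul] at h1
      have hcomm : τ * a = a * τ := by
        calc τ * a = τ * a * (τ * τ) := by rw [h2, mul_one]
          _ = (τ * a * τ) * τ := by rw [mul_assoc (τ * a) τ τ]
          _ = a * τ := by rw [← h1]
      have h : τ * a⁻¹ = (τ * a)⁻¹ := by
        rw [hcomm, mul_inv_rev, hτ]
      rw [h]
      exact inv_mem ha

theorem mem_ext2 {X : Type u} [Group X] (W : Subgroup X) (τ : X) (h2 : τ * τ = 1)
    (hc : ∀ w ∈ W, τ * w = w * τ) (y : X) :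
    y ∈ ext2 W τ h2 hc ↔ y ∈ W ∨ τ * y ∈ W := Iff.rfl

/-- the core of TG-Q0A: an involution of `Q₀` outside `B` contradicts the rank hypothesis -/
theorem no_invol {X : Type u} [Group X] [Finite X] (A : Subgroup (MulAut X)) (hH : Hyp X A)
    (B : Subgroup X) (hn : B.Normal) (hab : ∀ a ∈ B, ∀ b ∈ B, a * b = b * a)
    (hsq2 : ∀ c ∈ B, c ^ 4 = 1 → ∃ b ∈ B, b ^ 2 = c)
    (hVcard : Nat.card {v : X // v ∈ B ∧ v ^ 2 = 1} = 4)
    (τ : X) (hτ : InQ0 B τ) (hτB : τ ∉ B) (h2 : τ * τ = 1) : False := by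
  have hτi : τ⁻¹ = τ := inv_eq_of_mul_eq_one_left h2
  have hτΩ : ∀ w ∈ omegaSub B hab 4, τ * w = w * τ := by
    rintro w ⟨hw, hw4⟩
    obtain ⟨s, hs, rfl⟩ := hsq2 w hw hw4
    exact hτ.1 s hs
  have hVΩ : omegaSub B hab 2 ≤ omegaSub B hab 4 := by
    rintro w ⟨hw, hw2⟩
    exact ⟨hw, by rw [show 4 = 2 * 2 from rfl, pow_mul, hw2, one_pow]⟩
  have hτV : ∀ w ∈ omegaSub B hab 2, τ * w = w * τ := fun w hw => hτΩ w (hVΩ hw)
  -- the two subgroups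
  obtain ⟨N, hN⟩ : ∃ N, N = ext2 (omegaSub B hab 4) τ h2 hτΩ := ⟨_, rfl⟩
  obtain ⟨E, hE⟩ : ∃ E, E = ext2 (omegaSub B hab 2) τ h2 hτV := ⟨_, rfl⟩
  have hmemN : ∀ y, y ∈ N ↔ y ∈ omegaSub B hab 4 ∨ τ * y ∈ omegaSub B hab 4 := by
    intro y; rw [hN]; exact Iff.rfl
  have hmemE : ∀ y, y ∈ E ↔ y ∈ omegaSub B hab 2 ∨ τ * y ∈ omegaSub B hab 2 := by
    intro y; rw [hE]; exact Iff.rfl
  have hEN : E ≤ N := by
    intro y hy
    rw [hmemE] at hy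
    rw [hmemN]
    rcases hy with hy | hy
    · exact Or.inl (hVΩ hy)
    · exact Or.inr (hVΩ hy)
  -- every element of `N` commutes with `τ` and with `Ω`
  have hNc : ∀ y ∈ N, τ * y = y * τ ∧ ∀ w ∈ omegaSub B hab 4, y * w = w * y := by
    intro y hy
    rw [hmemN] at hy
    rcases hy with hy | hy
    · exact ⟨hτΩ y hy, fun w hw => hab y hy.1 w hw.1⟩
    · have hy' : y = τ * (τ * y) := by rw [← mul_assoc, h2, one_mul]
      have h1 := hτΩ (τ * y) hy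
      constructor
      · calc τ * y = τ * y * (τ * τ) := by rw [h2, mul_one]
          _ = (τ * y * τ) * τ := by rw [mul_assoc (τ * y) τ τ]
          _ = (τ * (τ * y)) * τ := by rw [h1]
          _ = y * τ := by rw [← hy']
      · intro w hw
        have h3 : (τ * y) * w = w * (τ * y) := hab _ hy.1 w hw.1
        calc y * w = τ * ((τ * y) * w) := by rw [← mul_assoc τ, ← hy']
          _ = τ * (w * (τ * y)) := by rw [h3]
          _ = (τ * w) * (τ * y) := by group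
          _ = (w * τ) * (τ * y) := by rw [hτΩ w hw]
          _ = w * (τ * (τ * y)) := by group
          _ = w * y := by rw [← hy']
  have hNab : ∀ a ∈ N, ∀ b ∈ N, a * b = b * a := by
    intro a ha b hb
    obtain ⟨ha1, ha2⟩ := hNc a ha
    have hb0 := hb
    rw [hmemN] at hb0
    rcases hb0 with hb0 | hb0
    · exact ha2 b hb0
    · have hb' : b = τ * (τ * b) := by rw [← mul_assoc, h2, one_mul]
      calc a * b = a * (τ * (τ * b)) := by rw [← hb']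
        _ = (a * τ) * (τ * b) := by group
        _ = (τ * a) * (τ * b) := by rw [ha1]
        _ = τ * (a * (τ * b)) := by group
        _ = τ * ((τ * b) * a) := by rw [ha2 _ hb0]
        _ = (τ * (τ * b)) * a := by group
        _ = b * a := by rw [← hb']
  -- conjugates
  have hΩconj : ∀ w ∈ omegaSub B hab 4, ∀ x : X, x * w * x⁻¹ ∈ omegaSub B hab 4 := by
    rintro w ⟨hw, hw4⟩ x
    exact ⟨hn.conj_mem w hw x, by rw [conj_pow, hw4, mul_one, mul_inv_cancel]⟩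
  have hτconj : ∀ x : X, x * τ * x⁻¹ ∈ N := by
    intro x
    rw [hmemN]
    right
    have hcB : τ * x * τ⁻¹ * x⁻¹ ∈ B := hτ.2.2 x
    obtain ⟨-, hu2⟩ := comm_sq hn hab hτ.1 hcB
    have h3 : τ * (τ * x * τ⁻¹ * x⁻¹) * τ⁻¹ * (τ * x * τ⁻¹ * x⁻¹)⁻¹
        = ((τ * x * τ⁻¹ * x⁻¹) ^ 2)⁻¹ := by
      have h4 : τ * (τ * x * τ⁻¹ * x⁻¹) * τ⁻¹ = (τ * x * τ⁻¹ * x⁻¹)⁻¹ := by
        rw [hτi]
        have : τ * (τ * x * τ * x⁻¹) * τ = (τ * τ) * x * τ * x⁻¹ * τ := by group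
        rw [this, h2, one_mul]
        have : (τ * x * τ * x⁻¹)⁻¹ = x * τ⁻¹ * x⁻¹ * τ⁻¹ := by group
        rw [this, hτi]
      rw [h4, ← mul_inv_rev, ← pow_two]
    rw [h3, inv_pow, ← pow_mul] at hu2
    have hc4 : (τ * x * τ⁻¹ * x⁻¹) ^ 4 = 1 := by
      have : ((τ * x * τ⁻¹ * x⁻¹) ^ (2 * 2))⁻¹ = 1 := hu2
      rw [inv_eq_one] at this
      exact this
    have h5 : τ * (x * τ * x⁻¹) = τ * x * τ⁻¹ * x⁻¹ := by
      rw [hτi]; group
    rw [h5]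
    exact ⟨hcB, hc4⟩
  have hNnorm : N.Normal := by
    constructor
    intro y hy x
    have hy0 := hy
    rw [hmemN] at hy0
    rcases hy0 with hy0 | hy0
    · rw [hmemN]
      exact Or.inl (hΩconj y hy0 x)
    · have hy' : y = τ * (τ * y) := by rw [← mul_assoc, h2, one_mul]
      have h6 : x * y * x⁻¹ = (x * τ * x⁻¹) * (x * (τ * y) * x⁻¹) := by
        have : (x * τ * x⁻¹) * (x * (τ * y) * x⁻¹) = x * (τ * (τ * y)) * x⁻¹ := by group
        rw [this, ← hy']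
      rw [h6]
      refine mul_mem (hτconj x) ?_
      rw [hmemN]
      exact Or.inl (hΩconj _ hy0 x)
  -- `E` has exponent 2
  have hE2 : ∀ a ∈ E, a ^ 2 = 1 := by
    intro a ha
    rw [hmemE] at ha
    rcases ha with ha | ha
    · exact ha.2
    · have ha' : a = τ * (τ * a) := by rw [← mul_assoc, h2, one_mul]
      have h7 := hτV _ ha
      have h8 : (τ * a) ^ 2 = 1 := ha.2
      calc a ^ 2 = a * a := pow_two a
        _ = (τ * (τ * a)) * (τ * (τ * a)) := by rw [← ha']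
        _ = ((τ * a) * τ) * (τ * (τ * a)) := by rw [h7]
        _ = (τ * a) * ((τ * τ) * (τ * a)) := by group
        _ = (τ * a) ^ 2 := by rw [h2, one_mul, pow_two]
        _ = 1 := h8
  have hcardE : Nat.card E ≤ 4 := hH.rank N hNnorm hNab E hEN hE2
  have hVE : omegaSub B hab 2 ≤ E := by
    intro y hy
    rw [hmemE]
    exact Or.inl hy
  have hcardV : Nat.card (omegaSub B hab 2) = 4 := by
    rw [← hVcard]
    exact Nat.card_congr (Equiv.subtypeEquivRight (fun _ => Iff.rfl))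
  have hVeq : omegaSub B hab 2 = E :=
    Subgroup.eq_of_le_of_card_ge hVE (by rw [hcardV]; exact hcardE)
  have hτE : τ ∈ E := by
    rw [hmemE]
    right
    rw [h2]
    exact one_mem _
  rw [← hVeq] at hτE
  exact hτB hτE.1

/-- TG-Q0A. -/
theorem q0a (hVB : StVB.{u}) (hSq : StSq.{u}) (hQ0 : StQ0grp.{u}) : StQ0a.{u} := by
  intro X _ _ A hH B hB hBZ hex q hq hqsq
  obtain ⟨⟨hn, hAinv, hab⟩, _⟩ := hB
  have hNAI : NAI A B := ⟨hn, hAinv, hab⟩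
  obtain ⟨b₀, hb₀, hb₀4⟩ := hex
  obtain ⟨-, hVcard, -, -, -, -⟩ := hVB X A hH B hNAI hBZ
  obtain ⟨hQB, hQmul, -, -⟩ := hQ0 X A B hNAI
  have h22 : (2 : ℕ) ^ 2 = 4 := by norm_num
  have hb₀2 : b₀ ^ 2 ≠ 1 := fun h =>
    hb₀4 (by rw [show 4 = 2 * 2 from rfl, pow_mul, h, one_pow])
  have hsq1 : ∀ c ∈ B, c ^ 2 = 1 → ∃ b ∈ B, b ^ 2 = c := fun c hc hc2 =>
    hSq X A hH B hNAI hBZ 1 b₀ hb₀ (by rw [pow_one]; exact hb₀2) c hc (by rw [pow_one]; exact hc2)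
  have hsq2 : ∀ c ∈ B, c ^ 4 = 1 → ∃ b ∈ B, b ^ 2 = c := fun c hc hc4 =>
    hSq X A hH B hNAI hBZ 2 b₀ hb₀ (by rw [h22]; exact hb₀4) c hc (by rw [h22]; exact hc4)
  by_contra hqB
  obtain ⟨b₁, hb₁, hqb⟩ := hqsq
  -- t := q * b₁⁻¹
  have ht : InQ0 B (q * b₁⁻¹) := hQmul q b₁⁻¹ hq (hQB _ (inv_mem hb₁))
  have htB : q * b₁⁻¹ ∉ B := fun h => hqB (by simpa using mul_mem h hb₁)
  obtain ⟨huB, hu2⟩ := comm_sq hn hab hq.1 (inv_mem hb₁)
  have ht2 : (q * b₁⁻¹) ^ 2 = q * b₁⁻¹ * q⁻¹ * b₁⁻¹⁻¹ := by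
    have h1 : (q * b₁⁻¹) ^ 2 = q * b₁⁻¹ * q⁻¹ * q ^ 2 * b₁⁻¹ := by
      simp only [pow_two]; group
    rw [h1, hqb]
    simp only [pow_two]; group
  -- d with d^2 = t^2
  obtain ⟨d, hd, hd2⟩ := hsq1 _ huB hu2
  have hd4 : d ^ 4 = 1 := by
    rw [show 4 = 2 * 2 from rfl, pow_mul, hd2, hu2]
  obtain ⟨s, hs, hsd⟩ := hsq2 d hd hd4
  have htd : (q * b₁⁻¹) * d = d * (q * b₁⁻¹) := by
    rw [← hsd]
    exact ht.1 s hs
  have htdi : (q * b₁⁻¹) * d⁻¹ = d⁻¹ * (q * b₁⁻¹) := by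
    have : d⁻¹ * ((q * b₁⁻¹) * d) * d⁻¹ = d⁻¹ * (d * (q * b₁⁻¹)) * d⁻¹ := by rw [htd]
    simpa [mul_assoc] using this.symm
  -- τ := t * d⁻¹
  have hτ : InQ0 B (q * b₁⁻¹ * d⁻¹) := hQmul _ d⁻¹ ht (hQB _ (inv_mem hd))
  have hτB : q * b₁⁻¹ * d⁻¹ ∉ B := fun h => htB (by simpa using mul_mem h hd)
  have hτ2 : (q * b₁⁻¹ * d⁻¹) * (q * b₁⁻¹ * d⁻¹) = 1 := by
    calc (q * b₁⁻¹ * d⁻¹) * (q * b₁⁻¹ * d⁻¹)
        = (q * b₁⁻¹) * (d⁻¹ * (q * b₁⁻¹)) * d⁻¹ := by group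
      _ = (q * b₁⁻¹) * ((q * b₁⁻¹) * d⁻¹) * d⁻¹ := by rw [htdi]
      _ = (q * b₁⁻¹) ^ 2 * (d ^ 2)⁻¹ := by simp only [pow_two]; group
      _ = 1 := by rw [ht2, hd2, mul_inv_cancel]
  exact no_invol A hH B hn hab hsq2 hVcard _ hτ hτB hτ2

end Cfsg.Agent.H24.Tg

example : Cfsg.Agent.H17.Tg.StVB.{u} → Cfsg.Agent.H17.Tg.StSq.{u} →
    Cfsg.Agent.H17.Tg.StQ0grp.{u} → Cfsg.Agent.H17.Tg.StQ0a.{u} := Cfsg.Agent.H24.Tg.q0a
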