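import Cfsg.Agent.H17.TgDefs

/-!
# S1904 piece TG-Q0B: squaring is multiplicative on `Q₀` modulo squares of `B`
-/

set_option autoImplicit false

universe u

namespace Cfsg.Agent.H24.Tg

open Cfsg Cfsg.Agent.H17.Tg

/-- for `q` centralizing the squares of the normal abelian subgroup `B` and `b ∈ B`, the
commutator `q b q⁻¹ b⁻¹` lies in `B` and squares to 1 -/
theorem comm_sq {X : Type u} [Group X] {B : Subgroup X} (hn : B.Normal)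
    (hab : ∀ a ∈ B, ∀ b ∈ B, a * b = b * a) {q b : X}
    (hq : ∀ b ∈ B, q * b ^ 2 = b ^ 2 * q) (hb : b ∈ B) :
    q * b * q⁻¹ * b⁻¹ ∈ B ∧ (q * b * q⁻¹ * b⁻¹) ^ 2 = 1 := by
  have h1 : q * b * q⁻¹ ∈ B := hn.conj_mem b hb q
  have h2 : q * b * q⁻¹ * b⁻¹ ∈ B := mul_mem h1 (inv_mem hb)
  refine ⟨h2, ?_⟩
  have hc : Commute (q * b * q⁻¹) b⁻¹ := hab _ h1 _ (inv_mem hb)
  rw [hc.mul_pow]
  have h3 : (q * b * q⁻¹) ^ 2 = b ^ 2 := by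
    rw [conj_pow, hq b hb]
    group
  rw [h3, inv_pow, mul_inv_cancel]

/-- the commutator of two elements of `Q₀` has fourth power 1 -/
theorem comm_pow_four {X : Type u} [Group X] {B : Subgroup X} (hn : B.Normal)
    (hab : ∀ a ∈ B, ∀ b ∈ B, a * b = b * a) {q q' : X} (hq : InQ0 B q) (hq' : InQ0 B q') :
    q' * q * q'⁻¹ * q⁻¹ ∈ B ∧ (q' * q * q'⁻¹ * q⁻¹) ^ 4 = 1 := by
  have hcB : q' * q * q'⁻¹ * q⁻¹ ∈ B := hq'.2.2 q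
  refine ⟨hcB, ?_⟩
  obtain ⟨hu1B, hu1⟩ := comm_sq hn hab hq.1 hq'.2.1
  obtain ⟨hu2B, hu2⟩ := comm_sq hn hab hq'.1 hcB
  have h3 : (q' * q * q'⁻¹ * q⁻¹) ^ 2
      = (q' * (q' * q * q'⁻¹ * q⁻¹) * q'⁻¹ * (q' * q * q'⁻¹ * q⁻¹)⁻¹)⁻¹
        * (q * q' ^ 2 * q⁻¹ * (q' ^ 2)⁻¹)⁻¹ := by
    simp only [pow_two]
    group
  have hcomm : Commute (q' * (q' * q * q'⁻¹ * q⁻¹) * q'⁻¹ * (q' * q * q'⁻¹ * q⁻¹)⁻¹)⁻¹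
      (q * q' ^ 2 * q⁻¹ * (q' ^ 2)⁻¹)⁻¹ := hab _ (inv_mem hu2B) _ (inv_mem hu1B)
  have h4 : (q' * q * q'⁻¹ * q⁻¹) ^ 4 = ((q' * q * q'⁻¹ * q⁻¹) ^ 2) ^ 2 := by
    rw [← pow_mul]
  rw [h4, h3, hcomm.mul_pow, inv_pow, inv_pow, hu1, hu2]
  simp

/-- TG-Q0B. -/
theorem q0b (hSq : StSq.{u}) : StQ0b.{u} := by
  intro X _ _ A hH B hB hBZ hex q q' hq hq'
  obtain ⟨⟨hn, hAinv, hab⟩, _⟩ := hB
  have hNAI : NAI A B := ⟨hn, hAinv, hab⟩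
  obtain ⟨b₀, hb₀, hb₀4⟩ := hex
  obtain ⟨hcB, hc4⟩ := comm_pow_four hn hab hq hq'
  have heq : q⁻¹ * q' * q * q'⁻¹ = q⁻¹ * (q' * q * q'⁻¹ * q⁻¹) * q⁻¹⁻¹ := by group
  have heB : q⁻¹ * q' * q * q'⁻¹ ∈ B := by
    rw [heq]
    exact hn.conj_mem _ hcB q⁻¹
  have he4 : (q⁻¹ * q' * q * q'⁻¹) ^ 4 = 1 := by
    rw [heq, conj_pow, hc4]
    group
  have h22 : (2 : ℕ) ^ 2 = 4 := by norm_num
  obtain ⟨b, hbB, hb2⟩ := hSq X A hH B hNAI hBZ 2 b₀ hb₀ (by rw [h22]; exact hb₀4)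
    (q⁻¹ * q' * q * q'⁻¹) heB (by rw [h22]; exact he4)
  refine ⟨b, hbB, ?_⟩
  have h5 : (q * q') ^ 2 = q ^ 2 * (q⁻¹ * q' * q * q'⁻¹) * q' ^ 2 := by
    simp only [pow_two]
    group
  rw [h5, hb2, mul_assoc, hab _ heB _ hq'.2.1, ← mul_assoc]

end Cfsg.Agent.H24.Tg

example : Cfsg.Agent.H17.Tg.StSq.{u} → Cfsg.Agent.H17.Tg.StQ0b.{u} := Cfsg.Agent.H24.Tg.q0b
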