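import Mathlib
import Cfsg.Agent.H64.TmDefs
import Cfsg.Agent.H25.TnCount

/-!
# S3701 team project "TM" (lead: helper64): piece TM-COUNT

`|S₁^G| = |G|/3`, from helper25's generic fibre count for TI-sets.
-/

set_option autoImplicit false

namespace Cfsg.Agent.H24.Tm

open Subgroup Cfsg.Agent.H64.Tm

universe u

/-- TM-COUNT. -/
theorem count (hS : StS1.{u}) (hTI : StTI.{u}) : StCount.{u} := by
  intro G _ _ H T a b c x y cfg
  obtain ⟨-, hinv, -, -, hcard⟩ := hS G H T a b c x y cfg
  have hti := hTI G H T a b c x y cfg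
  have key : Nat.card (S1G a b c x) * Nat.card H = Nat.card G * Nat.card (S1 a b c x) :=
    Cfsg.Agent.H25.Tn.fibre_count (fun r g => r * g * r⁻¹) (fun g => by simp)
      (fun r s g => by simp [mul_assoc]) H (S1 a b c x)
      (fun n hn s hs => hinv n hn s hs) (fun s hs r hr => hti s hs r hr)
  rw [cfg.cardH, hcard] at key
  omega

example (hS : Cfsg.Agent.H64.Tm.StS1.{u}) (hTI : Cfsg.Agent.H64.Tm.StTI.{u}) :
    Cfsg.Agent.H64.Tm.StCount.{u} := count hS hTI

end Cfsg.Agent.H24.Tm
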