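import Mathlib
import Cfsg.Agent.H64.TmDefs
import Cfsg.Agent.H24.TnBasic

/-!
# S3701 team project "TM" (lead: helper64): piece TM-S1

Basic facts on `S₁ = c^{±1}·⟨a,b,x⟩`.
-/

set_option autoImplicit false

namespace Cfsg.Agent.H24.Tm

open Subgroup Cfsg.Agent.H64.Tm

universe u

variable {G : Type u} [Group G] {H T : Subgroup G} {a b c x y : G}

theorem t_comm_c (cfg : Cfg G H T a b c x y) {t : G} (ht : t ∈ T) : t * c = c * t := by
  obtain ⟨i, j, k, rfl⟩ := cfg.Telts t ht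
  have h1 : Commute (a ^ i) c := (show Commute a c from cfg.ac).pow_left i
  have h2 : Commute (b ^ j) c := (show Commute b c from cfg.bc).pow_left j
  have h3 : Commute (c ^ k) c := (Commute.refl c).pow_left k
  exact ((h1.mul_left h2).mul_left h3).eq

theorem conj_c_of_mem_H (cfg : Cfg G H T a b c x y) {n : G} (hn : n ∈ H) :
    n * c * n⁻¹ = c ∨ n * c * n⁻¹ = c⁻¹ := by
  have htc : ∀ t ∈ T, t * c⁻¹ = c⁻¹ * t := by
    intro t ht
    have h : Commute t c := t_comm_c cfg ht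
    exact h.inv_right.eq
  obtain ⟨t, ht, h | h | h | h⟩ := cfg.Helts n hn
  · left
    rw [h]
    exact Cfsg.Agent.H24.Tn.conj_eq_of_comm' (t_comm_c cfg ht)
  · left
    rw [h, Cfsg.Agent.H24.Tn.conj_mul', Cfsg.Agent.H24.Tn.conj_eq_of_comm' cfg.xc]
    exact Cfsg.Agent.H24.Tn.conj_eq_of_comm' (t_comm_c cfg ht)
  · right
    rw [h, Cfsg.Agent.H24.Tn.conj_mul', cfg.yc, mul_inv_cancel_right]
    exact Cfsg.Agent.H24.Tn.conj_eq_of_comm' (htc t ht)
  · right
    have hx : x * c⁻¹ = c⁻¹ * x := by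
      have h : Commute x c := cfg.xc
      exact h.inv_right.eq
    rw [h, Cfsg.Agent.H24.Tn.conj_mul', Cfsg.Agent.H24.Tn.conj_mul', cfg.yc,
      mul_inv_cancel_right, Cfsg.Agent.H24.Tn.conj_eq_of_comm' hx]
    exact Cfsg.Agent.H24.Tn.conj_eq_of_comm' (htc t ht)

theorem sq_inv2 {A B x : G} (hxA : x * A = A⁻¹ * x) (hxB : x * B = B⁻¹ * x)
    (hAB : A * B = B * A) (hx2 : x * x = 1) : (A * B * x) * (A * B * x) = 1 := by
  have e1 : (A * B * x) * (A * B * x) = A * B * (x * A) * B * x := by group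
  rw [e1, hxA]
  have e2 : A * B * (A⁻¹ * x) * B * x = A * B * A⁻¹ * (x * B) * x := by group
  rw [e2, hxB]
  have e3 : A * B * A⁻¹ * (B⁻¹ * x) * x = A * B * A⁻¹ * B⁻¹ * (x * x) := by group
  rw [e3, hx2, hAB]
  group

theorem x_pow (cfg : Cfg G H T a b c x y) (m : ℕ) : x ^ m = 1 ∨ x ^ m = x := by
  have hx2 : x ^ 2 = 1 := by rw [pow_two]; exact cfg.x2
  rcases Nat.even_or_odd' m with ⟨k, rfl | rfl⟩
  · left
    rw [pow_mul, hx2, one_pow]
  · right
    rw [pow_succ, pow_mul, hx2, one_pow, one_mul]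

theorem xa_pow (cfg : Cfg G H T a b c x y) (i : ℕ) : x * a ^ i = (a ^ i)⁻¹ * x := by
  have h : SemiconjBy x a a⁻¹ := cfg.xa
  have h2 := h.pow_right i
  rw [inv_pow] at h2
  exact h2

theorem xb_pow (cfg : Cfg G H T a b c x y) (j : ℕ) : x * b ^ j = (b ^ j)⁻¹ * x := by
  have h : SemiconjBy x b b⁻¹ := cfg.xb
  have h2 := h.pow_right j
  rw [inv_pow] at h2
  exact h2

theorem ab_pow (cfg : Cfg G H T a b c x y) (i j : ℕ) : a ^ i * b ^ j = b ^ j * a ^ i := by
  have h : Commute a b := cfg.ab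
  exact (h.pow_pow i j).eq

/-- The square of an element of `D = ⟨a,b,x⟩` is some `a ^ p * b ^ q`. -/
theorem D_sq (cfg : Cfg G H T a b c x y) (i j m : ℕ) :
    ∃ p q : ℕ, (a ^ i * b ^ j * x ^ m) * (a ^ i * b ^ j * x ^ m) = a ^ p * b ^ q := by
  rcases x_pow cfg m with h | h
  · refine ⟨i + i, j + j, ?_⟩
    rw [h, mul_one, pow_add, pow_add]
    have hc : Commute (b ^ j) (a ^ i) := (ab_pow cfg i j).symm
    exact hc.mul_mul_mul_comm _ _
  · refine ⟨0, 0, ?_⟩
    rw [h, sq_inv2 (xa_pow cfg i) (xb_pow cfg j) (ab_pow cfg i j) cfg.x2]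
    simp

theorem ab_mem_T (cfg : Cfg G H T a b c x y) (p q : ℕ) : a ^ p * b ^ q ∈ T :=
  T.mul_mem (T.pow_mem cfg.aT p) (T.pow_mem cfg.bT q)

/-- `c ∉ ⟨a,b,x⟩`. -/
theorem c_not_mem_D (hD : StD.{u}) [Finite G] (cfg : Cfg G H T a b c x y) :
    c ∉ closure ({a, b, x} : Set G) := by
  intro hc
  obtain ⟨hDel, -, -, -⟩ := hD G H T a b c x y cfg
  obtain ⟨i, j, m, h⟩ := hDel c hc
  rcases x_pow cfg m with hm | hm
  · rw [hm, mul_one] at h
    have h1 : a ^ i * b ^ j * c ^ 2 = 1 := by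
      rw [← h, ← pow_succ']
      exact cfg.c3
    have := (cfg.indep i j 2 h1).2.2
    omega
  · rw [hm] at h
    apply cfg.xT
    have hx : x = (a ^ i * b ^ j)⁻¹ * c := by
      rw [h]; group
    rw [hx]
    exact T.mul_mem (T.inv_mem (ab_mem_T cfg i j)) cfg.cT

/-- TM-S1. -/
theorem s1 (hD : StD.{u}) : StS1.{u} := by
  intro G _ _ H T a b c x y cfg
  obtain ⟨hDel, hDc, hDn, hDcard⟩ := hD G H T a b c x y cfg
  have hcH : c ∈ H := cfg.TH cfg.cT
  have hDH : closure ({a, b, x} : Set G) ≤ H := by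
    rw [closure_le]
    intro g hg
    rcases hg with rfl | rfl | rfl
    · exact cfg.TH cfg.aT
    · exact cfg.TH cfg.bT
    · exact cfg.xH
  have hcc : c⁻¹ * c⁻¹ = c := by
    have h3 : c * (c * c) = 1 := by
      rw [← cfg.c3, pow_succ, pow_two, mul_assoc]
    rw [← mul_inv_rev]
    exact inv_eq_of_mul_eq_one_left h3
  refine ⟨?_, ?_, ?_, ?_, ?_⟩
  · rintro s ⟨w, hw, rfl | rfl⟩
    · exact H.mul_mem hcH (hDH hw)
    · exact H.mul_mem (H.inv_mem hcH) (hDH hw)
  · rintro n hn s ⟨w, hw, rfl | rfl⟩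
    · have e : n * (c * w) * n⁻¹ = (n * c * n⁻¹) * (n * w * n⁻¹) := by group
      rw [e]
      rcases conj_c_of_mem_H cfg hn with h | h
      · rw [h]; exact ⟨_, hDn n hn w hw, Or.inl rfl⟩
      · rw [h]; exact ⟨_, hDn n hn w hw, Or.inr rfl⟩
    · have e : n * (c⁻¹ * w) * n⁻¹ = (n * c * n⁻¹)⁻¹ * (n * w * n⁻¹) := by group
      rw [e]
      rcases conj_c_of_mem_H cfg hn with h | h
      · rw [h]; exact ⟨_, hDn n hn w hw, Or.inr rfl⟩
      · rw [h, inv_inv]; exact ⟨_, hDn n hn w hw, Or.inl rfl⟩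
  · rintro s ⟨w, hw, rfl | rfl⟩
    · refine ⟨w⁻¹, inv_mem hw, Or.inr ?_⟩
      have hc : Commute w c := hDc w hw
      rw [mul_inv_rev]
      exact hc.inv_inv.eq
    · refine ⟨w⁻¹, inv_mem hw, Or.inl ?_⟩
      have hc : Commute w c := hDc w hw
      rw [mul_inv_rev, inv_inv]
      exact hc.inv_left.eq
  · rintro s ⟨w, hw, rfl | rfl⟩
    · have hc : Commute w c := hDc w hw
      obtain ⟨i, j, m, rfl⟩ := hDel w hw
      obtain ⟨p, q, hpq⟩ := D_sq cfg i j m
      have e : c * (a ^ i * b ^ j * x ^ m) * (c * (a ^ i * b ^ j * x ^ m))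
          = c * c * (a ^ p * b ^ q) := by
        rw [hc.mul_mul_mul_comm, hpq]
      rw [e]
      refine ⟨T.mul_mem (T.mul_mem cfg.cT cfg.cT) (ab_mem_T cfg p q), ?_⟩
      intro h1
      have h2 : a ^ p * b ^ q * c ^ 2 = 1 := by
        rw [pow_two, ← mul_assoc, t_comm_c cfg (ab_mem_T cfg p q), mul_assoc,
          t_comm_c cfg (ab_mem_T cfg p q), ← mul_assoc]
        exact h1
      have := (cfg.indep p q 2 h2).2.2
      omega
    · have hc : Commute w c⁻¹ := (show Commute w c from hDc w hw).inv_right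
      obtain ⟨i, j, m, rfl⟩ := hDel w hw
      obtain ⟨p, q, hpq⟩ := D_sq cfg i j m
      have e : c⁻¹ * (a ^ i * b ^ j * x ^ m) * (c⁻¹ * (a ^ i * b ^ j * x ^ m))
          = c * (a ^ p * b ^ q) := by
        rw [hc.mul_mul_mul_comm, hpq, hcc]
      rw [e]
      refine ⟨T.mul_mem cfg.cT (ab_mem_T cfg p q), ?_⟩
      intro h1
      have h2 : a ^ p * b ^ q * c ^ 1 = 1 := by
        rw [pow_one, t_comm_c cfg (ab_mem_T cfg p q)]
        exact h1
      have := (cfg.indep p q 1 h2).2.2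
      omega
  · -- the cardinality
    have hcD := c_not_mem_D hD cfg
    have hset : S1 a b c x = (fun w => c * w) '' (closure ({a, b, x} : Set G) : Set G) ∪
        (fun w => c⁻¹ * w) '' (closure ({a, b, x} : Set G) : Set G) := by
      ext g
      constructor
      · rintro ⟨w, hw, rfl | rfl⟩
        · exact Or.inl ⟨w, hw, rfl⟩
        · exact Or.inr ⟨w, hw, rfl⟩
      · rintro (⟨w, hw, rfl⟩ | ⟨w, hw, rfl⟩)
        · exact ⟨w, hw, Or.inl rfl⟩
        · exact ⟨w, hw, Or.inr rfl⟩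
    have hdisj : Disjoint ((fun w => c * w) '' (closure ({a, b, x} : Set G) : Set G))
        ((fun w => c⁻¹ * w) '' (closure ({a, b, x} : Set G) : Set G)) := by
      rw [Set.disjoint_left]
      rintro g ⟨w, hw, rfl⟩ ⟨w', hw', h⟩
      apply hcD
      -- c⁻¹ * w' = c * w, so c * c = w' * w⁻¹ and c = (c * c)⁻¹
      have h1 : c⁻¹ * c⁻¹ = w * w'⁻¹ := by
        have h' : c⁻¹ * w' = c * w := h
        have : w = c⁻¹ * (c⁻¹ * w') := by rw [h']; group
        rw [this]; group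
      rw [hcc] at h1
      rw [h1]
      exact mul_mem hw (inv_mem hw')
    have hn1 : ((fun w => c * w) '' (closure ({a, b, x} : Set G) : Set G)).ncard = 18 := by
      rw [Set.ncard_image_of_injective _ (mul_right_injective c), ← hDcard]
      exact (Nat.card_coe_set_eq _).symm
    have hn2 : ((fun w => c⁻¹ * w) '' (closure ({a, b, x} : Set G) : Set G)).ncard = 18 := by
      rw [Set.ncard_image_of_injective _ (mul_right_injective c⁻¹), ← hDcard]
      exact (Nat.card_coe_set_eq _).symm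
    rw [Nat.card_coe_set_eq, hset, Set.ncard_union_eq hdisj (Set.toFinite _) (Set.toFinite _),
      hn1, hn2]

example (hD : Cfsg.Agent.H64.Tm.StD.{u}) : Cfsg.Agent.H64.Tm.StS1.{u} := s1 hD

end Cfsg.Agent.H24.Tm
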