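import Mathlib
import Cfsg.Agent.H4.TnDefs
import Cfsg.Agent.H24.TnBasic

/-!
# S3805 team project (lead: helper4): piece TN-INVA

An involution inverting `a` is conjugate to `v` or to `u * v`.
-/

set_option autoImplicit false

namespace Cfsg.Agent.H24.Tn

open Subgroup Cfsg.Agent.H4.Tn

universe u

theorem sq_tv' {G : Type u} [Group G] {A B v : G} (hvA : v * A = A⁻¹ * v)
    (hvB : v * B = B * v) (hAB : A * B = B * A) (hv2 : v * v = 1) :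
    (A * B * v) * (A * B * v) = B * B := by
  have e1 : (A * B * v) * (A * B * v) = A * B * (v * A) * (B * v) := by group
  rw [e1, hvA]
  have e2 : A * B * (A⁻¹ * v) * (B * v) = A * B * A⁻¹ * (v * B) * v := by group
  rw [e2, hvB]
  have e3 : A * B * A⁻¹ * (B * v) * v = A * B * A⁻¹ * B * (v * v) := by group
  rw [e3, hv2, hAB]
  group

theorem inv_mul_inv_of_cube' {G : Type u} [Group G] {A : G} (hA3 : A ^ 3 = 1) :
    A⁻¹ * A⁻¹ = A := by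
  have h3 : A * (A * A) = 1 := by
    rw [← hA3, pow_succ, pow_two, mul_assoc]
  rw [← mul_inv_rev]
  exact inv_eq_of_mul_eq_one_left h3

theorem conj_uv' {G : Type u} [Group G] {A B u v : G} (huA : u * A = A * u)
    (huB : u * B = B⁻¹ * u) (hvA : v * A = A⁻¹ * v) (hvB : v * B = B * v)
    (hAB : A * B = B * A) (hA3 : A ^ 3 = 1) (hB3 : B ^ 3 = 1) :
    (A⁻¹ * B⁻¹) * (u * v) * (A⁻¹ * B⁻¹)⁻¹ = A * B * (u * v) := by
  have huA' : u * A⁻¹ = A⁻¹ * u := by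
    have h : Commute u A := huA
    exact h.inv_right
  have hAB' : B⁻¹ * A⁻¹ = A⁻¹ * B⁻¹ := by
    have h : Commute A B := hAB
    exact (h.inv_inv).symm.eq
  have e1 : (A⁻¹ * B⁻¹) * (u * v) * (A⁻¹ * B⁻¹)⁻¹ = A⁻¹ * B⁻¹ * u * (v * B) * A := by group
  rw [e1, hvB]
  have e2 : A⁻¹ * B⁻¹ * u * (B * v) * A = A⁻¹ * B⁻¹ * (u * B) * (v * A) := by group
  rw [e2, huB, hvA]
  have e3 : A⁻¹ * B⁻¹ * (B⁻¹ * u) * (A⁻¹ * v) = A⁻¹ * B⁻¹ * B⁻¹ * (u * A⁻¹) * v := by group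
  rw [e3, huA']
  have e4 : A⁻¹ * B⁻¹ * B⁻¹ * (A⁻¹ * u) * v = A⁻¹ * (B⁻¹ * (B⁻¹ * A⁻¹)) * (u * v) := by group
  rw [e4, hAB']
  have e5 : A⁻¹ * (B⁻¹ * (A⁻¹ * B⁻¹)) * (u * v) = A⁻¹ * (B⁻¹ * A⁻¹) * B⁻¹ * (u * v) := by group
  rw [e5, hAB']
  have e6 : A⁻¹ * (A⁻¹ * B⁻¹) * B⁻¹ * (u * v) = (A⁻¹ * A⁻¹) * (B⁻¹ * B⁻¹) * (u * v) := by group
  rw [e6, inv_mul_inv_of_cube' hA3, inv_mul_inv_of_cube' hB3]

/-- TN-INVA. -/
theorem invA (hT : StTIT.{u}) : StInvA.{u} := by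
  intro G _ _ T a b u v cfg y hy2 hya
  have hyN : y ∈ normalizer (T : Set G) :=
    hT G T a b u v cfg a cfg.aT (a_ne_one cfg) y (by rw [hya]; exact ainv_T cfg)
  obtain ⟨t, ht, h | h | h | h⟩ := cfg.Nelts y hyN
  · exfalso
    rw [h, conj_eq_of_comm' (cfg.comm t ht a cfg.aT)] at hya
    exact a_ne_inv cfg hya
  · exfalso
    rw [h, conj_mul', conj_eq_of_comm' cfg.ua, conj_eq_of_comm' (cfg.comm t ht a cfg.aT)] at hya
    exact a_ne_inv cfg hya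
  · left
    obtain ⟨i, j, rfl⟩ := cfg.Telts t ht
    have hBB : b ^ j * b ^ j = 1 := by
      rw [← sq_tv' (va_pow cfg i) (vb_pow cfg j) (ab_pow cfg i j) cfg.v2, ← h]
      exact hy2
    have hB1 : b ^ j = 1 := by
      have h3 := b_pow_cube cfg j
      rw [pow_succ, pow_two, hBB, one_mul] at h3
      exact h3
    rw [hB1, mul_one] at h
    rw [isConj_iff]
    refine ⟨(a ^ i)⁻¹, ?_⟩
    rw [inv_inv, mul_assoc, va_pow cfg i, ← mul_assoc, inv_mul_inv_of_cube' (a_pow_cube cfg i), h]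
  · right
    obtain ⟨i, j, rfl⟩ := cfg.Telts t ht
    rw [isConj_iff]
    refine ⟨(a ^ i)⁻¹ * (b ^ j)⁻¹, ?_⟩
    rw [conj_uv' (ua_pow cfg i) (ub_pow cfg j) (va_pow cfg i) (vb_pow cfg j) (ab_pow cfg i j)
      (a_pow_cube cfg i) (b_pow_cube cfg j), h]

example (hT : StTIT.{u}) : StInvA.{u} := invA hT

end Cfsg.Agent.H24.Tn
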