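import Mathlib
import Cfsg.Agent.H4.TnDefs
import Cfsg.Agent.H24.TnBasic

/-!
# S3805 team project (lead: helper4): piece TN-UV

`u` and `v` are not conjugate.
-/

set_option autoImplicit false

namespace Cfsg.Agent.H24.Tn

open Subgroup Cfsg.Agent.H4.Tn

open scoped Pointwise

universe u

/-- A `3`-subgroup of `G` meeting `T` nontrivially lies in `T`. -/
theorem three_le_T (hT : StTIT.{u}) {G : Type u} [Group G] [Finite G] {T : Subgroup G}
    {a b u v : G} (cfg : Cfg G T a b u v) (R : Subgroup G) (hR : IsPGroup 3 R)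
    (t : G) (htT : t ∈ T) (ht1 : t ≠ 1) (htR : t ∈ R) : R ≤ T := by
  have : Fact (Nat.Prime 3) := ⟨Nat.prime_three⟩
  obtain ⟨Q, hQ⟩ := hR.exists_le_sylow
  obtain ⟨S, hS⟩ := cfg.syl
  obtain ⟨h, hh⟩ := MulAction.exists_smul_eq G S Q
  have key : ∀ x : G, x ∈ (Q : Subgroup G) → h⁻¹ * x * h ∈ T := by
    intro x hx
    rw [← hh] at hx
    change x ∈ MulAut.conj h • (S : Subgroup G) at hx
    rw [Subgroup.mem_pointwise_smul_iff_inv_smul_mem, hS] at hx
    simpa [MulAut.smul_def] using hx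
  have hN : h⁻¹ ∈ normalizer (T : Set G) := by
    refine hT G T a b u v cfg t htT ht1 h⁻¹ ?_
    rw [inv_inv]
    exact key t (hQ htR)
  intro x hx
  have h1 := key x (hQ hx)
  have h2 := (Subgroup.mem_normalizer_iff.mp hN x).mpr (by rw [inv_inv]; exact h1)
  exact h2

/-- TN-UV. -/
theorem uv (hT : StTIT.{u}) : StUV.{u} := by
  intro G _ _ T a b u v cfg hconj
  obtain ⟨g, hg⟩ := isConj_iff.mp hconj
  have : Fact (Nat.Prime 3) := ⟨Nat.prime_three⟩
  obtain ⟨H, hH⟩ : ∃ H : Subgroup G, H = centralizer ({v} : Set G) := ⟨_, rfl⟩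
  have hmemH : ∀ x : G, x ∈ H ↔ x * v = v * x := by
    intro x
    rw [hH]
    exact Subgroup.mem_centralizer_singleton_iff
  have hbH : b ∈ H := (hmemH b).mpr cfg.vb.symm
  have ha'H : g * a * g⁻¹ ∈ H := by
    rw [hmemH, ← hg]
    have e1 : g * a * g⁻¹ * (g * u * g⁻¹) = g * (a * u) * g⁻¹ := by group
    have e2 : g * u * g⁻¹ * (g * a * g⁻¹) = g * (u * a) * g⁻¹ := by group
    rw [e1, e2, cfg.ua]
  have hpg : ∀ x : H, x ^ 3 = 1 → IsPGroup 3 (zpowers x) := by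
    intro x hx
    rintro ⟨y, hy⟩
    obtain ⟨k, rfl⟩ := Subgroup.mem_zpowers_iff.mp hy
    refine ⟨1, ?_⟩
    apply Subtype.ext
    simp only [pow_one, Subgroup.coe_pow, Subgroup.coe_one]
    rw [← zpow_natCast, ← zpow_mul, mul_comm, zpow_mul, zpow_natCast, hx, one_zpow]
  have hb3 : (⟨b, hbH⟩ : H) ^ 3 = 1 := by
    apply Subtype.ext
    simp only [Subgroup.coe_pow, Subgroup.coe_one]
    exact cfg.b3
  have ha3 : (⟨g * a * g⁻¹, ha'H⟩ : H) ^ 3 = 1 := by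
    apply Subtype.ext
    simp only [Subgroup.coe_pow, Subgroup.coe_one]
    rw [conj_pow, cfg.a3]
    group
  obtain ⟨P, hP⟩ := (hpg _ hb3).exists_le_sylow
  obtain ⟨P₂, hP₂⟩ := (hpg _ ha3).exists_le_sylow
  obtain ⟨c, hc⟩ := MulAction.exists_smul_eq H P₂ P
  -- the conjugate `c a' c⁻¹` lies in `P`
  have hxP : c * (⟨g * a * g⁻¹, ha'H⟩ : H) * c⁻¹ ∈ (P : Subgroup H) := by
    rw [← hc]
    change _ ∈ MulAut.conj c • (P₂ : Subgroup H)
    rw [Subgroup.mem_pointwise_smul_iff_inv_smul_mem]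
    have h1 : (⟨g * a * g⁻¹, ha'H⟩ : H) ∈ (P₂ : Subgroup H) :=
      hP₂ (Subgroup.mem_zpowers _)
    have e : (MulAut.conj c)⁻¹ • (c * (⟨g * a * g⁻¹, ha'H⟩ : H) * c⁻¹)
        = (⟨g * a * g⁻¹, ha'H⟩ : H) := by
      simp [MulAut.smul_def, mul_assoc]
    rw [e]
    exact h1
  -- `P` (in `G`) lies in `T`
  have hPT : (P : Subgroup H).map H.subtype ≤ T := by
    refine three_le_T hT cfg _ (P.isPGroup'.map _) b cfg.bT (b_ne_one cfg) ?_
    exact ⟨⟨b, hbH⟩, hP (Subgroup.mem_zpowers _), rfl⟩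
  have hxT : (c : G) * (g * a * g⁻¹) * (c : G)⁻¹ ∈ T :=
    hPT ⟨_, hxP, rfl⟩
  have hxH : (c : G) * (g * a * g⁻¹) * (c : G)⁻¹ ∈ H :=
    H.mul_mem (H.mul_mem c.2 ha'H) (H.inv_mem c.2)
  have e : (c : G) * (g * a * g⁻¹) * (c : G)⁻¹ = ((c : G) * g) * a * ((c : G) * g)⁻¹ := by
    group
  rw [e] at hxT hxH
  have hN : (c : G) * g ∈ normalizer (T : Set G) :=
    hT G T a b u v cfg a cfg.aT (a_ne_one cfg) _ hxT
  have hav : a * v = v * a → False := by
    intro h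
    rw [cfg.va] at h
    exact a_ne_inv cfg (mul_right_cancel h)
  rcases conj_a_of_mem_N cfg hN with h | h
  · rw [h, hmemH] at hxH
    exact hav hxH
  · rw [h, hmemH] at hxH
    apply hav
    have h2 : Commute a⁻¹ v := hxH
    exact (Commute.inv_left_iff.mp h2).eq

example (hT : StTIT.{u}) : StUV.{u} := uv hT

end Cfsg.Agent.H24.Tn
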